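import Cfsg.Agent.Lib.BlockLocal.WeakOrth
import Cfsg.Agent.Lib.BlockLocal.RegUnit
import Cfsg.Agent.Lib.Blocks.Sections
import Cfsg.Agent.Lib.Blocks.Defect
import Cfsg.Agent.Lib.BrauerCharacters.BlockEntries
import Cfsg.Agent.Lib.CharTheory.Convolution
import Cfsg.Agent.Lib.CharTheory.Inflation
import Cfsg.Agent.Lib.CharTheory.Degree
import Cfsg.Agent.Lib.Clifford.Basic
import Mathlib.LinearAlgebra.Dimension.Constructions
import Mathlib.GroupTheory.PGroup

/-!
# Blocks with defect group `P` in a group `P * C(P)`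

The canonical character and the count of the members.
-/

set_option autoImplicit false
set_option linter.unusedSectionVars false
set_option linter.style.haveILetI false

open Finset Cfsg CfsgLib.Blocks CfsgLib.CharTheory CfsgLib.BrauerCharacters
open scoped ComplexConjugate

namespace CfsgLib.BlockLocal.Canonical

variable {G : Type*} [Group G] {p : ℕ} {P : Subgroup G}

theorem exists_mul_eq (hG : P ⊔ Subgroup.centralizer (P : Set G) = ⊤) (g : G) :
    ∃ y ∈ P, ∃ c ∈ Subgroup.centralizer (P : Set G), y * c = g :=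
  Set.mem_mul.1 (Subgroup.coe_mul_of_right_le_normalizer_left P _
    (Subgroup.centralizer_le_normalizer _) ▸ (show g ∈ ((P ⊔ Subgroup.centralizer (P : Set G) :
      Subgroup G) : Set G) from hG ▸ Subgroup.mem_top g))

theorem exists_conj_eq (hG : P ⊔ Subgroup.centralizer (P : Set G) = ⊤) (g : G) :
    ∃ y ∈ P, ∀ x ∈ P, g * x * g⁻¹ = y * x * y⁻¹ := by
  obtain ⟨y, hy, c, hc, rfl⟩ := exists_mul_eq hG g
  refine ⟨y, hy, fun x hx => ?_⟩
  calc y * c * x * (y * c)⁻¹ = y * (c * x) * c⁻¹ * y⁻¹ := by group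
    _ = y * (x * c) * c⁻¹ * y⁻¹ := by rw [← Subgroup.mem_centralizer_iff.1 hc x hx]
    _ = y * x * y⁻¹ := by group

theorem normal_of_sup_eq_top (hG : P ⊔ Subgroup.centralizer (P : Set G) = ⊤) : P.Normal :=
  ⟨fun x hx g => by
    obtain ⟨y, hy, h⟩ := exists_conj_eq hG g
    rw [h x hx]
    exact P.mul_mem (P.mul_mem hy hx) (P.inv_mem hy)⟩

variable [Fact p.Prime]

theorem exists_orderOf (hP : IsPGroup p P) {x : G} (hx : x ∈ P) :
    ∃ k : ℕ, orderOf x = p ^ k := by
  obtain ⟨k, hk⟩ := (IsPGroup.iff_orderOf.1 hP) ⟨x, hx⟩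
  exact ⟨k, by rwa [Subgroup.orderOf_mk] at hk⟩

/-- A regular element centralizes `P`. -/
theorem commute_of_regular (hP : IsPGroup p P) (hG : P ⊔ Subgroup.centralizer (P : Set G) = ⊤)
    {s : G} (hs : ¬ p ∣ orderOf s) {x : G} (hx : x ∈ P) : Commute x s := by
  obtain ⟨y, hy, hyx⟩ := exists_conj_eq hG s
  have hk : ∀ (k : ℕ), ∀ x ∈ P, s ^ k * x * (s ^ k)⁻¹ = y ^ k * x * (y ^ k)⁻¹ := by
    intro k
    induction k with
    | zero => intro x _; simp
    | succ k ih =>
      intro x hx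
      calc s ^ (k + 1) * x * (s ^ (k + 1))⁻¹ = s * (s ^ k * x * (s ^ k)⁻¹) * s⁻¹ := by
            rw [pow_succ']; group
        _ = y * (y ^ k * x * (y ^ k)⁻¹) * y⁻¹ := by
            rw [ih x hx]
            exact hyx _ (P.mul_mem (P.mul_mem (P.pow_mem hy k) hx) (P.inv_mem (P.pow_mem hy k)))
        _ = y ^ (k + 1) * x * (y ^ (k + 1))⁻¹ := by rw [pow_succ']; group
  obtain ⟨j, hj⟩ := exists_orderOf hP hy
  have h1 : Commute (s ^ p ^ j) x := by
    have h := hk (p ^ j) x hx
    rw [← hj, pow_orderOf_eq_one, one_mul, inv_one, mul_one, hj] at h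
    exact mul_inv_eq_iff_eq_mul.1 h
  obtain ⟨m, hm⟩ := exists_pow_eq_self_of_coprime
    (Nat.Coprime.pow_left j ((Fact.out : p.Prime).coprime_iff_not_dvd.2 hs))
  rw [← hm]
  exact (h1.pow_left m).symm

theorem eq_one_of_both {x : G} (hx : ∃ k : ℕ, orderOf x = p ^ k) (h : ¬ p ∣ orderOf x) : x = 1 := by
  obtain ⟨k, hk⟩ := hx
  rcases Nat.eq_zero_or_pos k with h0 | h0
  · rw [h0, pow_zero] at hk; exact orderOf_eq_one_iff.1 hk
  · exact absurd (hk ▸ dvd_pow_self p h0.ne') h

/-- If `x⁻¹ * g` is regular then `x` is the `p`-part of `g`. -/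
theorem isPPart_of_regular (hP : IsPGroup p P) (hG : P ⊔ Subgroup.centralizer (P : Set G) = ⊤)
    {g x : G} (hx : x ∈ P) (h : ¬ p ∣ orderOf (x⁻¹ * g)) : IsPPart p g x :=
  ⟨x⁻¹ * g, mul_inv_cancel_left x g, commute_of_regular hP hG h hx, exists_orderOf hP hx, h⟩

variable [Fintype G] [Fintype P]

theorem conj_mem_iff (hG : P ⊔ Subgroup.centralizer (P : Set G) = ⊤) (c x : G) :
    c * x * c⁻¹ ∈ P ↔ x ∈ P :=
  ⟨fun h => by simpa [mul_assoc] using (normal_of_sup_eq_top hG).conj_mem _ h c⁻¹,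
    fun h => (normal_of_sup_eq_top hG).conj_mem _ h c⟩

/-- The function `x * s ↦ h x * φ s` for `x ∈ P` and `s` regular. -/
noncomputable def glue (p : ℕ) (P : Subgroup G) [Fintype P] (h : P → ℂ) (φ : G → ℂ) (g : G) : ℂ :=
  ∑ x : P, if p ∣ orderOf ((x : G)⁻¹ * g) then 0 else h x * φ ((x : G)⁻¹ * g)

theorem glue_regular (hP : IsPGroup p P) (hG : P ⊔ Subgroup.centralizer (P : Set G) = ⊤)
    (h : P → ℂ) (φ : G → ℂ) {x : P} {s : G} (hs : ¬ p ∣ orderOf s) :
    glue p P h φ ((x : G) * s) = h x * φ s := by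
  classical
  rw [glue, sum_eq_single x, inv_mul_cancel_left, if_neg hs]
  · intro z _ hz
    refine if_pos ?_
    by_contra hr
    refine hz (Subtype.ext ?_)
    exact IsPPart.unique (isPPart_of_regular hP hG z.2 hr)
      ⟨s, rfl, commute_of_regular hP hG hs x.2, exists_orderOf hP x.2, hs⟩
  · exact fun h => absurd (mem_univ x) h

theorem isClassFunction_glue (hG : P ⊔ Subgroup.centralizer (P : Set G) = ⊤)
    {h : P → ℂ} (hh : ∀ (c : G) (x y : P), c * (x : G) * c⁻¹ = y → h y = h x) {φ : G → ℂ}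
    (hφ : IsClassFunction G φ) : IsClassFunction G (glue p P h φ) := by
  intro g c
  classical
  haveI := normal_of_sup_eq_top hG
  let e : P ≃ P :=
    { toFun := fun x => ⟨c * x * c⁻¹, (conj_mem_iff hG c x).2 x.2⟩
      invFun := fun x => ⟨c⁻¹ * x * c, by
        simpa using (conj_mem_iff hG c⁻¹ x).2 x.2⟩
      left_inv := fun x => Subtype.ext (by simp [mul_assoc])
      right_inv := fun x => Subtype.ext (by simp [mul_assoc]) }
  rw [glue, glue, ← Equiv.sum_comp e]
  refine sum_congr rfl fun x _ => ?_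
  have e1 : ((e x : P) : G)⁻¹ * (c * g * c⁻¹) = c * ((x : G)⁻¹ * g) * c⁻¹ := by
    show (c * x * c⁻¹)⁻¹ * _ = _
    group
  rw [e1, show orderOf (c * ((x : G)⁻¹ * g) * c⁻¹) = orderOf ((x : G)⁻¹ * g) from
    (MulAut.conj c).orderOf_eq _, hφ, hh c x (e x) rfl]

/-- Summing a function supported on `P` times the regular elements. -/
theorem sum_eq_sum_glue (hP : IsPGroup p P) (hG : P ⊔ Subgroup.centralizer (P : Set G) = ⊤)
    (f : G → ℂ) (hf : ∀ g x : G, IsPPart p g x → x ∉ P → f g = 0) :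
    ∑ g, f g = ∑ x : P, ∑ s : G, if p ∣ orderOf s then 0 else f ((x : G) * s) := by
  classical
  have h1 : ∀ g, f g = ∑ x : P, if p ∣ orderOf ((x : G)⁻¹ * g) then 0 else f g := by
    intro g
    obtain ⟨z, hz⟩ := exists_isPPart p g
    by_cases hzP : z ∈ P
    · obtain ⟨s, hs, -, -, hsr⟩ := id hz
      rw [sum_eq_single (⟨z, hzP⟩ : P), if_neg]
      · rwa [show ((⟨z, hzP⟩ : P) : G)⁻¹ * g = s by rw [← hs, inv_mul_cancel_left]]
      · intro w _ hw
        refine if_pos (by_contra fun hr => hw (Subtype.ext ?_))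
        exact IsPPart.unique (isPPart_of_regular hP hG w.2 hr) hz
      · exact fun h => absurd (mem_univ _) h
    · rw [hf g z hz hzP]
      simp
  rw [sum_congr rfl (fun g _ => h1 g), sum_comm]
  refine sum_congr rfl fun x _ => ?_
  rw [← Equiv.sum_comp (Equiv.mulLeft (x : G))]
  refine sum_congr rfl fun s _ => ?_
  simp

theorem glue_eq_zero (hP : IsPGroup p P) (hG : P ⊔ Subgroup.centralizer (P : Set G) = ⊤)
    (h : P → ℂ) (φ : G → ℂ) {g z : G} (hz : IsPPart p g z) (hzP : z ∉ P) :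
    glue p P h φ g = 0 := by
  refine sum_eq_zero fun x _ => if_pos (by_contra fun hr => hzP ?_)
  rw [← IsPPart.unique (isPPart_of_regular hP hG x.2 hr) hz]
  exact x.2

/-- Splitting an irreducible character. -/
theorem apply_mul_eq (hG : P ⊔ Subgroup.centralizer (P : Set G) = ⊤) (χ : IrrCharacter G)
    {x s : G} (hx : x ∈ P) (hs : ∀ y ∈ P, Commute y s) :
    (χ : G → ℂ) (x * s) = (χ : G → ℂ) x * (χ : G → ℂ) s / (χ : G → ℂ) 1 := by
  have h := IsIrrCharacter.sum_conj_mul χ.2 x s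
  have h1 : ∀ g : G, (χ : G → ℂ) (g * x * g⁻¹ * s) = (χ : G → ℂ) (x * s) := by
    intro g
    obtain ⟨y, hy, hyx⟩ := exists_conj_eq hG g
    rw [hyx x hx, show y * x * y⁻¹ * s = y * (x * s) * y⁻¹ by
      rw [mul_assoc (y * x), (hs y⁻¹ (P.inv_mem hy)).eq]; group]
    exact IsIrrCharacter.isClassFunction χ.2 _ _
  rw [sum_congr rfl (fun g _ => h1 g), sum_const, card_univ, nsmul_eq_mul,
    ← Nat.card_eq_fintype_card, mul_assoc, mul_div_assoc] at h
  exact mul_left_cancel₀ (Nat.cast_ne_zero.2 Nat.card_pos.ne') h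

/-- Either `P` is in the kernel, or the sum over `P` vanishes. -/
theorem kernel_or_sum_eq_zero (χ : IrrCharacter G) [P.Normal] :
    (∀ z ∈ P, (χ : G → ℂ) z = (χ : G → ℂ) 1) ∨ ∑ x : P, (χ : G → ℂ) x = 0 := by
  classical
  refine or_iff_not_imp_right.2 fun hS z hz => ?_
  set S := ∑ x : P, (χ : G → ℂ) x
  have hinner : ∀ g : G, ∑ x : P, (χ : G → ℂ) (g * x * g⁻¹ * z) = S := by
    intro g
    let e : P ≃ P :=
      { toFun := fun x => ⟨g * x * g⁻¹ * z, P.mul_mem (Subgroup.Normal.conj_mem ‹_› _ x.2 g) hz⟩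
        invFun := fun x => ⟨g⁻¹ * (x * z⁻¹) * g, by
          simpa using Subgroup.Normal.conj_mem ‹_› _ (P.mul_mem x.2 (P.inv_mem hz)) g⁻¹⟩
        left_inv := fun x => Subtype.ext (by simp [mul_assoc])
        right_inv := fun x => Subtype.ext (by simp [mul_assoc]) }
    exact Equiv.sum_comp e (fun x : P => (χ : G → ℂ) x)
  have h : ∑ g : G, ∑ x : P, (χ : G → ℂ) (g * x * g⁻¹ * z) =
      ∑ x : P, (Nat.card G : ℂ) * (χ : G → ℂ) x * (χ : G → ℂ) z / (χ : G → ℂ) 1 := by
    rw [sum_comm]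
    exact sum_congr rfl fun x _ => IsIrrCharacter.sum_conj_mul χ.2 _ _
  rw [sum_congr rfl (fun g _ => hinner g), sum_const, card_univ, nsmul_eq_mul, ← sum_div,
    ← sum_mul, ← mul_sum, ← Nat.card_eq_fintype_card] at h
  have hd := apply_one_ne_zero_of_isIrr χ.2
  rw [eq_div_iff hd] at h
  exact (mul_left_cancel₀ (mul_ne_zero (Nat.cast_ne_zero.2 Nat.card_pos.ne') hS) h).symm

variable {M : Ideal AlgInt} [M.IsPrime] {B : Set (IrrCharacter G)}

theorem apply_eq_zero (hG : P ⊔ Subgroup.centralizer (P : Set G) = ⊤) (hM : IsPModular p M)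
    (hB : IsPBlock M B) (hD : IsDefectGroup p M B P) {χ : IrrCharacter G} (hχ : χ ∈ B) {g x : G}
    (hx : IsPPart p g x) (hxP : x ∉ P) : (χ : G → ℂ) g = 0 := by
  refine irr_eq_zero_of_isPPart_notMem hM χ hx fun D hD' hxD => hxP ?_
  rw [← eq_blockOf_of_mem hB hχ] at hD'
  obtain ⟨a, ha⟩ := isDefectGroup_conj_exists hM hB hD hD'
  rw [← ha] at hxD
  obtain ⟨w, hw, rfl⟩ := hxD
  exact (conj_mem_iff hG a w).2 hw

/-- The pairing of a glued function with a member of the block. -/
theorem sum_glue_mul (hP : IsPGroup p P) (hG : P ⊔ Subgroup.centralizer (P : Set G) = ⊤)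
    (h : P → ℂ) (φ : G → ℂ) (η : IrrCharacter G) :
    ∑ g, glue p P h φ g * conj ((η : G → ℂ) g) =
      (∑ x : P, h x * conj ((η : G → ℂ) x)) * pairReg p φ (η : G → ℂ) /
        conj ((η : G → ℂ) 1) := by
  classical
  rw [sum_eq_sum_glue hP hG _ (fun g x hx hxP => by rw [glue_eq_zero hP hG h φ hx hxP, zero_mul]),
    sum_mul, sum_div]
  refine sum_congr rfl fun x _ => ?_
  rw [pairReg, mul_sum, sum_div]
  refine sum_congr rfl fun s _ => ?_
  rw [regInv]
  split_ifs with hs
  · simp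
  · rw [glue_regular hP hG h φ hs, apply_mul_eq hG η x.2 (fun y hy => commute_of_regular hP hG hs hy),
      map_div₀, map_mul, ← IsIrrCharacter.inv η.2 s]
    ring

theorem conj_apply_one (η : IrrCharacter G) : conj ((η : G → ℂ) 1) = (η : G → ℂ) 1 := by
  rw [← IsIrrCharacter.inv η.2, inv_one]

variable (hP : IsPGroup p P) (hG : P ⊔ Subgroup.centralizer (P : Set G) = ⊤)
  (hM : IsPModular p M) (hB : IsPBlock M B) (hD : IsDefectGroup p M B P)
include hP hG hM hB hD

theorem sum_mul_conj_eq {χ η : IrrCharacter G} (hχ : χ ∈ B) :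
    ∑ g, (χ : G → ℂ) g * conj ((η : G → ℂ) g) =
      (∑ x : P, (χ : G → ℂ) x * conj ((η : G → ℂ) x)) * pairReg p (χ : G → ℂ) (η : G → ℂ) /
        ((χ : G → ℂ) 1 * (η : G → ℂ) 1) := by
  classical
  rw [sum_eq_sum_glue hP hG _ (fun g x hx hxP => by
      rw [apply_eq_zero hG hM hB hD hχ hx hxP, zero_mul]), sum_mul, sum_div]
  refine sum_congr rfl fun x _ => ?_
  rw [pairReg, mul_sum, sum_div]
  refine sum_congr rfl fun s _ => ?_
  rw [regInv]
  split_ifs with hs
  · simp
  · have hc := fun y (hy : y ∈ P) => commute_of_regular hP hG hs hy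
    rw [apply_mul_eq hG η x.2 hc, apply_mul_eq hG χ x.2 hc, map_div₀, map_mul, conj_apply_one,
      ← IsIrrCharacter.inv η.2 s]
    ring

omit hD in
theorem index_factorization_of_defect {θ : IrrCharacter G} (hθ : θ ∈ B)
    (hker : ∀ x ∈ P, (θ : G → ℂ) x = (θ : G → ℂ) 1) (hD : IsDefectGroup p M B P) :
    (charDegree (θ : G → ℂ)).factorization p = P.index.factorization p ∧
      blockHeight p B (θ : G → ℂ) = 0 := by
  haveI := normal_of_sup_eq_top hG
  have hp : p.Prime := Fact.out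
  have hcard := card_isDefectGroup hM hB hD
  set a := (Nat.card G).factorization p with ha
  set d := sInf ((fun χ : IrrCharacter G => (charDegree (χ : G → ℂ)).factorization p) '' B) with hd
  have hsum : (Nat.card P).factorization p + P.index.factorization p = a := by
    rw [ha, ← Subgroup.card_mul_index P, Nat.factorization_mul Nat.card_pos.ne'
      Subgroup.index_ne_zero_of_finite, Finsupp.add_apply]
  rw [hcard, Nat.factorization_pow, Finsupp.smul_apply, hp.factorization_self, smul_eq_mul,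
    mul_one, blockDefect, ← ha, ← hd] at hsum
  have hdle : d ≤ (charDegree (θ : G → ℂ)).factorization p := Nat.sInf_le ⟨θ, hθ, rfl⟩
  obtain ⟨ψ, hψ, hψθ⟩ := exists_descend θ.2 P hker
  obtain ⟨n, hn, hn1⟩ := exists_degree_of_isIrr hψ
  have hdeg : charDegree (θ : G → ℂ) = n := by
    have h1 : (θ : G → ℂ) 1 = (n : ℂ) := by rw [hψθ 1, ← hn1]; rfl
    simp [charDegree, h1]
  have hdvd : n ∣ Nat.card (G ⧸ P) := by
    obtain ⟨m, -, hm, hm1⟩ := CharTheory.IsIrrCharacter.exists_degree_dvd hψ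
    rwa [Nat.cast_injective (R := ℂ) (hn1.symm.trans hm1)]
  have hle : (charDegree (θ : G → ℂ)).factorization p ≤ P.index.factorization p := by
    rw [hdeg, Subgroup.index_eq_card]
    exact (Nat.factorization_le_iff_dvd hn.ne' Nat.card_pos.ne').2 hdvd p
  have hθa := degree_le_factorization (p := p) θ
  refine ⟨by omega, ?_⟩
  rw [blockHeight, ← hd]
  omega

theorem exists_kernel_member : ∃ θ ∈ B, ∀ x ∈ P, (θ : G → ℂ) x = (θ : G → ℂ) 1 := by
  classical
  haveI := normal_of_sup_eq_top hG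
  by_contra hne
  push Not at hne
  have hzero : ∑ χ ∈ blockFinset B, (χ : G → ℂ) 1 * ∑ x : P, (χ : G → ℂ) x = 0 := by
    refine sum_eq_zero fun χ hχ => ?_
    obtain ⟨x, hx, hxne⟩ := hne χ (mem_blockFinset.1 hχ)
    rw [(kernel_or_sum_eq_zero χ).resolve_left fun h => hxne (h x hx), mul_zero]
  simp only [mul_sum] at hzero
  rw [sum_comm, sum_eq_single (1 : P)] at hzero
  · have hpos : (0 : ℝ) < ∑ χ ∈ blockFinset B, (charDegree (χ : G → ℂ) : ℝ) ^ 2 := by
      obtain ⟨χ, hχ⟩ := isPBlock_nonempty hB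
      refine sum_pos (fun χ _ => ?_) ⟨χ, mem_blockFinset.2 hχ⟩
      have := charDegree_ne_zero' χ
      positivity
    refine hpos.ne' (Complex.ofReal_injective ?_)
    push_cast
    rw [← hzero]
    refine sum_congr rfl fun χ _ => ?_
    rw [charDegree_cast, OneMemClass.coe_one, pow_two]
  · intro x _ hx
    rw [← finsum_mem_eq_sum_blockFinset]
    refine weakOrth_mul hM B hB 1 x (by rw [orderOf_one]; exact hM.1.not_dvd_one) ?_
    obtain ⟨k, hk⟩ := exists_orderOf hP x.2
    rw [hk]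
    refine dvd_pow_self p fun hk0 => hx (Subtype.ext ?_)
    rw [hk0, pow_zero, orderOf_eq_one_iff] at hk
    exact hk
  · exact fun h => absurd (mem_univ _) h

theorem kernel_member_unique {θ θ' : IrrCharacter G} (hθ : θ ∈ B) (hθ' : θ' ∈ B)
    (hk : ∀ x ∈ P, (θ : G → ℂ) x = (θ : G → ℂ) 1)
    (hk' : ∀ x ∈ P, (θ' : G → ℂ) x = (θ' : G → ℂ) 1) : θ = θ' := by
  classical
  by_contra hne
  have hd := apply_one_ne_zero_of_isIrr θ.2
  have hd' := apply_one_ne_zero_of_isIrr θ'.2
  have h0 : ∑ g, (θ' : G → ℂ) g * conj ((θ : G → ℂ) g) = 0 := by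
    have h := classInner_irrCharacter θ' θ
    rw [classInner, if_neg (Ne.symm hne), mul_eq_zero] at h
    exact h.resolve_left (inv_ne_zero (Nat.cast_ne_zero.2 Nat.card_pos.ne'))
  rw [sum_mul_conj_eq hP hG hM hB hD hθ',
    sum_congr rfl (g := fun _ : P => (θ' : G → ℂ) 1 * (θ : G → ℂ) 1) (fun x _ => by
      rw [hk' x x.2, hk x x.2, conj_apply_one]), sum_const, card_univ, nsmul_eq_mul,
    div_eq_zero_iff] at h0
  replace h0 : pairReg p (θ' : G → ℂ) (θ : G → ℂ) = 0 :=
    (mul_eq_zero.1 (h0.resolve_right (mul_ne_zero hd' hd))).resolve_left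
      (mul_ne_zero (Nat.cast_ne_zero.2 Fintype.card_ne_zero) (mul_ne_zero hd' hd))
  have hθ0 := (index_factorization_of_defect hP hG hM hB hθ hk hD).2
  have h := memLocalIdeal_pairReg_div_sub (M := M) p (sameBlock_of_mem hB hθ hθ') θ
  rw [h0, zero_div, sub_zero] at h
  exact not_memLocalIdeal_pairReg' hM hB hθ hθ0 h

/-- The regular part of a member is a multiple of the canonical character. -/
theorem apply_regular {θ χ : IrrCharacter G} (hθ : θ ∈ B)
    (hk : ∀ x ∈ P, (θ : G → ℂ) x = (θ : G → ℂ) 1) (hχ : χ ∈ B) {s : G} (hs : ¬ p ∣ orderOf s) :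
    (χ : G → ℂ) s = (χ : G → ℂ) 1 / (θ : G → ℂ) 1 * (θ : G → ℂ) s := by
  classical
  haveI := Fintype.ofFinite (IrrCharacter G)
  haveI := normal_of_sup_eq_top hG
  set F := glue p P (fun _ => 1) (χ : G → ℂ) with hF
  have hFc : IsClassFunction G F :=
    isClassFunction_glue hG (fun _ _ _ _ => rfl) (IsIrrCharacter.isClassFunction χ.2)
  have hexp := eq_sum_classInner hFc
  have hcoef : ∀ η : IrrCharacter G, η ≠ θ → classInner F (η : G → ℂ) = 0 := by
    intro η hη
    rw [classInner, hF, sum_glue_mul hP hG]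
    by_cases hηB : η ∈ B
    · rcases kernel_or_sum_eq_zero (P := P) η with h | h
      · exact absurd (kernel_member_unique hP hG hM hB hD hηB hθ h hk) hη
      · simp only [one_mul, ← map_sum, h, map_zero, zero_mul, zero_div, mul_zero]
    · rw [pairReg_eq_zero' hM fun h => hηB (mem_of_sameBlock hB hχ h)]
      simp
  rw [sum_eq_single θ (fun η _ hη => by rw [hcoef η hη, zero_smul])
    (fun h => absurd (mem_univ _) h)] at hexp
  set c := classInner F (θ : G → ℂ)
  have hval : ∀ t : G, ¬ p ∣ orderOf t → (χ : G → ℂ) t = c * (θ : G → ℂ) t := by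
    intro t ht
    have h := congrFun hexp t
    have h2 := glue_regular hP hG (fun _ => 1) (χ : G → ℂ) (x := (1 : P)) ht
    rw [OneMemClass.coe_one, one_mul, one_mul] at h2
    rw [Pi.smul_apply, smul_eq_mul] at h
    rw [← h2]
    exact h
  have h1 := hval 1 (by rw [orderOf_one]; exact hM.1.not_dvd_one)
  rw [hval s hs, h1, mul_div_assoc, div_self (apply_one_ne_zero_of_isIrr θ.2), mul_one]

/-- The restrictions to `P` are orthogonal. -/
theorem sum_restrict {θ χ η : IrrCharacter G} (hθ : θ ∈ B)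
    (hk : ∀ x ∈ P, (θ : G → ℂ) x = (θ : G → ℂ) 1) (hχ : χ ∈ B) (hη : η ∈ B) :
    ∑ x : P, (χ : G → ℂ) x * conj ((η : G → ℂ) x) =
      if χ = η then (Nat.card P : ℂ) * (θ : G → ℂ) 1 ^ 2 else 0 := by
  classical
  have hN : (Nat.card G : ℂ) ≠ 0 := Nat.cast_ne_zero.2 Nat.card_pos.ne'
  have hPn : (Nat.card P : ℂ) ≠ 0 := Nat.cast_ne_zero.2 Nat.card_pos.ne'
  have hdθ := apply_one_ne_zero_of_isIrr θ.2
  have hsum : ∀ {a b : IrrCharacter G}, ∑ g, (a : G → ℂ) g * conj ((b : G → ℂ) g) =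
      if a = b then (Nat.card G : ℂ) else 0 := by
    intro a b
    have h := classInner_irrCharacter a b
    rw [classInner, inv_mul_eq_iff_eq_mul₀ hN] at h
    rw [h]
    split_ifs <;> simp
  set T := pairReg p (θ : G → ℂ) (θ : G → ℂ) with hT
  have hTθ : T * (Nat.card P : ℂ) = (Nat.card G : ℂ) := by
    have h := sum_mul_conj_eq hP hG hM hB hD (η := θ) hθ
    rw [hsum, if_pos rfl, sum_congr rfl (g := fun _ : P => (θ : G → ℂ) 1 * (θ : G → ℂ) 1)
      (fun x _ => by rw [hk x x.2, conj_apply_one]), sum_const, card_univ, nsmul_eq_mul,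
      ← Nat.card_eq_fintype_card, ← hT] at h
    rw [h]
    field_simp
  have hpair : ∀ {a b : IrrCharacter G}, a ∈ B → b ∈ B → pairReg p (a : G → ℂ) (b : G → ℂ) =
      (a : G → ℂ) 1 * (b : G → ℂ) 1 / (θ : G → ℂ) 1 ^ 2 * T := by
    intro a b ha hb
    rw [hT, pairReg, pairReg, mul_sum]
    refine sum_congr rfl fun s _ => ?_
    rw [regInv, regInv]
    split_ifs with hs
    · simp
    · rw [apply_regular hP hG hM hB hD hθ hk ha hs,
        apply_regular hP hG hM hB hD hθ hk hb (s := s⁻¹) (by rwa [orderOf_inv])]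
      ring
  have h := sum_mul_conj_eq hP hG hM hB hD (η := η) hχ
  rw [hsum, hpair hχ hη] at h
  have hT0 : T ≠ 0 := fun h0 => hN (by rw [← hTθ, h0, zero_mul])
  have hda := apply_one_ne_zero_of_isIrr χ.2
  have hdb := apply_one_ne_zero_of_isIrr η.2
  field_simp at h
  split_ifs at h ⊢ with he
  · rw [← hTθ] at h
    refine mul_right_cancel₀ hT0 ?_
    linear_combination -h
  · refine mul_right_cancel₀ hT0 ?_
    linear_combination -h

/-- A class function of `P` orthogonal to all the restrictions is zero. -/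
theorem eq_zero_of_pairing (h : ConjClasses P → ℂ)
    (hh : ∀ η ∈ B, ∑ x : P, h (ConjClasses.mk x) * conj ((η : G → ℂ) x) = 0) : h = 0 := by
  classical
  haveI := normal_of_sup_eq_top hG
  haveI := Fintype.ofFinite (IrrCharacter G)
  obtain ⟨θ, hθ, hk⟩ := exists_kernel_member hP hG hM hB hD
  have hinv : ∀ (c : G) (x y : P), c * (x : G) * c⁻¹ = y →
      (ConjClasses.mk y : ConjClasses P) = ConjClasses.mk x := by
    intro c x y hxy
    obtain ⟨z, hz, hzx⟩ := exists_conj_eq hG c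
    refine (ConjClasses.mk_eq_mk_iff_isConj.2 (isConj_iff.2 ⟨⟨z, hz⟩, Subtype.ext ?_⟩)).symm
    show z * (x : G) * z⁻¹ = y
    rw [← hzx x x.2, hxy]
  refine funext fun c => ?_
  induction c using Quotient.inductionOn with
  | h x =>
    set F := glue p P (fun y => h (ConjClasses.mk y)) (θ : G → ℂ) with hF
    have hFc : IsClassFunction G F := isClassFunction_glue hG
      (fun c x y hxy => congrArg h (hinv c x y hxy)) (IsIrrCharacter.isClassFunction θ.2)
    have hF0 : F = 0 := eq_zero_of_forall_classInner hFc fun η => by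
      rw [classInner, hF, sum_glue_mul hP hG]
      by_cases hη : η ∈ B
      · have := hh η hη
        change ∑ y : P, h (ConjClasses.mk y) * conj ((η : G → ℂ) y) = 0 at this
        rw [this]
        simp
      · rw [pairReg_eq_zero' hM fun h => hη (mem_of_sameBlock hB hθ h)]
        simp
    have h2 := congrFun hF0 ((x : G) * 1)
    rw [hF, glue_regular hP hG _ _ (by rw [orderOf_one]; exact hM.1.not_dvd_one)] at h2
    exact (mul_eq_zero.1 h2).resolve_right (apply_one_ne_zero_of_isIrr θ.2)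

/-- The number of members is the number of classes of `P`. -/
theorem card_block : Nat.card B = Nat.card (ConjClasses P) := by
  classical
  haveI := normal_of_sup_eq_top hG
  haveI := Fintype.ofFinite (IrrCharacter G)
  haveI := Fintype.ofFinite (ConjClasses P)
  haveI := Fintype.ofFinite B
  obtain ⟨θ, hθ, hk⟩ := exists_kernel_member hP hG hM hB hD
  let Φ : (ConjClasses P → ℂ) →ₗ[ℂ] (B → ℂ) :=
    { toFun := fun h χ => ∑ x : P, h (ConjClasses.mk x) * conj (((χ : IrrCharacter G) : G → ℂ) x)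
      map_add' := fun a b => funext fun χ => by
        simp only [Pi.add_apply, add_mul, sum_add_distrib]
      map_smul' := fun r a => funext fun χ => by
        simp only [Pi.smul_apply, smul_eq_mul, RingHom.id_apply, mul_assoc, mul_sum] }
  have hinj : Function.Injective Φ :=
    (injective_iff_map_eq_zero Φ).2 fun h hh =>
      eq_zero_of_pairing hP hG hM hB hD h fun η hη => congrFun hh ⟨η, hη⟩
  have hsurj : Function.Surjective Φ := by
    have hres : ∀ (η : IrrCharacter G) (x y : P), IsConj x y →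
        (η : G → ℂ) x = (η : G → ℂ) y := fun η x y hxy =>
      irr_apply_eq_of_isConj (P.subtype.map_isConj hxy) η
    intro v
    set K := (Nat.card P : ℂ) * (θ : G → ℂ) 1 ^ 2 with hK
    have hK0 : K ≠ 0 := mul_ne_zero (Nat.cast_ne_zero.2 Nat.card_pos.ne')
      (pow_ne_zero _ (apply_one_ne_zero_of_isIrr θ.2))
    refine ⟨Quotient.lift (fun x : P => ∑ η : B, v η / K * ((η : IrrCharacter G) : G → ℂ) x)
      (fun x y hxy => sum_congr rfl fun η _ => by rw [hres η x y hxy]), funext fun χ => ?_⟩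
    show ∑ x : P, (∑ η : B, v η / K * ((η : IrrCharacter G) : G → ℂ) x) *
      conj (((χ : IrrCharacter G) : G → ℂ) x) = v χ
    simp only [sum_mul, mul_assoc]
    rw [sum_comm]
    simp only [← mul_sum]
    rw [sum_eq_single χ, sum_restrict hP hG hM hB hD hθ hk χ.2 χ.2, if_pos rfl, div_mul_cancel₀ _ hK0]
    · intro η _ hη
      rw [sum_restrict hP hG hM hB hD hθ hk η.2 χ.2, if_neg fun h => hη (Subtype.ext h), mul_zero]
    · exact fun h => absurd (mem_univ _) h
  have h := (LinearEquiv.ofBijective Φ ⟨hinj, hsurj⟩).finrank_eq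
  rw [Module.finrank_fintype_fun_eq_card, Module.finrank_fintype_fun_eq_card] at h
  rw [Nat.card_eq_fintype_card, Nat.card_eq_fintype_card, h]


/-- Every irreducible character of `P` gives a member of the block. -/
theorem exists_member_of_irr (φ : IrrCharacter P) : ∃ χ ∈ B,
    (charDegree (χ : G → ℂ)).factorization p =
      P.index.factorization p + (charDegree (φ : P → ℂ)).factorization p := by
  classical
  haveI := normal_of_sup_eq_top hG
  obtain ⟨θ, hθ, hk⟩ := exists_kernel_member hP hG hM hB hD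
  set h : ConjClasses P → ℂ := Quotient.lift (fun x : P => (φ : P → ℂ) x)
    (fun x y hxy => irr_apply_eq_of_isConj hxy φ) with hh
  have hne : ¬ ∀ η ∈ B, ∑ x : P, h (ConjClasses.mk x) * conj ((η : G → ℂ) x) = 0 := fun hall =>
    apply_one_ne_zero_of_isIrr φ.2
      (congrFun (eq_zero_of_pairing hP hG hM hB hD h hall) (ConjClasses.mk (1 : P)))
  push Not at hne
  obtain ⟨χ, hχ, hχφ⟩ := hne
  refine ⟨χ, hχ, ?_⟩
  have h1 : classInner (fun x : P => (χ : G → ℂ) x) (φ : P → ℂ) ≠ 0 := by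
    rw [classInner_conj_symm]
    refine fun h0 => hχφ ?_
    rw [map_eq_zero_iff _ (RingHom.injective _), classInner, mul_eq_zero] at h0
    exact h0.resolve_left (inv_ne_zero (Nat.cast_ne_zero.2 Nat.card_pos.ne'))
  have hinv : ∀ g : G, CfsgLib.Clifford.conjChar P (φ : P → ℂ) g = φ := by
    intro g
    funext x
    obtain ⟨y, hy, hyx⟩ := exists_conj_eq hG g
    refine (irr_apply_eq_of_isConj (isConj_iff.2 ⟨⟨y, hy⟩, Subtype.ext ?_⟩) φ).symm
    exact (hyx x x.2).symm
  have hres := CfsgLib.Clifford.res_eq_of_invariant P χ.2 φ.2 hinv h1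
  obtain ⟨e, he⟩ := IsCharacter.exists_classInner_eq_nat
    (CfsgLib.Coherence.isCharacter_comp (IsIrrCharacter.isCharacter χ.2) P.subtype) φ
  rw [show classInner (fun x : P => (χ : G → ℂ) (P.subtype x)) (φ : P → ℂ) =
    classInner (fun x : P => (χ : G → ℂ) x) (φ : P → ℂ) from rfl] at he
  rw [he] at hres
  have hval : ∀ x : P, (χ : G → ℂ) x = (e : ℂ) * (φ : P → ℂ) x := fun x => congrFun hres x
  obtain ⟨d, hd, hd1⟩ := exists_degree_of_isIrr θ.2
  have hsum := sum_restrict hP hG hM hB hD hθ hk hχ hχ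
  rw [if_pos rfl, hd1, sum_congr rfl (g := fun x : P => (e : ℂ) ^ 2 *
    ((φ : P → ℂ) x * conj ((φ : P → ℂ) x))) (fun x _ => by
      rw [hval, map_mul, map_natCast]; ring), ← mul_sum] at hsum
  have hφn := classInner_self_of_isIrr φ.2
  rw [classInner, inv_mul_eq_iff_eq_mul₀ (Nat.cast_ne_zero.2 Nat.card_pos.ne'), mul_one] at hφn
  rw [hφn, mul_comm (Nat.card P : ℂ)] at hsum
  have hed : e = d := by
    have h2 : ((e ^ 2 : ℕ) : ℂ) = ((d ^ 2 : ℕ) : ℂ) := by
      push_cast
      exact mul_right_cancel₀ (Nat.cast_ne_zero.2 Nat.card_pos.ne') hsum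
    exact Nat.pow_left_injective two_ne_zero (Nat.cast_injective h2)
  obtain ⟨m, hm, hm1⟩ := exists_degree_of_isIrr φ.2
  have hdθ : charDegree (θ : G → ℂ) = d := by simp [charDegree, hd1]
  have hmφ : charDegree (φ : P → ℂ) = m := by simp [charDegree, hm1]
  have hdm : charDegree (χ : G → ℂ) = d * m := by
    have h3 : (χ : G → ℂ) 1 = ((d * m : ℕ) : ℂ) := by
      rw [← OneMemClass.coe_one P, hval, hed, hm1, Nat.cast_mul]
    exact Nat.cast_injective (R := ℂ) ((coe_charDegree χ).trans h3)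
  rw [hdm, hmφ, ← (index_factorization_of_defect hP hG hM hB hθ hk hD).1, hdθ,
    Nat.factorization_mul hd.ne' hm.ne', Finsupp.add_apply]

end CfsgLib.BlockLocal.Canonical
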