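import Cfsg.Agent.Lib.BlockSections.Exceptional
import Cfsg.Agent.Lib.BlockSections.Cyclotomic

/-!
# The regular form of the principal block for a Sylow subgroup of order `p`

The restrictions of the principal block to the regular elements are spanned by rows which are
constant integers on the nontrivial elements of the Sylow subgroup. On integral combinations which
do not vanish at `1`, the mean of `p` times the regular norm over the Galois conjugates is at least
the number of these rows.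
-/

set_option autoImplicit false
set_option linter.unusedSectionVars false
set_option linter.style.haveILetI false

namespace CfsgLib.BlockLocal.DefectOne

open Cfsg CfsgLib.CharTheory CfsgLib.Blocks CfsgLib.BrauerCharacters CfsgLib.BlockSections
  CfsgLib.BlockSections.Exceptional CfsgLib.Jordan Finset
open scoped ComplexConjugate

variable {H : Type*} [Group H] [Fintype H] {p : ℕ} [hp : Fact p.Prime] {P : Sylow p H} {m : ℕ}
variable {M : Ideal AlgInt} [M.IsPrime]

theorem mem_orbit_of_mem_sylow (hP : Nat.card (P : Subgroup H) = p) {y : H}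
    (hy : y ∈ (P : Subgroup H)) (h1 : y ≠ 1) : Subgroup.zpowers y = (P : Subgroup H) := by
  haveI : Finite H := inferInstance
  refine Subgroup.eq_of_le_of_card_ge (Subgroup.zpowers_le.2 hy) ?_
  rw [Nat.card_zpowers, hP]
  rcases (Nat.dvd_prime hp.out).1 (hP ▸ Subgroup.orderOf_dvd_natCard _ hy) with e | e
  · exact absurd (orderOf_eq_one_iff.1 e) h1
  · exact e.ge

/-- A Sylow subgroup of order `p` satisfies the hypotheses of the structure theorem. -/
theorem isFrobSylow (hP : Nat.card (P : Subgroup H) = p)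
    (hm : (Subgroup.centralizer ((P : Subgroup H) : Set H)).relIndex
      (Subgroup.normalizer ((P : Subgroup H) : Set H)) = m) : IsFrobSylow P m where
  comm := by
    haveI := isCyclic_of_prime_card (α := (P : Subgroup H)) hP
    exact IsCyclic.isMulCommutative
  index := hm
  free y hy h1 := by
    refine le_antisymm (fun n hn => ?_) fun n hn => ⟨?_, ?_⟩
    · rw [← mem_orbit_of_mem_sylow hP hy h1, Subgroup.mem_centralizer_iff]
      rintro h ⟨k, rfl⟩
      exact (Commute.zpow_left (Subgroup.mem_centralizer_singleton_iff.1 hn.1).symm k).eq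
    · exact Subgroup.mem_centralizer_singleton_iff.2 (Subgroup.mem_centralizer_iff.1 hn y hy).symm
    · exact Subgroup.centralizer_le_normalizer _ hn

section

variable (hF : IsFrobSylow P m) (hM : IsPModular p M)
include hF hM

open scoped Classical in
/-- The singular elements meet each section of the Sylow subgroup `m` times. -/
theorem sum_section_count {g : H} (hg : p ∣ orderOf g) :
    ((univ : Finset (P : Subgroup H)).filter
      fun y : (P : Subgroup H) => y ≠ 1 ∧ ∃ z, IsPPart p g z ∧ IsConj (y : H) z).card = m := by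
  obtain ⟨z, hz⟩ := exists_isPPart p g
  obtain ⟨k, hk⟩ : ∃ k : ℕ, orderOf z = p ^ k := by
    obtain ⟨u, -, -, h, -⟩ := id hz; exact h
  obtain ⟨Q, hQ⟩ := (IsPGroup.of_card (n := k) (show Nat.card (Subgroup.zpowers z) = p ^ k by
    rw [Nat.card_zpowers, hk])).exists_le_sylow
  obtain ⟨c, hc⟩ := MulAction.exists_smul_eq H P Q
  rw [← hc] at hQ
  obtain ⟨v, hv, hvz⟩ := Subgroup.mem_map.1 (hQ (Subgroup.mem_zpowers z))
  change c * v * c⁻¹ = z at hvz
  have hv1 : v ≠ 1 := fun e => (isPPart_eq_one_iff hz).1 (by rw [← hvz, e]; group) hg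
  have hconj : IsConj v z := isConj_iff.2 ⟨c, hvz⟩
  rw [← card_autP hF, Nat.card_eq_fintype_card, ← card_univ]
  symm
  refine card_bij (fun α _ => (α : MulAut (P : Subgroup H)) ⟨v, hv⟩) (fun α _ => ?_)
    (fun α _ β _ e => Subtype.ext (eq_of_autP_apply hF α.2 β.2
      (fun e' => hv1 (congrArg Subtype.val e')) e)) (fun y hy => ?_)
  · refine mem_filter.2 ⟨mem_univ _, fun e => hv1 ?_, z, hz, ?_⟩
    · exact congrArg Subtype.val ((map_eq_one_iff _ (MulEquiv.injective _)).1 e)
    · exact ((isConj_iff_autP hF).2 ⟨α, α.2, rfl⟩).symm.trans hconj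
  · obtain ⟨-, -, z', hz', hyz⟩ := mem_filter.1 hy
    rw [IsPPart.unique hz' hz] at hyz
    obtain ⟨α, hα, he⟩ := (isConj_iff_autP hF (y := ⟨v, hv⟩)).1 (hconj.trans hyz.symm)
    exact ⟨⟨α, hα⟩, mem_univ _, he⟩

open scoped Classical in
/-- The regular inner product of two members of the principal block. -/
theorem regInner_principal (hP : Nat.card (P : Subgroup H) = p) {χ ψ : IrrCharacter H}
    (hχ : χ ∈ principalBlock M H) (hψ : ψ ∈ principalBlock M H) :
    regInner p (χ : H → ℂ) (ψ : H → ℂ) = (if χ = ψ then 1 else 0) -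
      ((p : ℂ) * (m : ℂ))⁻¹ * ∑ y : (P : Subgroup H),
        if y = 1 then 0 else (χ : H → ℂ) y * conj ((ψ : H → ℂ) y) := by
  set f : H → ℂ := fun g => (χ : H → ℂ) g * conj ((ψ : H → ℂ) g) with hf
  have hfc : IsClassFunction H f := fun g c => by
    simp only [hf, IsIrrCharacter.isClassFunction χ.2 g c, IsIrrCharacter.isClassFunction ψ.2 g c]
  have hH : (Nat.card H : ℂ) ≠ 0 := Nat.cast_ne_zero.2 Nat.card_pos.ne'
  have hp0 : (p : ℂ) ≠ 0 := Nat.cast_ne_zero.2 hp.out.ne_zero
  have hm0 : (m : ℂ) ≠ 0 := by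
    rw [← card_autP hF]; exact Nat.cast_ne_zero.2 Nat.card_pos.ne'
  have hsec : ∀ y : (P : Subgroup H), y ≠ 1 →
      ∑ g : H, (if ∃ z, IsPPart p g z ∧ IsConj (y : H) z then f g else 0) =
        (Nat.card H : ℂ) * (p : ℂ)⁻¹ * f y := by
    intro y hy
    have hy1 : (y : H) ≠ 1 := fun e => hy (Subtype.ext e)
    haveI := Fintype.ofFinite (Subgroup.centralizer ({(y : H)} : Set H))
    obtain ⟨O, -, -, hreg, hcard, -⟩ := exists_complement hF y.2 hy1
    have h := card_mul_sum_section (p := p) (y := (y : H)) (isPElem hF hM y.2) hfc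
    rw [sum_congr rfl (g := fun s : Subgroup.centralizer ({(y : H)} : Set H) =>
      if s ∈ O then f y else 0) (fun s _ => by
        by_cases hs : p ∣ orderOf s
        · rw [if_pos hs, if_neg fun h => (hreg s).2 h hs]
        · rw [if_neg hs, if_pos ((hreg s).1 hs)]
          simp only [hf]
          rw [apply_section hF hM hχ (isPPart_coe (isPElem hF hM y.2) hs) y.2 hy1,
            apply_section hF hM hψ (isPPart_coe (isPElem hF hM y.2) hs) y.2 hy1]),
      show ∑ s : Subgroup.centralizer ({(y : H)} : Set H), (if s ∈ O then f y else 0) =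
        (Nat.card O : ℂ) * f y by
          rw [← sum_filter, sum_const, nsmul_eq_mul, ← Fintype.card_subtype, Nat.card_eq_fintype_card],
      ← hcard, hP] at h
    push_cast at h
    have hO : (Nat.card O : ℂ) ≠ 0 := Nat.cast_ne_zero.2 Nat.card_pos.ne'
    refine mul_left_cancel₀ (mul_ne_zero hO hp0) (h.trans ?_)
    field_simp
  have hsing : (m : ℂ) * ∑ g : H, (if p ∣ orderOf g then f g else 0) =
      (Nat.card H : ℂ) * (p : ℂ)⁻¹ * ∑ y : (P : Subgroup H), if y = 1 then 0 else f y := by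
    rw [mul_sum, mul_sum, sum_congr rfl (g := fun g => ∑ y : (P : Subgroup H),
      if y ≠ 1 ∧ ∃ z, IsPPart p g z ∧ IsConj (y : H) z then f g else 0) (fun g _ => by
        by_cases hg : p ∣ orderOf g
        · rw [if_pos hg, ← sum_filter, sum_const, sum_section_count hF hM hg, nsmul_eq_mul]
        · rw [if_neg hg, mul_zero]
          refine (sum_eq_zero fun y _ => if_neg ?_).symm
          rintro ⟨hy, z, hz, hc⟩
          refine hy (Subtype.ext (isConj_one_left.1 ?_))
          rw [← (isPPart_eq_one_iff hz).2 hg]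
          exact hc), sum_comm]
    refine sum_congr rfl fun y _ => ?_
    by_cases hy : y = 1
    · simp [hy]
    · simp only [hy, ne_eq, not_false_eq_true, true_and, if_false]
      exact hsec y hy
  have htot : classInner (χ : H → ℂ) (ψ : H → ℂ) = if χ = ψ then 1 else 0 := classInner_irrCharacter χ ψ
  rw [← htot, regInner, classInner, classInner,
    sum_congr rfl (g := fun g => f g - if p ∣ orderOf g then f g else 0) (fun g _ => by
      rw [pRegularPart_apply]; split_ifs <;> simp [hf]), sum_sub_distrib, mul_sub]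
  congr 1
  refine mul_left_cancel₀ (mul_ne_zero hH hm0) ?_
  calc (Nat.card H : ℂ) * m * ((Nat.card H : ℂ)⁻¹ * ∑ g : H, if p ∣ orderOf g then f g else 0)
      = (m : ℂ) * ∑ g : H, (if p ∣ orderOf g then f g else 0) := by field_simp
    _ = _ := by rw [hsing]; field_simp; rfl

/-- A member other than the trivial one does not vanish on all of `P#`. -/
theorem exists_apply_ne_zero {χ : IrrCharacter H} (hχ : χ ∈ principalBlock M H)
    (hP1 : Nat.card (P : Subgroup H) ≠ 1) :
    ∃ y : (P : Subgroup H), y ≠ 1 ∧ (χ : H → ℂ) y ≠ 0 := by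
  classical
  haveI : Nontrivial (P : Subgroup H) := Finite.one_lt_card_iff_nontrivial.1
    (by have := Nat.card_pos (α := (P : Subgroup H)); omega)
  by_contra hcon
  push Not at hcon
  have hB : IsPBlock M (principalBlock M H) := finite_isPBlock_principalBlock M
  have htrivB : trivIrr H ∈ principalBlock M H := sameBlock_refl _
  have hne : χ ≠ trivIrr H := by
    rintro rfl
    obtain ⟨y, hy⟩ := exists_ne (1 : (P : Subgroup H))
    exact one_ne_zero (hcon y hy)
  refine regEntry_ne_zero (p := p) (weakOrth hM hB) hM hB hχ htrivB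
      (CfsgLib.BlockLocal.blockHeight_trivIrr _) ?_
  have hz : pRegularPart p (χ : H → ℂ) = (χ : H → ℂ) := by
    funext g
    rw [pRegularPart_apply]
    split_ifs with hg
    swap
    · rfl
    have h0 := sum_section_count hF hM hg
    have hm0 : 0 < m := by rw [← card_autP hF]; exact Nat.card_pos
    obtain ⟨y, hy⟩ := card_pos.1 (h0 ▸ hm0)
    obtain ⟨-, hy1, z, hz, hc⟩ := mem_filter.1 hy
    obtain ⟨c, hc⟩ := isConj_iff.1 hc
    have hzc := IsPPart.conj hz c⁻¹
    rw [inv_inv, show c⁻¹ * z * c = (y : H) by rw [← hc]; group] at hzc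
    rw [← IsIrrCharacter.isClassFunction χ.2 g c⁻¹, inv_inv,
      apply_section hF hM hχ hzc y.2 (fun e => hy1 (Subtype.ext e)), hcon y hy1]
  have hri : regInner p (χ : H → ℂ) (trivIrr H : H → ℂ) = 0 := by
    rw [regInner, hz]
    exact classInner_eq_zero_of_ne χ.2 (trivIrr H).2 fun e => hne (Subtype.ext e)
  simp [regEntry, hri]

end

/-- Rows with constant values, one further row `η`, and the relation among them. -/
structure Rows (H : Type*) [Group H] [Fintype H] (p : ℕ) (M : Ideal AlgInt) where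
  /-- the rows -/
  X : Finset (IrrCharacter H)
  /-- their constants -/
  a : IrrCharacter H → ℤ
  /-- the coefficient of the further row -/
  D : ℤ
  /-- the number of classes -/
  t : ℕ
  /-- the further row -/
  η : IrrCharacter H
  sub : ∀ χ ∈ X, χ ∈ principalBlock M H
  a_ne : ∀ χ ∈ X, a χ ≠ 0
  D_ne : D ≠ 0
  t_pos : 1 ≤ t
  norm : (t : ℤ) * ∑ χ ∈ X, a χ ^ 2 + D ^ 2 = (p : ℤ)
  inner : ∀ χ ∈ X, ∀ ψ ∈ X, (p : ℂ) * regInner p (χ : H → ℂ) (ψ : H → ℂ) =
    (p : ℂ) * (by classical exact if χ = ψ then 1 else 0) - (t : ℂ) * (a χ : ℂ) * (a ψ : ℂ)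
  rel : ∀ g : H, ¬ p ∣ orderOf g →
    (D : ℂ) * (η : H → ℂ) g + ∑ χ ∈ X, (a χ : ℂ) * (χ : H → ℂ) g = 0
  other : ∀ χ ∈ principalBlock M H, χ ∉ X → ∀ g : H, ¬ p ∣ orderOf g →
    (χ : H → ℂ) g = (η : H → ℂ) g

theorem exists_rows (hM : IsPModular p M) (hP : Nat.card (P : Subgroup H) = p)
    (hm : (Subgroup.centralizer ((P : Subgroup H) : Set H)).relIndex
      (Subgroup.normalizer ((P : Subgroup H) : Set H)) = m) (hm1 : 1 < m) :
    Nonempty (Rows H p M) := by
  classical
  have hF := isFrobSylow hP hm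
  haveI : Nontrivial (P : Subgroup H) := Finite.one_lt_card_iff_nontrivial.1 (by
    rw [hP]; exact hp.out.one_lt)
  haveI := Fintype.ofFinite (IrrCharacter H)
  have hp0 : (p : ℂ) ≠ 0 := Nat.cast_ne_zero.2 hp.out.ne_zero
  have hm0 : (m : ℂ) ≠ 0 := Nat.cast_ne_zero.2 (by omega)
  have hcard1 : ((univ : Finset (P : Subgroup H)).filter fun y => ¬ y = 1).card + 1 = p := by
    rw [filter_ne', card_erase_add_one (mem_univ _), card_univ, ← Nat.card_eq_fintype_card, hP]
  -- inner products of constant rows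
  have hin : ∀ (a : IrrCharacter H → ℤ) (t : ℕ), t * m + 1 = p → ∀ χ ψ : IrrCharacter H,
      χ ∈ principalBlock M H → ψ ∈ principalBlock M H →
      (∀ y : (P : Subgroup H), y ≠ 1 → (χ : H → ℂ) y = (a χ : ℂ)) →
      (∀ y : (P : Subgroup H), y ≠ 1 → (ψ : H → ℂ) y = (a ψ : ℂ)) →
      (p : ℂ) * regInner p (χ : H → ℂ) (ψ : H → ℂ) =
        (p : ℂ) * (if χ = ψ then 1 else 0) - (t : ℂ) * (a χ : ℂ) * (a ψ : ℂ) := by
    intro a t ht χ ψ hχ hψ hax haψ
    rw [regInner_principal hF hM hP hχ hψ, sum_congr rfl (g := fun y : (P : Subgroup H) =>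
      if ¬ y = 1 then (a χ : ℂ) * (a ψ : ℂ) else 0) (fun y _ => by
        by_cases hy : y = 1
        · simp [hy]
        · rw [if_neg hy, if_pos hy, hax y hy, haψ y hy, map_intCast]),
      ← sum_filter, sum_const, nsmul_eq_mul]
    have : (((univ : Finset (P : Subgroup H)).filter fun y => ¬ y = 1).card : ℂ) = (t : ℂ) * m := by
      have e : ((univ : Finset (P : Subgroup H)).filter fun y => ¬ y = 1).card = t * m := by omega
      rw [e, Nat.cast_mul]
    rw [this, mul_sub]
    field_simp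
  have hone : ¬ p ∣ orderOf (1 : H) := by rw [orderOf_one]; exact hp.out.not_dvd_one
  by_cases hm2 : m + 1 < Nat.card (P : Subgroup H)
  · obtain ⟨E⟩ := exists_excData hF hM hm1 hm2
    obtain ⟨ψ0, hψ0⟩ : ∃ ψ0 : ((P : Subgroup H) →* ℂˣ), ψ0 ≠ 1 := by
      haveI := hF.comm
      letI : CommGroup (P : Subgroup H) := { mul_comm := mul_comm' }
      haveI : Nontrivial ((P : Subgroup H) →* ℂˣ) := Finite.one_lt_card_iff_nontrivial.1 (by
        rw [CommGroup.card_monoidHom_of_hasEnoughRootsOfUnity, hP]; exact hp.out.one_lt)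
      exact exists_ne 1
    have hY : Nat.card E.Y * m + 1 = p := E.card_Y.trans hP
    have hval : ∀ χ ∈ E.X, ∀ y : (P : Subgroup H), y ≠ 1 → (χ : H → ℂ) y = (E.a χ : ℂ) :=
      fun χ hχ y hy => E.val_X χ hχ y y (isPPart_self hF hM y.2) y.2 fun e => hy (Subtype.ext e)
    have hD : (Nat.card E.Y : ℤ) * E.d - E.δ ≠ 0 := by
      intro h
      have h2 := E.two_le
      have h3 : (Nat.card E.Y : ℤ) ∣ E.δ := ⟨E.d, by linarith⟩
      have h4 := Int.natAbs_dvd_natAbs.2 h3
      have h5 : E.δ.natAbs = 1 := by rcases E.sign with e | e <;> rw [e] <;> rfl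
      rw [h5, Int.natAbs_natCast, Nat.dvd_one] at h4
      omega
    have hXB : ∀ χ ∈ E.X, χ ∈ principalBlock M H := fun χ hχ => by
      rw [E.union]; exact Or.inl hχ
    refine ⟨⟨E.X.toFinite.toFinset, E.a, (Nat.card E.Y : ℤ) * E.d - E.δ, Nat.card E.Y, E.ζ ψ0,
      fun χ hχ => hXB χ (by simpa using hχ), fun χ hχ => E.a_ne χ (by simpa using hχ),
      hD, by have := E.two_le; omega, ?_, ?_, ?_, ?_⟩⟩
    · have h := E.norm
      rw [finsum_mem_eq_finite_toFinset_sum _ E.X.toFinite] at h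
      have hY' : (Nat.card E.Y : ℤ) * m + 1 = p := by exact_mod_cast hY
      rcases E.sign with e | e <;> rw [e] at h ⊢ <;>
        linear_combination (Nat.card E.Y : ℤ) * h + hY'
    · intro χ hχ ψ hψ
      simp only [Set.Finite.mem_toFinset] at hχ hψ
      exact hin E.a _ hY χ ψ (hXB χ hχ) (hXB ψ hψ) (hval χ hχ) (hval ψ hψ)
    · intro g hg
      have h := E.reg _ (E.ζ_mem ψ0 hψ0) g hg
      rw [finsum_mem_eq_finite_toFinset_sum _ E.X.toFinite] at h
      push_cast
      exact h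
    · intro χ hχ hX g hg
      rw [E.union] at hχ
      rcases hχ with h | h
      · exact absurd (by simpa using h) hX
      · exact E.agree χ h _ (E.ζ_mem ψ0 hψ0) g hg
  · -- one class of nontrivial elements
    have hmle : m + 1 ≤ p := by
      refine le_of_le_of_eq ?_ hcard1
      rw [← card_autP hF, Nat.card_eq_fintype_card, ← card_univ]
      obtain ⟨y0, hy0⟩ := exists_ne (1 : (P : Subgroup H))
      refine Nat.add_le_add_right (card_le_card_of_injOn
        (fun α : autP P => (α : MulAut (P : Subgroup H)) y0)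
        (fun α _ => mem_filter.2 ⟨mem_univ _, fun e => hy0 ?_⟩)
        (fun α _ β _ e => Subtype.ext (eq_of_autP_apply hF α.2 β.2 hy0 e))) 1
      exact (map_eq_one_iff _ (MulEquiv.injective _)).1 e
    have hmp : m + 1 = p := by omega
    obtain ⟨y0, hy0⟩ := exists_ne (1 : (P : Subgroup H))
    have htrans : ∀ y : (P : Subgroup H), y ≠ 1 → IsConj (y0 : H) y := by
      intro y hy
      have hsurj : (univ : Finset (autP P)).image (fun α : autP P => (α : MulAut (P : Subgroup H)) y0) =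
          (univ : Finset (P : Subgroup H)).filter fun y => ¬ y = 1 := by
        refine eq_of_subset_of_card_le (fun z hz => ?_) ?_
        · obtain ⟨α, -, rfl⟩ := mem_image.1 hz
          exact mem_filter.2 ⟨mem_univ _, fun e => hy0 ((map_eq_one_iff _ (MulEquiv.injective _)).1 e)⟩
        · rw [card_image_of_injective _ fun α β e => Subtype.ext (eq_of_autP_apply hF α.2 β.2 hy0 e),
            card_univ, ← Nat.card_eq_fintype_card, card_autP hF]
          omega
      obtain ⟨α, -, hα⟩ := mem_image.1 (hsurj.symm ▸ mem_filter.2 ⟨mem_univ y, hy⟩ : y ∈ _)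
      exact (isConj_iff_autP hF).2 ⟨α, α.2, hα⟩
    have hint : ∀ χ : IrrCharacter H, ∃ z : ℤ, (χ : H → ℂ) y0 = (z : ℂ) := by
      intro χ
      obtain ⟨z, hz⟩ := exists_mult P χ 1
      suffices h : (m : ℂ) * (χ : H → ℂ) y0 =
          (((p : ℤ) * z - (charDegree (χ : H → ℂ) : ℤ) : ℤ) : ℂ) by
        have e : (χ : H → ℂ) y0 =
            (((((p : ℤ) * z - (charDegree (χ : H → ℂ) : ℤ) : ℤ) : ℚ) / (m : ℚ) : ℚ) : ℂ) := by
          rw [Rat.cast_div, Rat.cast_intCast, Rat.cast_natCast, eq_div_iff hm0, mul_comm, h]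
        obtain ⟨w, hw⟩ := exists_int_of_isIntegral_ratCast
          (e ▸ IsCharacter.isIntegral (IsIrrCharacter.isCharacter χ.2) (y0 : H))
        exact ⟨w, by rw [e, ← hw, Rat.cast_intCast]⟩
      rw [classInner, sum_congr rfl (g := fun y : (P : Subgroup H) =>
        (χ : H → ℂ) y0 + if y = 1 then ((χ : H → ℂ) 1 - (χ : H → ℂ) y0) else 0) (fun y _ => by
          simp only [MonoidHom.one_apply, Units.val_one, map_one, mul_one]
          by_cases hy : y = 1
          · subst hy; simp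
          · obtain ⟨c, hc⟩ := isConj_iff.1 (htrans y hy)
            rw [if_neg hy, add_zero, ← hc, IsIrrCharacter.isClassFunction χ.2]),
        sum_add_distrib, sum_ite_eq', if_pos (mem_univ _), sum_const, card_univ, nsmul_eq_mul,
        ← Nat.card_eq_fintype_card, hP, inv_mul_eq_iff_eq_mul₀ hp0, (charDegree_spec χ).1] at hz
      have hm' : (m : ℂ) + 1 = p := by exact_mod_cast hmp
      push_cast
      linear_combination hz + (χ : H → ℂ) y0 * hm'
    choose a ha using hint
    have hval : ∀ χ : IrrCharacter H, ∀ y : (P : Subgroup H), y ≠ 1 → (χ : H → ℂ) y = (a χ : ℂ) := by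
      intro χ y hy
      obtain ⟨c, hc⟩ := isConj_iff.1 (htrans y hy)
      rw [← ha χ, ← hc, IsIrrCharacter.isClassFunction χ.2]
    have hane : ∀ χ ∈ principalBlock M H, a χ ≠ 0 := by
      intro χ hχ h0
      obtain ⟨y, hy, hne⟩ := exists_apply_ne_zero hF hM hχ (hP.trans_ne hp.out.one_lt.ne')
      rw [hval χ y hy, h0, Int.cast_zero] at hne
      exact hne rfl
    have hy0' : (y0 : H) ≠ 1 := fun e => hy0 (Subtype.ext e)
    set BF := blockFinset (principalBlock M H) with hBF
    have htrivB : trivIrr H ∈ BF := mem_blockFinset.2 (sameBlock_refl _)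
    have hsq : ∑ χ ∈ BF, a χ ^ 2 = (p : ℤ) := by
      have h := sum_principal_sq_eq hF hM y0.2 hy0'
      rw [hP] at h
      apply Int.cast_injective (α := ℂ)
      push_cast
      rw [← h]
      exact sum_congr rfl fun χ _ => by rw [ha χ, map_intCast, sq]
    refine ⟨⟨BF.erase (trivIrr H), a, a (trivIrr H), 1, trivIrr H,
      fun χ hχ => mem_blockFinset.1 (mem_of_mem_erase hχ),
      fun χ hχ => hane χ (mem_blockFinset.1 (mem_of_mem_erase hχ)),
      hane _ (mem_blockFinset.1 htrivB), le_rfl, ?_, ?_, ?_, ?_⟩⟩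
    · rw [← hsq, ← sum_erase_add _ _ htrivB]; push_cast; ring
    · intro χ hχ ψ hψ
      exact hin a 1 (by omega) χ ψ (mem_blockFinset.1 (mem_of_mem_erase hχ))
        (mem_blockFinset.1 (mem_of_mem_erase hψ)) (hval χ) (hval ψ)
    · intro g hg
      have h := sum_reg_mul_conj hF hM hg y0.2 hy0'
      rw [← sum_erase_add _ _ htrivB] at h
      simp only [ha, map_intCast] at h
      rw [← h, add_comm, mul_comm]
      congr 1
      exact sum_congr rfl fun χ _ => mul_comm _ _
    · intro χ hχ hX g _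
      by_cases e : χ = trivIrr H
      · rw [e]
      · exact absurd (mem_erase.2 ⟨e, mem_blockFinset.2 hχ⟩) hX

section

variable (R : Rows H p M) (b : IrrCharacter H → ℂ)

open scoped Classical in
/-- The total coefficient of the rows outside `X`. -/
noncomputable def Rows.rest : ℂ :=
  ∑ χ ∈ blockFinset (principalBlock M H) \ R.X, b χ

/-- The coordinates of a combination. -/
noncomputable def Rows.coord (χ : IrrCharacter H) : ℂ :=
  (R.D : ℂ) * b χ - R.rest b * (R.a χ : ℂ)

open scoped Classical in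
theorem Rows.mul_sum_eq {g : H} (hg : ¬ p ∣ orderOf g) :
    (R.D : ℂ) * ∑ χ ∈ blockFinset (principalBlock M H), b χ * (χ : H → ℂ) g =
      ∑ χ ∈ R.X, R.coord b χ * (χ : H → ℂ) g := by
  have hsub : R.X ⊆ blockFinset (principalBlock M H) := fun χ hχ => mem_blockFinset.2 (R.sub χ hχ)
  rw [← sum_sdiff hsub, sum_congr rfl (g := fun χ => b χ * (R.η : H → ℂ) g) (fun χ hχ => by
    rw [R.other χ (mem_blockFinset.1 (mem_sdiff.1 hχ).1) (mem_sdiff.1 hχ).2 g hg]), ← sum_mul,
    show ∑ χ ∈ blockFinset (principalBlock M H) \ R.X, b χ = R.rest b from rfl]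
  have h := R.rel g hg
  simp only [Rows.coord, sub_mul, sum_sub_distrib]
  rw [mul_add, show ∑ χ ∈ R.X, (R.D : ℂ) * b χ * (χ : H → ℂ) g =
    (R.D : ℂ) * ∑ χ ∈ R.X, b χ * (χ : H → ℂ) g by
      rw [mul_sum]; exact sum_congr rfl fun _ _ => mul_assoc _ _ _,
    show ∑ χ ∈ R.X, R.rest b * (R.a χ : ℂ) * (χ : H → ℂ) g =
    R.rest b * ∑ χ ∈ R.X, (R.a χ : ℂ) * (χ : H → ℂ) g by
      rw [mul_sum]; exact sum_congr rfl fun _ _ => mul_assoc _ _ _]
  linear_combination (R.rest b) * h

open scoped Classical in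
theorem Rows.form_eq :
    (p : ℝ) * (R.D : ℝ) ^ 2 * ((Nat.card H : ℝ)⁻¹ * ∑ g : H, (if p ∣ orderOf g then 0 else
      ‖∑ χ ∈ blockFinset (principalBlock M H), b χ * (χ : H → ℂ) g‖ ^ 2)) =
    (p : ℝ) * ∑ χ ∈ R.X, ‖R.coord b χ‖ ^ 2 -
      (R.t : ℝ) * ‖∑ χ ∈ R.X, (R.a χ : ℂ) * R.coord b χ‖ ^ 2 := by
  apply Complex.ofReal_injective
  push_cast [apply_ite (fun r : ℝ => (r : ℂ))]
  simp only [← Complex.mul_conj', map_sum, map_mul, map_intCast]
  set v := R.coord b with hv
  have e1 : ∀ g : H, (R.D : ℂ) ^ 2 * (if p ∣ orderOf g then 0 else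
      (∑ χ ∈ blockFinset (principalBlock M H), b χ * (χ : H → ℂ) g) *
        ∑ χ ∈ blockFinset (principalBlock M H), conj (b χ) * conj ((χ : H → ℂ) g)) =
      ∑ χ ∈ R.X, ∑ ψ ∈ R.X, v χ * conj (v ψ) *
        (pRegularPart p (χ : H → ℂ) g * conj ((ψ : H → ℂ) g)) := by
    intro g
    by_cases hg : p ∣ orderOf g
    · rw [if_pos hg, mul_zero]
      exact (sum_eq_zero fun χ _ => sum_eq_zero fun ψ _ => by simp [pRegularPart_apply, hg]).symm
    · have h := R.mul_sum_eq b hg
      have h' := congrArg conj h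
      simp only [map_mul, map_sum, map_intCast] at h'
      rw [if_neg hg, show ∀ d A B : ℂ, d ^ 2 * (A * B) = d * A * (d * B) from fun d A B => by ring,
        h, h', sum_mul_sum]
      refine sum_congr rfl fun χ _ => sum_congr rfl fun ψ _ => ?_
      rw [pRegularPart_apply, if_neg hg]; ring
  have e2 : ∀ χ ψ : IrrCharacter H, (Nat.card H : ℂ)⁻¹ * ∑ g : H, v χ * conj (v ψ) *
      (pRegularPart p (χ : H → ℂ) g * conj ((ψ : H → ℂ) g)) =
      v χ * conj (v ψ) * regInner p (χ : H → ℂ) (ψ : H → ℂ) := fun χ ψ => by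
    rw [regInner, classInner, ← mul_sum]; ring
  rw [mul_assoc, mul_left_comm ((R.D : ℂ) ^ 2), mul_sum ((univ : Finset H)), sum_congr rfl (fun g _ => e1 g),
    sum_comm, sum_congr rfl (fun χ _ => sum_comm), mul_sum]
  simp only [mul_sum, sum_mul, ← sum_sub_distrib]
  refine Eq.trans (b := ∑ χ ∈ R.X, ∑ ψ ∈ R.X, v χ * conj (v ψ) *
    ((p : ℂ) * regInner p (χ : H → ℂ) (ψ : H → ℂ))) ?_ ?_
  · refine sum_congr rfl fun χ _ => sum_congr rfl fun ψ _ => ?_
    rw [← mul_sum, ← mul_sum, e2]; ring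
  · rw [sum_congr rfl fun χ hχ => sum_congr rfl fun ψ hψ => congrArg (v χ * conj (v ψ) * ·)
      (R.inner χ hχ ψ hψ)]
    simp only [mul_sub, sum_sub_distrib]
    congr 1
    · refine sum_congr rfl fun χ hχ => ?_
      simp only [mul_ite, mul_zero, sum_ite_eq, if_pos hχ]
      ring
    · rw [sum_comm]
      exact sum_congr rfl fun χ _ => sum_congr rfl fun ψ _ => by ring

open scoped Classical in
/-- The regular norm bounds the coordinates, and the support of their vanishing. -/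
theorem Rows.form_ge {χ₀ : IrrCharacter H} (h₀ : χ₀ ∈ R.X) (Z : Finset (IrrCharacter H))
    (hZ : Z ⊆ R.X) (hZ0 : ∀ χ ∈ Z, R.coord b χ = 0) :
    ∑ χ ∈ R.X \ Z, ‖R.coord b χ‖ ^ 2 +
      ∑ χ ∈ Z, ‖(R.a χ : ℂ) * b χ₀ - (R.a χ₀ : ℂ) * b χ‖ ^ 2 ≤
    (p : ℝ) * ((Nat.card H : ℝ)⁻¹ * ∑ g : H, (if p ∣ orderOf g then 0 else
      ‖∑ χ ∈ blockFinset (principalBlock M H), b χ * (χ : H → ℂ) g‖ ^ 2)) := by
  have hD : (R.D : ℝ) ≠ 0 := Int.cast_ne_zero.2 R.D_ne
  refine le_of_mul_le_mul_left ?_ (pow_pos (abs_pos.2 hD) 2)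
  rw [sq_abs, ← mul_assoc, mul_comm _ (p : ℝ), R.form_eq b]
  set v := R.coord b with hv
  set T := ∑ χ ∈ R.X, ‖v χ‖ ^ 2
  set A := ∑ χ ∈ R.X \ Z, (R.a χ : ℝ) ^ 2
  set SZ := ∑ χ ∈ Z, (R.a χ : ℝ) ^ 2
  have hT : ∑ χ ∈ R.X \ Z, ‖v χ‖ ^ 2 = T :=
    sum_subset sdiff_subset fun χ hχ h => by
      simp only [mem_sdiff, hχ, true_and, not_not] at h; rw [hZ0 χ h, norm_zero, zero_pow two_ne_zero]
  have hnorm : (R.t : ℝ) * (A + SZ) + (R.D : ℝ) ^ 2 = (p : ℝ) := by
    rw [sum_sdiff hZ]; exact_mod_cast R.norm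
  have hcs : ‖∑ χ ∈ R.X, (R.a χ : ℂ) * v χ‖ ^ 2 ≤ A * T := by
    rw [← sum_subset (sdiff_subset (s := R.X) (t := Z)) (fun χ hχ h => by
      simp only [mem_sdiff, hχ, true_and, not_not] at h; rw [hZ0 χ h, mul_zero]), ← hT]
    refine le_trans (pow_le_pow_left₀ (norm_nonneg _) (norm_sum_le _ _) 2) ?_
    simp only [norm_mul, Complex.norm_intCast]
    refine (sum_mul_sq_le_sq_mul_sq _ _ _).trans (le_of_eq ?_)
    simp [A, sq_abs]
  have hw : (R.D : ℝ) ^ 2 * ∑ χ ∈ Z, ‖(R.a χ : ℂ) * b χ₀ - (R.a χ₀ : ℂ) * b χ‖ ^ 2 =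
      SZ * ‖v χ₀‖ ^ 2 := by
    rw [mul_sum, sum_mul]
    refine sum_congr rfl fun χ hχ => ?_
    have e : (R.D : ℂ) * ((R.a χ : ℂ) * b χ₀ - (R.a χ₀ : ℂ) * b χ) =
        (R.a χ : ℂ) * v χ₀ - (R.a χ₀ : ℂ) * v χ := by
      simp only [hv, Rows.coord]; ring
    rw [show v χ = 0 from hZ0 χ hχ, mul_zero, sub_zero] at e
    have e2 := congrArg (fun z : ℂ => ‖z‖ ^ 2) e
    simp only [norm_mul, mul_pow, Complex.norm_intCast, sq_abs] at e2
    exact e2
  have hv0 : ‖v χ₀‖ ^ 2 ≤ T := single_le_sum (f := fun χ => ‖v χ‖ ^ 2) (fun _ _ => sq_nonneg _) h₀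
  have hSZ : 0 ≤ SZ := sum_nonneg fun _ _ => sq_nonneg _
  have hT0 : 0 ≤ T := sum_nonneg fun _ _ => sq_nonneg _
  rw [mul_add, hT, hw, ← hnorm]
  have ht : (1 : ℝ) ≤ R.t := by exact_mod_cast R.t_pos
  nlinarith [mul_le_mul_of_nonneg_left hcs (le_trans zero_le_one ht),
    mul_le_mul_of_nonneg_left hv0 hSZ, mul_nonneg (mul_nonneg (sub_nonneg.2 ht) hSZ) hT0]

open scoped Classical in
/-- The mean over the conjugates of `p` times the regular norm. -/
theorem Rows.galCard_mul_card_le {n : ℕ} [NeZero n] (w : IrrCharacter H → cycField n)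
    (hw : ∀ χ, IsIntegral ℤ (w χ : ℂ))
    (h1 : ∑ χ ∈ blockFinset (principalBlock M H), (w χ : ℂ) * (χ : H → ℂ) 1 ≠ 0) :
    (R.X.card : ℝ) * galCard n ≤ ∑ σ : Gal n,
      (p : ℝ) * ((Nat.card H : ℝ)⁻¹ * ∑ g : H, (if p ∣ orderOf g then 0 else
      ‖∑ χ ∈ blockFinset (principalBlock M H),
        ((σ (w χ) : cycField n) : ℂ) * (χ : H → ℂ) g‖ ^ 2)) := by
  set B := blockFinset (principalBlock M H)
  set v : IrrCharacter H → cycField n := fun χ =>
    (R.D : cycField n) * w χ - (∑ ψ ∈ B \ R.X, w ψ) * (R.a χ : cycField n) with hv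
  have hvσ : ∀ (σ : Gal n) χ, ((σ (v χ) : cycField n) : ℂ) =
      R.coord (fun ψ => ((σ (w ψ) : cycField n) : ℂ)) χ := by
    intro σ χ
    simp only [hv, Rows.coord, Rows.rest, map_sub, map_mul, map_intCast, map_sum]
    push_cast
    rfl
  have hv1 : ∀ χ, (v χ : ℂ) = R.coord (fun ψ => (w ψ : ℂ)) χ := fun χ => hvσ 1 χ
  obtain ⟨χ₀, h₀, hne⟩ : ∃ χ₀ ∈ R.X, v χ₀ ≠ 0 := by
    by_contra h
    push Not at h
    have h2 := R.mul_sum_eq (fun ψ => (w ψ : ℂ)) (g := (1 : H))
      (by rw [orderOf_one]; exact hp.out.not_dvd_one)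
    rw [sum_eq_zero (s := R.X) fun χ hχ => by
      rw [← hv1, h χ hχ, ZeroMemClass.coe_zero, zero_mul]] at h2
    exact h1 ((mul_eq_zero.1 h2).resolve_left (Int.cast_ne_zero.2 R.D_ne))
  set Z := R.X.filter fun χ => v χ = 0
  set u : IrrCharacter H → cycField n := fun χ =>
    (R.a χ : cycField n) * w χ₀ - (R.a χ₀ : cycField n) * w χ with hu
  have hwi : ∀ χ, IsIntegral ℤ (u χ : ℂ) := by
    intro χ
    simp only [hu]
    push_cast
    exact ((isIntegral_algebraMap (R := ℤ) (x := R.a χ)).mul (hw χ₀)).sub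
      ((isIntegral_algebraMap (R := ℤ) (x := R.a χ₀)).mul (hw χ))
  have hvi : ∀ χ, IsIntegral ℤ (v χ : ℂ) := by
    intro χ
    simp only [hv]
    push_cast
    refine ((isIntegral_algebraMap (R := ℤ) (x := R.D)).mul (hw χ)).sub
      ((IsIntegral.sum _ fun ψ _ => hw ψ).mul (isIntegral_algebraMap (R := ℤ) (x := R.a χ)))
  have hune : ∀ χ ∈ Z, u χ ≠ 0 := by
    intro χ hχ h
    obtain ⟨hX, hvz⟩ := mem_filter.1 hχ
    have e : (R.D : cycField n) * u χ = (R.a χ : cycField n) * v χ₀ - (R.a χ₀ : cycField n) * v χ := by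
      simp only [hu, hv]; ring
    rw [h, hvz, mul_zero, mul_zero, sub_zero, eq_comm, mul_eq_zero] at e
    exact e.elim (Int.cast_ne_zero.2 (R.a_ne χ hX)) hne
  refine le_trans ?_ (sum_le_sum fun σ _ => R.form_ge (fun ψ => ((σ (w ψ) : cycField n) : ℂ)) h₀ Z
    (filter_subset _ _) fun χ hχ => by
      rw [← hvσ, (mem_filter.1 hχ).2, map_zero, ZeroMemClass.coe_zero])
  have huσ : ∀ (σ : Gal n) χ, ((σ (u χ) : cycField n) : ℂ) =
      (R.a χ : ℂ) * ((σ (w χ₀) : cycField n) : ℂ) - (R.a χ₀ : ℂ) * ((σ (w χ) : cycField n) : ℂ) := by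
    intro σ χ
    simp only [hu, map_sub, map_mul, map_intCast]
    push_cast
    rfl
  simp only [← hvσ, ← huσ]
  rw [sum_add_distrib, sum_comm (t := R.X \ Z), sum_comm (t := Z),
    ← card_sdiff_add_card_eq_card (filter_subset (fun χ => v χ = 0) R.X), Nat.cast_add, add_mul,
    ← nsmul_eq_mul, ← nsmul_eq_mul, ← sum_const, ← sum_const]
  refine add_le_add (sum_le_sum fun χ hχ => galCard_le_sum_norm_sq (hvi χ) ?_)
    (sum_le_sum fun χ hχ => galCard_le_sum_norm_sq (hwi χ) (hune χ hχ))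
  intro e
  obtain ⟨hX, hnZ⟩ := mem_sdiff.1 hχ
  exact hnZ (mem_filter.2 ⟨hX, e⟩)

end

end CfsgLib.BlockLocal.DefectOne
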