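import Cfsg.Agent.Lib.BrauerPairs.InducedBridge
import Cfsg.Agent.Lib.BrauerPairs.BridgeDefect
import Cfsg.Agent.Lib.BrauerPairs.Local
import Cfsg.Agent.Lib.BrauerPairs.Nilpotent

/-!
# Root blocks: blocks of `P C(P)` below a block with defect group `P`
-/

noncomputable section

namespace CfsgLib.BlockLocal

open MonoidAlgebra Cfsg CfsgLib.BrauerPairs

variable {G : Type*} [Group G] [Finite G] {p : ℕ} [Fact p.Prime] {M : Ideal AlgInt} [M.IsPrime]
  {B : Set (IrrCharacter G)} {P : Subgroup G}

theorem sup_centralizer_le_pairStab {k : Type*} [Field k] {f : MonoidAlgebra k G}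
    (hf : IsPair p (⊤ : Subgroup G) P f) :
    P ⊔ Subgroup.centralizer (P : Set G) ≤ pairStab (⊤ : Subgroup G) P f := by
  refine sup_le (le_pairStab hf) ?_
  rw [← cenIn_top P]
  exact cenIn_le_pairStab hf

theorem isBlockIdem_sup_centralizer [CharP (Blocks.Res M) p]
    {f : MonoidAlgebra (Blocks.Res M) G} (hf : IsPair p (⊤ : Subgroup G) P f) :
    IsBlockIdem (P ⊔ Subgroup.centralizer (P : Set G)) f :=
  hf.isBlockIdem_of_between le_sup_left (by rw [cenIn_top]; exact le_sup_right)
    (sup_centralizer_le_pairStab hf)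

theorem cj_sup_centralizer {c : G} (hc : c ∈ Subgroup.normalizer (P : Set G)) :
    P ⊔ Subgroup.centralizer (P : Set G) = cj c (P ⊔ Subgroup.centralizer (P : Set G)) := by
  rw [cj, Subgroup.map_sup]
  congr 1
  · exact (cj_of_mem_normalizer hc).symm
  · exact (cj_of_mem_normalizer (normalizer_le_normalizer_cen P hc)).symm

theorem sup_centralizer_le_normalizer :
    P ⊔ Subgroup.centralizer (P : Set G) ≤ Subgroup.normalizer (P : Set G) :=
  sup_le Subgroup.le_normalizer (Subgroup.centralizer_le_normalizer _)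

/-- A block with defect group `P` has a root block in `P C(P)`, also with defect group `P`. -/
theorem exists_root (hM : IsPModular p M) (hB : IsPBlock M B) (hP : IsDefectGroup p M B P) :
    ∃ b : Set (IrrCharacter ↥(P ⊔ Subgroup.centralizer (P : Set G))),
      IsDefectGroup p M b (P.subgroupOf (P ⊔ Subgroup.centralizer (P : Set G))) ∧
      IsInducedBlock M (P ⊔ Subgroup.centralizer (P : Set G)) b B := by
  haveI := Blocks.charP_res hM
  have hbi := isBlockIdem_redElem_blockCoeff (M := M) hB
  have hD := (isDefectGroup_iff hM hB).1 hP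
  obtain ⟨e, he⟩ := exists_isMaxPair_of_isDefectIn hbi hD
  have hLe := isBlockIdem_sup_centralizer he.1.1
  obtain ⟨b, hb, hbe⟩ := exists_isPBlock_subIdem hLe
  refine ⟨b, ?_, ?_⟩
  · set L := P ⊔ Subgroup.centralizer (P : Set G) with hL
    rw [isDefectGroup_sub_iff hM hb, hbe, Subgroup.subgroupOf, Subgroup.map_comap_eq,
      Subgroup.range_subtype, inf_eq_right.2 (le_sup_left : P ≤ L)]
    obtain ⟨D, hDL⟩ := exists_isDefectIn (p := p) (le_refl L) Subgroup.le_normalizer hLe
      (mem_ctr.1 hLe.mem).2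
    have hTD := he.isDefectIn_stab hbi
    have hLT : L ≤ pairStab (⊤ : Subgroup G) P e := sup_centralizer_le_pairStab he.1.1
    have hPD : P ≤ D := by
      obtain ⟨c, hc, h⟩ := hDL.exists_conj_le he.1.1.1 le_sup_left (by
        rw [trunc_eq_self he.1.1.supp_cen]
        exact he.1.1.2.2.ne_zero)
      intro u hu
      have := h _ ((Subgroup.mem_normalizer_iff.1 (sup_centralizer_le_normalizer hc) u).1 hu)
      simpa [mul_assoc] using this
    obtain ⟨c, hc, h⟩ := hTD.exists_conj_le hDL.2.1 (hDL.1.trans hLT) hDL.2.2.1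
    have hDP : D ≤ P := fun u hu =>
      (Subgroup.mem_normalizer_iff''.1 (Subgroup.mem_inf.1 (Subgroup.mem_inf.1 hc).1).2 u).2 (h u hu)
    rwa [le_antisymm hDP hPD] at hDL
  · rw [isInducedBlock_iff hM he.1.1.1 le_sup_left sup_centralizer_le_normalizer le_sup_right hb hB,
      hbe]
    exact he.1.2

/-- The idempotent of a block of `P C(P)` inducing a block with defect group `P` belongs to a
maximal pair. -/
theorem isMaxPair_of_induced (hM : IsPModular p M) (hP : IsDefectGroup p M B P)
    {b : Set (IrrCharacter ↥(P ⊔ Subgroup.centralizer (P : Set G)))}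
    (hb : IsInducedBlock M (P ⊔ Subgroup.centralizer (P : Set G)) b B) :
    IsMaxPair p (⊤ : Subgroup G) (redElem M (blockCoeff B)) P
      (subIdem M (P ⊔ Subgroup.centralizer (P : Set G)) b) := by
  haveI := Blocks.charP_res hM
  have hbi := isBlockIdem_redElem_blockCoeff (M := M) hb.2.1
  have hD := (isDefectGroup_iff hM hb.2.1).1 hP
  obtain ⟨e, he⟩ := exists_isMaxPair_of_isDefectIn hbi hD
  have heq := (isInducedBlock_iff hM he.1.1.1 le_sup_left sup_centralizer_le_normalizer le_sup_right
    hb.1 hb.2.1).1 hb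
  have hL := isBlockIdem_subIdem (M := M) hb.1
  obtain ⟨g, hg, hne⟩ :=
    exists_isBlockIdem_mul_ne_zero (cenIn (⊤ : Subgroup G) P) hL.ne_zero
  have hgp : IsPair p (⊤ : Subgroup G) P g := ⟨he.1.1.1, le_top, hg⟩
  rw [hL.eq_of_mul_ne_zero (isBlockIdem_sup_centralizer hgp) hne] at heq ⊢
  exact PairOf.isMaxPair_of_card ⟨hgp, heq⟩ fun R g' h => he.card_le hbi h

/-- Two root blocks are conjugate in the normalizer. -/
theorem exists_normalizer_image (hM : IsPModular p M) (hP : IsDefectGroup p M B P)
    {b b' : Set (IrrCharacter ↥(P ⊔ Subgroup.centralizer (P : Set G)))}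
    (hb : IsInducedBlock M (P ⊔ Subgroup.centralizer (P : Set G)) b B)
    (hb' : IsInducedBlock M (P ⊔ Subgroup.centralizer (P : Set G)) b' B) :
    ∃ c, ∃ hc : c ∈ Subgroup.normalizer (P : Set G),
      b' = compIrr (cjEquiv c (cj_sup_centralizer hc)) '' b := by
  haveI := Blocks.charP_res hM
  obtain ⟨c, -, hcP, hce⟩ := (isMaxPair_of_induced hM hP hb).exists_conj
    (isBlockIdem_redElem_blockCoeff hb.2.1) (isMaxPair_of_induced hM hP hb')
  have hc : c ∈ Subgroup.normalizer (P : Set G) := by
    refine Subgroup.mem_normalizer_iff.2 fun u => ?_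
    constructor
    · intro hu
      rw [hcP]
      exact ⟨u, hu, rfl⟩
    · intro hu
      rw [hcP, mem_cj] at hu
      simpa [mul_assoc] using hu
  refine ⟨c, hc, subIdem_injective (M := M) hb'.1 (isPBlock_image_compIrr _ hb.1) ?_⟩
  rw [subIdem_image (cj_sup_centralizer hc), hce]

end CfsgLib.BlockLocal
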