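import Cfsg.Agent.Lib.BlockLocal.CanonicalChar
import Cfsg.Agent.Lib.BlockLocal.RootBlocks
import Cfsg.Agent.Lib.BlockLocal.NormalInduce
import Cfsg.Agent.Lib.BrauerPairs.Scalar
import Cfsg.Agent.Lib.BlockSections.Count
import Cfsg.Agent.Lib.CharTheory.Ito
import Cfsg.Agent.Lib.Clifford.DetChar

/-!
# Height zero in blocks with a normal defect group
-/

set_option autoImplicit false
set_option linter.unusedSectionVars false
set_option linter.style.haveILetI false

open Cfsg CfsgLib.Blocks CfsgLib.CharTheory CfsgLib.BrauerPairs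

namespace CfsgLib.BlockLocal

variable {G : Type*} [Group G] [Finite G] {p : ℕ} [Fact p.Prime] {M : Ideal AlgInt} [M.IsPrime]
  {B : Set (IrrCharacter G)} {P : Subgroup G}

theorem sInf_eq_index_of_defect (hM : IsPModular p M) (hB : IsPBlock M B)
    (hP : IsDefectGroup p M B P) :
    sInf ((fun χ : IrrCharacter G => (charDegree (χ : G → ℂ)).factorization p) '' B) =
      P.index.factorization p := by
  haveI := Fintype.ofFinite G
  have hp : p.Prime := Fact.out
  obtain ⟨χ, hχ⟩ := isPBlock_nonempty hB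
  have h1 := CfsgLib.BrauerCharacters.sInf_le_degree (p := p) hχ
  have h2 := CfsgLib.BrauerCharacters.degree_le_factorization (p := p) χ
  have hsum : (Nat.card P).factorization p + P.index.factorization p =
      (Nat.card G).factorization p := by
    rw [← Subgroup.card_mul_index P, Nat.factorization_mul Nat.card_pos.ne'
      Subgroup.index_ne_zero_of_finite, Finsupp.add_apply]
  rw [card_isDefectGroup hM hB hP, Nat.factorization_pow, Finsupp.smul_apply,
    hp.factorization_self, smul_eq_mul, mul_one, blockDefect] at hsum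
  omega

/-- Abelian normal defect groups give height zero. -/
theorem height_zero_of_abelian [P.Normal] (hM : IsPModular p M) (hB : IsPBlock M B)
    (hP : IsDefectGroup p M B P) (hab : ∀ a ∈ P, ∀ c ∈ P, a * c = c * a) {χ : IrrCharacter G}
    (_hχ : χ ∈ B) : blockHeight p B (χ : G → ℂ) = 0 := by
  obtain ⟨d, hd, hdvd⟩ := exists_degree_dvd_index_of_abelian χ.2 P hab
  obtain ⟨n, hn, hn1⟩ := exists_degree_of_isIrr χ.2
  have hdn : d = n := Nat.cast_injective (R := ℂ) (hd.symm.trans hn1)
  have hdeg : charDegree (χ : G → ℂ) = n := by simp [charDegree, hn1]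
  rw [blockHeight, sInf_eq_index_of_defect hM hB hP, hdeg, Nat.sub_eq_zero_iff_le]
  subst hdn
  exact (Nat.factorization_le_iff_dvd hn.ne' Subgroup.index_ne_zero_of_finite).2 hdvd p

/-- If all the irreducible characters are linear, the group is abelian. -/
theorem comm_of_all_linear {H : Type*} [Group H] [Finite H]
    (h : ∀ χ : IrrCharacter H, (χ : H → ℂ) 1 = 1) (a c : H) : a * c = c * a := by
  haveI := Fintype.ofFinite H
  have hne : a * c * (c * a)⁻¹ = 1 := by
    by_contra hne
    obtain ⟨χ, hχ⟩ := exists_irr_apply_ne hne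
    obtain ⟨l, hl⟩ := CfsgLib.Clifford.exists_linFun_of_isCharacter
      (IsIrrCharacter.isCharacter χ.2) (h χ)
    apply hχ
    have e : ∀ g, (χ : H → ℂ) g = (l g : ℂ) := fun g => by rw [hl]; rfl
    rw [e, e, map_mul, map_inv, map_mul, map_mul, mul_comm (l c), mul_inv_cancel, map_one]
  exact mul_inv_eq_one.1 hne

/-- If all heights vanish, a normal defect group is abelian. -/
theorem abelian_of_height_zero [P.Normal] (hM : IsPModular p M) (hB : IsPBlock M B)
    (hP : IsDefectGroup p M B P)
    (h0 : ∀ χ ∈ B, blockHeight p B (χ : G → ℂ) = 0) : ∀ a ∈ P, ∀ c ∈ P, a * c = c * a := by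
  classical
  haveI := Fintype.ofFinite G
  haveI : M.IsMaximal := hM.2.1
  haveI := Blocks.charP_res hM
  haveI : IsAlgClosed (Blocks.Res M) := Blocks.isAlgClosed_res
  have hp : p.Prime := Fact.out
  have hPp := isPGroup_of_isDefectGroup hP
  set C := Subgroup.centralizer (P : Set G) with hC
  set L := P ⊔ C with hL
  obtain ⟨b, hbD, hind⟩ : ∃ b : Set (IrrCharacter L),
      IsDefectGroup p M b (P.subgroupOf L) ∧ IsInducedBlock M L b B := exists_root hM hB hP
  have hmax : IsMaxPair p (⊤ : Subgroup G) (redElem M (blockCoeff B)) P (subIdem M L b) :=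
    isMaxPair_of_induced hM hP hind
  have hNtop : Subgroup.normalizer (P : Set G) = ⊤ := Subgroup.normalizer_eq_top_iff.2 inferInstance
  haveI hLn : L.Normal := by
    refine ⟨fun x hx g => ?_⟩
    have h := cj_sup_centralizer (P := P) (c := g) (by rw [hNtop]; exact Subgroup.mem_top g)
    rw [hL, hC, h]
    exact ⟨x, hx, rfl⟩
  haveI := Fintype.ofFinite L
  set e := subIdem M L b with he
  set T := pairStab (⊤ : Subgroup G) P e with hT
  have hbi := isBlockIdem_redElem_blockCoeff (M := M) hB
  have hLT : L ≤ T := sup_centralizer_le_pairStab hmax.1.1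
  -- the inertial index is prime to `p`
  have hidx : ¬ p ∣ L.relIndex T := by
    obtain ⟨hPT, hPg, hne, a, ha, haD, htr⟩ := hmax.isDefectIn_stab hbi
    have hCT : cenIn (⊤ : Subgroup G) P ≤ T := cenIn_le_pairStab hmax.1.1
    have hTC : T ≤ Subgroup.normalizer (cenIn (⊤ : Subgroup G) P : Set G) := fun t ht =>
      mem_normalizer_cenIn (Subgroup.mem_top t) (Subgroup.mem_inf.1 (Subgroup.mem_inf.1 ht).1).2
    have hTT : IsDefectIn p T T e P := ⟨hPT, hPg, hne, a, supp_mono hCT ha, haD, htr⟩
    have h := hTT.relIndex_ne_zero hmax.1.1.2.2 (fun t ht => (Subgroup.mem_inf.1 ht).2) hCT hTC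
    rw [cenIn_top] at h
    intro hd
    exact h ((CharP.cast_eq_zero_iff (Blocks.Res M) p _).2 hd)
  by_contra hnab
  -- the root block
  set Q := P.subgroupOf L with hQ
  haveI := Fintype.ofFinite Q
  have hQp : IsPGroup p Q := hPp.comap_of_injective L.subtype Subtype.val_injective
  have hQG : Q ⊔ Subgroup.centralizer (Q : Set L) = ⊤ := by
    refine eq_top_iff.2 fun x _ => ?_
    obtain ⟨y, hy, c, hc, hyc⟩ := Set.mem_mul.1 (Subgroup.coe_mul_of_right_le_normalizer_left P _
      (Subgroup.centralizer_le_normalizer _) ▸ (show (x : G) ∈ ((L : Subgroup G) : Set G) from x.2))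
    have hxe : x = (⟨y, (le_sup_left : P ≤ L) hy⟩ : L) * ⟨c, (le_sup_right : C ≤ L) hc⟩ :=
      Subtype.ext hyc.symm
    rw [hxe]
    refine Subgroup.mul_mem_sup hy (Subgroup.mem_centralizer_iff.2 fun u hu => Subtype.ext ?_)
    exact Subgroup.mem_centralizer_iff.1 hc _ hu
  obtain ⟨φ, hφ⟩ : ∃ φ : IrrCharacter Q, (φ : Q → ℂ) 1 ≠ 1 := by
    by_contra hall
    push Not at hall
    refine hnab fun a ha c hc => ?_
    exact congrArg (fun x : Q => ((x : L) : G)) (comm_of_all_linear hall
      ⟨⟨a, (le_sup_left : P ≤ L) ha⟩, ha⟩ ⟨⟨c, (le_sup_left : P ≤ L) hc⟩, hc⟩)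
  obtain ⟨θ, hθb, hθv⟩ := Canonical.exists_member_of_irr hQp hQG hM hind.1 hbD φ
  have hφv : 1 ≤ (charDegree (φ : Q → ℂ)).factorization p := by
    obtain ⟨m, hm, hmd, hm1⟩ := CharTheory.IsIrrCharacter.exists_degree_dvd φ.2
    have hdeg : charDegree (φ : Q → ℂ) = m := by simp [charDegree, hm1]
    obtain ⟨k, hk⟩ := IsPGroup.iff_card.1 hQp
    rw [hk] at hmd
    obtain ⟨j, -, rfl⟩ := (Nat.dvd_prime_pow hp).1 hmd
    rw [hdeg, Nat.factorization_pow, Finsupp.smul_apply, hp.factorization_self, smul_eq_mul,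
      mul_one]
    rcases Nat.eq_zero_or_pos j with h | h
    · exact absurd (by rw [hm1, h, pow_zero, Nat.cast_one]) hφ
    · exact h
  obtain ⟨χ, hcon⟩ := exists_over L θ
  have hχB : χ ∈ B := by
    have h := isInducedBlock_of_covered hM P hPp L le_sup_right hind.1
      (isPBlock_blockOf (M := M) χ) ⟨χ, mem_blockOf_self χ, θ, hθb, hcon⟩
    rw [CfsgLib.BlockSections.eq_of_isInducedBlock hind h]
    exact mem_blockOf_self χ
  -- the inertia group
  set I := inertia L (θ : L → ℂ) with hI
  have hIT : I ≤ T := by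
    intro g hg
    rw [mem_inertia] at hg
    refine mem_pairStab.2 ⟨Subgroup.mem_top g, by rw [hNtop]; exact Subgroup.mem_top g, ?_⟩
    have hcj : L = cj g L := cj_sup_centralizer (P := P) (by rw [hNtop]; exact Subgroup.mem_top g)
    have hbl := isPBlock_image_compIrr (cjEquiv g hcj) hind.1
    have hfix : compIrr (cjEquiv g hcj) θ = θ := by
      refine Subtype.ext (funext fun n => ?_)
      show (θ : L → ℂ) (cjEquiv g hcj n) = _
      have h := congrFun hg ⟨g⁻¹ * n * g, by
        simpa using hLn.conj_mem (n : G) n.2 g⁻¹⟩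
      rw [Clifford.conjChar_apply] at h
      exact Eq.trans h.symm (congrArg (θ : L → ℂ) (Subtype.ext (by
        show g * (g⁻¹ * (n : G) * g) * g⁻¹ = (n : G)
        group)))
    rw [he, ← subIdem_image hcj b, isPBlock_eq_of_mem hbl hind.1 ⟨θ, hθb, hfix⟩ hθb]
  have hcard : (Clifford.conjOrbit L (θ : L → ℂ)).card = I.index :=
    Clifford.card_conjOrbit L _ I fun g => mem_inertia L _ g
  have hdeg1 := Clifford.apply_one_eq L χ.2 θ.2 hcon
  obtain ⟨n, hn⟩ := IsCharacter.exists_classInner_eq_nat
    (CfsgLib.Coherence.isCharacter_comp (IsIrrCharacter.isCharacter χ.2) L.subtype) θ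
  rw [show classInner (fun x : L => (χ : G → ℂ) (L.subtype x)) (θ : L → ℂ) =
    classInner (fun x : L => (χ : G → ℂ) x) (θ : L → ℂ) from rfl] at hn
  obtain ⟨d, hd, hd1⟩ := exists_degree_of_isIrr θ.2
  rw [hn, hcard, hd1] at hdeg1
  have hdeg : charDegree (χ : G → ℂ) = n * I.index * d := by
    have e : (χ : G → ℂ) 1 = ((n * I.index * d : ℕ) : ℂ) := by rw [hdeg1]; push_cast; rfl
    exact Nat.cast_injective (R := ℂ) ((coe_charDegree χ).trans e)
  have hn0 : n ≠ 0 := fun h => hcon (by rw [hn, h, Nat.cast_zero])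
  have hθd : charDegree (θ : L → ℂ) = d := by simp [charDegree, hd1]
  have hQi : Q.index = P.relIndex L := rfl
  have hPi : P.index = P.relIndex L * L.index :=
    (Subgroup.relIndex_mul_index le_sup_left).symm
  have hLi : L.index = L.relIndex T * T.index := (Subgroup.relIndex_mul_index hLT).symm
  have hIi : I.index = I.relIndex T * T.index := (Subgroup.relIndex_mul_index hIT).symm
  have hz := h0 χ hχB
  have hne : ∀ U V : Subgroup G, U.relIndex V ≠ 0 := fun U V =>
    Subgroup.index_ne_zero_of_finite (H := U.subgroupOf V)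
  have hTi : T.index ≠ 0 := Subgroup.index_ne_zero_of_finite
  rw [blockHeight, sInf_eq_index_of_defect hM hB hP, Nat.sub_eq_zero_iff_le, hdeg,
    Nat.factorization_mul (mul_ne_zero hn0 Subgroup.index_ne_zero_of_finite) hd.ne',
    Nat.factorization_mul hn0 Subgroup.index_ne_zero_of_finite, hPi, hLi, hIi,
    Nat.factorization_mul (hne P L) (mul_ne_zero (hne L T) hTi),
    Nat.factorization_mul (hne L T) hTi, Nat.factorization_mul (hne I T) hTi] at hz
  simp only [Finsupp.add_apply, Nat.factorization_eq_zero_of_not_dvd hidx] at hz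
  rw [hθd, hQi] at hθv
  omega

end CfsgLib.BlockLocal
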