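import Cfsg.Agent.Lib.Clifford.Basic
import Cfsg.Agent.Lib.Clifford.DetChar
import Cfsg.Agent.Lib.Clifford.Extension
import Cfsg.Agent.Lib.RealChar.CharSandwich
import Cfsg.Agent.Lib.SolvableStructure.MinimalNormal
import Cfsg.Agent.Lib.BrauerCharacters.ClassMul
import Cfsg.Agent.Lib.CharTheory.Ito
import Mathlib.GroupTheory.Transfer
import Mathlib.GroupTheory.FiniteAbelian.Duality

/-!
# Characters of odd degree in solvable groups and linear characters of a Sylow `2`-subgroup

In a solvable group the real irreducible characters of odd degree correspond to the normalizer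
orbits of the real linear characters of a Sylow `2`-subgroup `P`, the correspondent being a
constituent of the restriction. If `P` is self-normalizing the same holds without reality.
-/

set_option autoImplicit false
set_option linter.unusedSectionVars false
set_option linter.style.haveILetI false

namespace CfsgLib.BlockLocal.OddLinear

open Cfsg CfsgLib.CharTheory CfsgLib.Clifford CfsgLib.Frobenius
open scoped ComplexConjugate

universe u

/-- The inner product with the instance chosen. -/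
noncomputable def ip {A : Type*} [Group A] [Finite A] (f g : A → ℂ) : ℂ :=
  @classInner A _ (Fintype.ofFinite A) f g

theorem ip_eq {A : Type*} [Group A] [Fintype A] (f g : A → ℂ) : ip f g = classInner f g := by
  unfold ip
  congr 1
  exact Subsingleton.elim _ _

section Defs

variable {G : Type u} [Group G]

/-- An irreducible character of odd degree, real if `R` holds. -/
def GoodChar (R : Prop) (χ : G → ℂ) : Prop :=
  IsIrrCharacter G χ ∧ (∃ d : ℕ, Odd d ∧ χ 1 = d) ∧ (R → ∀ g, (χ g).im = 0)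

/-- A linear character, real if `R` holds. -/
def GoodLin {A : Type*} [Group A] (R : Prop) (μ : A →* ℂˣ) : Prop := R → ∀ w, μ w ^ 2 = 1

/-- `μ` is a constituent of the restriction of `χ`. -/
def Over [Finite G] (H : Subgroup G) (χ : G → ℂ) (μ : H →* ℂˣ) : Prop :=
  ip (fun w : H => χ w) (linFun μ) ≠ 0

/-- Conjugacy under the normalizer. -/
def NConj (H : Subgroup G) (μ μ' : H →* ℂˣ) : Prop :=
  ∃ n ∈ Subgroup.normalizer (H : Set G), ∀ w w' : H, (w' : G) = n * w * n⁻¹ → μ' w' = μ w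

/-- The correspondence. -/
def Corr (R : Prop) [Finite G] (P : Sylow 2 G) : Prop :=
  (∀ μ : (P : Subgroup G) →* ℂˣ, GoodLin R μ →
    ∃! χ : G → ℂ, GoodChar R χ ∧ Over (P : Subgroup G) χ μ) ∧
  ∀ (χ : G → ℂ) (μ μ' : (P : Subgroup G) →* ℂˣ), GoodChar R χ → GoodLin R μ → GoodLin R μ' →
    Over (P : Subgroup G) χ μ → Over (P : Subgroup G) χ μ' → NConj (P : Subgroup G) μ μ'

end Defs

section Basic

variable {G : Type u} [Group G] [Finite G]

theorem exists_fixed_of_involution {α : Type*} (s : Finset α) (hs : Odd s.card) (f : α → α)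
    (hf : ∀ a ∈ s, f a ∈ s) (hff : ∀ a ∈ s, f (f a) = a) : ∃ a ∈ s, f a = a := by
  by_contra h
  push Not at h
  have h0 : ∑ a ∈ s, (1 : ZMod 2) = 0 :=
    Finset.sum_involution (fun a _ => f a) (fun _ _ => CharTwo.add_self_eq_zero _)
      (fun a ha _ => h a ha) hf hff
  rw [Finset.sum_const, nsmul_eq_mul, mul_one, ZMod.natCast_eq_zero_iff_even] at h0
  exact Nat.not_even_iff_odd.2 hs h0

theorem sq_eq_one_of_real {A : Type*} [Group A] [Finite A] {μ : A →* ℂˣ} {w : A}
    (h : ((μ w : ℂˣ) : ℂ).im = 0) : μ w ^ 2 = 1 := by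
  have hn : ‖((μ w : ℂˣ) : ℂ)‖ = 1 := norm_eq_one_of_pow_eq_one' (Nat.card_pos (α := A)).ne' (by
    rw [← Units.val_pow_eq_pow_val, ← map_pow, pow_card_eq_one', map_one, Units.val_one])
  refine Units.ext ?_
  have hc : conj ((μ w : ℂˣ) : ℂ) = ((μ w : ℂˣ) : ℂ) := Complex.conj_eq_iff_im.2 h
  have e : ((μ w : ℂˣ) : ℂ) * conj ((μ w : ℂˣ) : ℂ) = 1 := by rw [Complex.mul_conj', hn]; simp
  rw [hc, ← sq] at e
  rw [Units.val_pow_eq_pow_val, e, Units.val_one]

theorem im_eq_zero_of_sq {A : Type*} [Group A] {μ : A →* ℂˣ} {w : A} (h : μ w ^ 2 = 1) :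
    ((μ w : ℂˣ) : ℂ).im = 0 := by
  have h2 : ((μ w : ℂˣ) : ℂ) ^ 2 = 1 := by rw [← Units.val_pow_eq_pow_val, h, Units.val_one]
  rcases sq_eq_one_iff.1 h2 with e | e <;> simp [e]

theorem classInner_trans {A B : Subgroup G} (hAB : A ≤ B) {χ : G → ℂ} (hχ : IsCharacter G χ)
    {φ : B → ℂ} (hφ : IsIrrCharacter B φ) {θ : A → ℂ} (hθ : IsIrrCharacter A θ)
    (h1 : ip (fun t : B => χ t) φ ≠ 0) (h2 : ip (fun n : A => φ ⟨n, hAB n.2⟩) θ ≠ 0) :
    ip (fun n : A => χ n) θ ≠ 0 := by
  haveI := Fintype.ofFinite G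
  haveI := Fintype.ofFinite A
  haveI := Fintype.ofFinite B
  rw [ip_eq] at h1 h2 ⊢
  obtain ⟨a, e, ha, he, hle⟩ := classInner_res_le hAB hχ hθ ({⟨φ, hφ⟩} : Finset (IrrCharacter B))
    fun ψ hψ => by rw [Finset.mem_singleton.1 hψ]; exact h1
  rw [Finset.sum_singleton] at hle
  rw [he ⟨φ, hφ⟩, Nat.cast_ne_zero] at h2
  rw [ha, Nat.cast_ne_zero]
  omega

theorem over_res {P V : Subgroup G} (hVP : V ≤ P) {χ : G → ℂ} (hχ : IsCharacter G χ)
    {μ : P →* ℂˣ} (h : Over P χ μ) :
    Over V χ (μ.comp (Subgroup.inclusion hVP)) := by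
  refine classInner_trans hVP hχ (isIrrCharacter_linear μ) (isIrrCharacter_linear _) h ?_
  haveI := Fintype.ofFinite V
  rw [ip_eq]
  show classInner (linFun (μ.comp (Subgroup.inclusion hVP))) _ ≠ 0
  erw [classInner_self_of_isIrr (isIrrCharacter_linear _)]
  exact one_ne_zero

theorem goodChar_conj {R : Prop} {χ : G → ℂ} (h : GoodChar R χ) (hR : R) :
    (fun g => conj (χ g)) = χ :=
  funext fun g => Complex.conj_eq_iff_im.2 (h.2.2 hR g)

theorem over_conj {H : Subgroup G} {χ : G → ℂ} (hr : ∀ g, (χ g).im = 0) {μ : H →* ℂˣ}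
    (h : Over H χ μ) : Over H χ μ⁻¹ := by
  intro h0
  apply h
  haveI := Fintype.ofFinite H
  rw [ip_eq] at h0 ⊢
  have : classInner (fun w : H => χ w) (linFun μ) =
      conj (classInner (fun w : H => χ w) (linFun μ⁻¹)) := by
    simp only [classInner, map_mul, map_inv₀, map_natCast, map_sum, linFun_apply]
    congr 1
    refine Finset.sum_congr rfl fun w _ => ?_
    rw [Complex.conj_eq_iff_im.2 (hr w), MonoidHom.inv_apply, Units.val_inv_eq_inv_val,
      Complex.inv_eq_conj (norm_eq_one_of_pow_eq_one' (Nat.card_pos (α := H)).ne' (by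
        rw [← Units.val_pow_eq_pow_val, ← map_pow, pow_card_eq_one', map_one, Units.val_one])),
      Complex.conj_conj]
  rw [this, h0, map_zero]

/-- The number of conjugates of a linear constituent is odd. -/
theorem odd_card_orbit {R : Prop} {V : Subgroup G} [V.Normal] [Fintype G] {χ : G → ℂ}
    (hχ : GoodChar R χ) {l : V →* ℂˣ} (h : Over V χ l) : Odd (conjOrbit V (linFun l)).card := by
  haveI := Fintype.ofFinite V
  obtain ⟨hirr, ⟨d, hd, hd1⟩, -⟩ := hχ
  rw [Over, ip_eq] at h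
  obtain ⟨a, ha⟩ := IsCharacter.exists_classInner_eq_nat
    (CfsgLib.Coherence.isCharacter_comp (IsIrrCharacter.isCharacter hirr) V.subtype)
    ⟨linFun l, isIrrCharacter_linear l⟩
  have h1 : χ 1 = classInner (fun n : V => χ n) (linFun l) * ((conjOrbit V (linFun l)).card : ℂ) *
      linFun l 1 := apply_one_eq V hirr (isIrrCharacter_linear l) h
  rw [show classInner (fun n : V => χ n) (linFun l) = a from ha, hd1] at h1
  simp only [linFun_apply, map_one, Units.val_one, mul_one] at h1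
  have e : d = a * (conjOrbit V (linFun l)).card := by exact_mod_cast h1
  rw [e, Nat.odd_mul] at hd
  exact hd.2

theorem over_conjChar {V : Subgroup G} [V.Normal] {χ : G → ℂ} (hχ : IsClassFunction G χ)
    {l l' : V →* ℂˣ} {g : G} (hg : linFun l' = conjChar V (linFun l) g) (h : Over V χ l) :
    Over V χ l' := by
  haveI := Fintype.ofFinite V
  rw [Over, ip_eq] at h ⊢
  rw [hg]
  rwa [classInner_conjChar V hχ]

/-- Conjugation of a linear character of a normal subgroup. -/
def conjLin {V : Subgroup G} [V.Normal] (l : V →* ℂˣ) (g : G) : V →* ℂˣ :=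
  l.comp (MulAut.conjNormal g).toMonoidHom

theorem linFun_conjLin {V : Subgroup G} [V.Normal] (l : V →* ℂˣ) (g : G) :
    linFun (conjLin l g) = conjChar V (linFun l) g := by
  rw [conjChar_eq_comp]; rfl

theorem trivialOn_of_over_one {V : Subgroup G} [V.Normal] {χ : G → ℂ} (hχ : IsIrrCharacter G χ)
    (h : Over V χ 1) : ∀ v ∈ V, χ v = χ 1 := by
  intro v hv
  haveI := Fintype.ofFinite G
  haveI := Fintype.ofFinite V
  rw [Over, ip_eq] at h
  have e := res_eq_of_invariant V hχ (isIrrCharacter_linear (1 : V →* ℂˣ))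
    (fun g => funext fun n => by simp [conjChar_apply]) h
  have e1 := congrFun e ⟨v, hv⟩
  have e2 := congrFun e 1
  simp only [Pi.smul_apply, smul_eq_mul, MonoidHom.one_apply, Units.val_one, mul_one,
    OneMemClass.coe_one] at e1 e2
  rw [e1, ← e2]

open scoped Classical in
/-- A character of odd degree has a good linear constituent on a `2`-group. -/
theorem exists_over {R : Prop} (P : Sylow 2 G) {χ : G → ℂ} (hχ : GoodChar R χ) :
    ∃ μ : (P : Subgroup G) →* ℂˣ, GoodLin R μ ∧ Over (P : Subgroup G) χ μ := by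
  obtain ⟨hirr, ⟨d, hd, hd1⟩, hreal⟩ := hχ
  haveI := Fintype.ofFinite (P : Subgroup G)
  haveI := Fintype.ofFinite (IrrCharacter (P : Subgroup G))
  obtain ⟨m, hm⟩ := IsCharacter.exists_sum
    (CfsgLib.Coherence.isCharacter_comp (IsIrrCharacter.isCharacter hirr) (P : Subgroup G).subtype)
  have hm' : ∀ φ : IrrCharacter (P : Subgroup G),
      classInner (fun w : (P : Subgroup G) => χ w) (φ : ↥(P : Subgroup G) → ℂ) = m φ := fun φ => by
    have h := classInner_sum_irr (fun ψ => (m ψ : ℂ)) φ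
    rw [← hm] at h
    exact h
  have hdeg : ∀ φ : IrrCharacter (P : Subgroup G), Odd (charDegree (φ : ↥(P : Subgroup G) → ℂ)) →
      ∃ μ : (P : Subgroup G) →* ℂˣ, (φ : ↥(P : Subgroup G) → ℂ) = linFun μ := by
    intro φ hodd
    obtain ⟨h1, -, hdvd⟩ := BrauerCharacters.charDegree_spec φ
    obtain ⟨k, hk⟩ := IsPGroup.iff_card.1 P.2
    rw [hk] at hdvd
    obtain ⟨j, -, hj⟩ := (Nat.dvd_prime_pow Nat.prime_two).1 hdvd
    have hj0 : j = 0 := by
      by_contra hj0
      rw [hj] at hodd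
      exact Nat.not_even_iff_odd.2 hodd ((Nat.even_pow' hj0).2 even_two)
    rw [hj, hj0, pow_zero, Nat.cast_one] at h1
    obtain ⟨μ, hμ⟩ := exists_linFun_of_isCharacter (IsIrrCharacter.isCharacter φ.2) h1
    exact ⟨μ, hμ⟩
  set F : IrrCharacter (P : Subgroup G) → ZMod 2 :=
    fun φ => ((m φ * charDegree (φ : ↥(P : Subgroup G) → ℂ) : ℕ) : ZMod 2)
  have hsum : ∑ φ, F φ = 1 := by
    have h := congrFun hm 1
    simp only [Subgroup.coe_subtype, OneMemClass.coe_one, hd1, Finset.sum_apply, Pi.smul_apply,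
      smul_eq_mul] at h
    rw [Finset.sum_congr rfl (fun φ _ => by rw [(BrauerCharacters.charDegree_spec φ).1])] at h
    have e : d = ∑ φ, m φ * charDegree (φ : ↥(P : Subgroup G) → ℂ) := by exact_mod_cast h
    simp only [F]
    rw [← Nat.cast_sum, ← e, ZMod.natCast_eq_one_iff_odd]
    exact hd
  have hF : ∀ φ, F φ ≠ 0 → ∃ μ : (P : Subgroup G) →* ℂˣ,
      (φ : ↥(P : Subgroup G) → ℂ) = linFun μ ∧ Over (P : Subgroup G) χ μ := by
    intro φ hφ
    have hodd : Odd (m φ * charDegree (φ : ↥(P : Subgroup G) → ℂ)) := by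
      rw [← Nat.not_even_iff_odd, ← ZMod.natCast_eq_zero_iff_even]; exact hφ
    obtain ⟨h1, h2⟩ := Nat.odd_mul.1 hodd
    obtain ⟨μ, hμ⟩ := hdeg φ h2
    refine ⟨μ, hμ, ?_⟩
    rw [Over, ip_eq, ← hμ, hm' φ, Nat.cast_ne_zero]
    exact fun e => by rw [e] at h1; exact Nat.not_odd_zero h1
  by_cases hR : R
  · by_contra hcon
    push Not at hcon
    set c : IrrCharacter (P : Subgroup G) → IrrCharacter (P : Subgroup G) :=
      fun φ => ⟨fun w => conj ((φ : ↥(P : Subgroup G) → ℂ) w), isIrrCharacter_conj φ.2⟩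
    have h0 : ∑ φ, F φ = 0 := by
      refine Finset.sum_involution (fun φ _ => c φ) (fun φ _ => ?_) (fun φ _ hne he => ?_)
        (fun _ _ => Finset.mem_univ _) (fun φ _ => Subtype.ext (funext fun w => Complex.conj_conj _))
      · have hmc : m (c φ) = m φ := by
          apply Nat.cast_injective (R := ℂ)
          rw [← hm', ← Complex.conj_natCast (m φ), ← hm']
          simp only [classInner, map_mul, map_inv₀, map_natCast, map_sum, c]
          congr 1
          refine Finset.sum_congr rfl fun w _ => ?_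
          rw [Complex.conj_eq_iff_im.2 (hreal hR w)]
        have hdc : charDegree (c φ : ↥(P : Subgroup G) → ℂ) =
            charDegree (φ : ↥(P : Subgroup G) → ℂ) := by
          simp only [charDegree, c, Complex.conj_re]
        simp only [F, hmc, hdc]
        exact CharTwo.add_self_eq_zero _
      · obtain ⟨μ, hμ, hov⟩ := hF φ hne
        refine hcon μ (fun _ w => sq_eq_one_of_real ?_) hov
        have e := congrFun (congrArg Subtype.val he) w
        simp only [c, hμ, linFun_apply] at e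
        exact Complex.conj_eq_iff_im.1 e
    rw [hsum] at h0
    exact one_ne_zero h0
  · obtain ⟨φ, -, hφ⟩ := Finset.exists_ne_zero_of_sum_ne_zero (hsum.trans_ne one_ne_zero)
    obtain ⟨μ, -, hμ⟩ := hF φ hφ
    exact ⟨μ, fun h => absurd h hR, hμ⟩

end Basic

section Quotient

variable {G : Type u} [Group G] [Finite G] {V : Subgroup G} [V.Normal] (P : Sylow 2 G)
  (Q : Sylow 2 (G ⧸ V))

theorem exists_normalizer_lift (hQ : (Q : Subgroup (G ⧸ V)) = (P : Subgroup G).map (QuotientGroup.mk' V))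
    {x : G ⧸ V} (hx : x ∈ Subgroup.normalizer ((Q : Subgroup (G ⧸ V)) : Set (G ⧸ V))) :
    ∃ n ∈ Subgroup.normalizer ((P : Subgroup G) : Set G), (n : G ⧸ V) = x := by
  obtain ⟨g, rfl⟩ := QuotientGroup.mk_surjective x
  set H := (Q : Subgroup (G ⧸ V)).comap (QuotientGroup.mk' V)
  have hPH : (P : Subgroup G) ≤ H := by
    rw [← Subgroup.map_le_iff_le_comap, hQ]
  have hgP : ((g • P : Sylow 2 G) : Subgroup G) ≤ H := by
    intro a ha
    obtain ⟨b, hb, hba⟩ := Subgroup.mem_map.1 ha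
    change g * b * g⁻¹ = a at hba
    show (a : G ⧸ V) ∈ (Q : Subgroup (G ⧸ V))
    rw [← hba, QuotientGroup.mk_mul, QuotientGroup.mk_mul, QuotientGroup.mk_inv]
    refine (Subgroup.mem_normalizer_iff.1 hx _).1 ?_
    rw [hQ]; exact ⟨b, hb, rfl⟩
  obtain ⟨h, hh⟩ := MulAction.exists_smul_eq H (P.subtype hPH) ((g • P).subtype hgP)
  rw [Sylow.smul_subtype] at hh
  have e := Sylow.subtype_injective hh
  have hn : (h : G)⁻¹ * g ∈ Subgroup.normalizer ((P : Subgroup G) : Set G) := by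
    refine Sylow.smul_eq_iff_mem_normalizer.1 ?_
    rw [mul_smul, ← e, inv_smul_eq_iff]
    rfl
  obtain ⟨y, hy, hyh⟩ : ((h : G) : G ⧸ V) ∈ (P : Subgroup G).map (QuotientGroup.mk' V) := hQ ▸ h.2
  refine ⟨y * ((h : G)⁻¹ * g), mul_mem (Subgroup.le_normalizer hy) hn, ?_⟩
  rw [QuotientGroup.mk_mul, QuotientGroup.mk_mul, QuotientGroup.mk_inv, show (y : G ⧸ V) = ((h : G) : G ⧸ V) from hyh,
    mul_inv_cancel_left]

variable {R : Prop} (hQ : (Q : Subgroup (G ⧸ V)) = (P : Subgroup G).map (QuotientGroup.mk' V))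
include hQ

theorem cond_quotient (h : R ∨ Subgroup.normalizer ((P : Subgroup G) : Set G) = P) :
    R ∨ Subgroup.normalizer ((Q : Subgroup (G ⧸ V)) : Set (G ⧸ V)) = Q := by
  refine h.imp id fun hN => le_antisymm (fun x hx => ?_) Subgroup.le_normalizer
  obtain ⟨n, hn, rfl⟩ := exists_normalizer_lift P Q hQ hx
  rw [hQ]
  exact ⟨n, by rwa [hN] at hn, rfl⟩

/-- The natural map between the Sylow subgroups. -/
def sylProj : (P : Subgroup G) →* (Q : Subgroup (G ⧸ V)) :=
  ((QuotientGroup.mk' V).comp (P : Subgroup G).subtype).codRestrict _ fun w => by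
    rw [hQ]; exact ⟨w, w.2, rfl⟩

theorem sylProj_surjective : Function.Surjective (sylProj P Q hQ) := by
  rintro ⟨x, hx⟩
  rw [hQ] at hx
  obtain ⟨w, hw, rfl⟩ := hx
  exact ⟨⟨w, hw⟩, rfl⟩

theorem over_quotient (χ : G ⧸ V → ℂ) (ν : (Q : Subgroup (G ⧸ V)) →* ℂˣ) :
    Over (P : Subgroup G) (fun g => χ g) (ν.comp (sylProj P Q hQ)) ↔
      Over (Q : Subgroup (G ⧸ V)) χ ν := by
  haveI := Fintype.ofFinite (P : Subgroup G)
  haveI := Fintype.ofFinite (Q : Subgroup (G ⧸ V))
  rw [Over, Over, ip_eq, ip_eq]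
  rw [← CfsgLib.RealChar.classInner_comp_surjective (sylProj P Q hQ) (sylProj_surjective P Q hQ)
    (fun x : (Q : Subgroup (G ⧸ V)) => χ x) (linFun ν)]
  exact Iff.rfl

theorem goodChar_inflate {χ : G ⧸ V → ℂ} :
    GoodChar R χ → GoodChar R (fun g : G => χ g) :=
  fun ⟨h1, h2, h3⟩ => ⟨isIrrCharacter_comp h1 (f := QuotientGroup.mk' V) (QuotientGroup.mk'_surjective V),
    by simpa using h2, fun hR g => h3 hR _⟩

theorem exists_descend_good {χ : G → ℂ} (h : GoodChar R χ) (hV : ∀ v ∈ V, χ v = χ 1) :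
    ∃ χ' : G ⧸ V → ℂ, GoodChar R χ' ∧ χ = fun g : G => χ' g := by
  obtain ⟨χ', h1, h2⟩ := exists_descend h.1 V hV
  refine ⟨χ', ⟨h1, ?_, fun hR x => ?_⟩, funext h2⟩
  · obtain ⟨d, hd, hd1⟩ := h.2.1
    exact ⟨d, hd, by rw [← QuotientGroup.mk_one, ← h2, hd1]⟩
  · obtain ⟨g, rfl⟩ := QuotientGroup.mk_surjective x
    rw [← h2]; exact h.2.2 hR g

theorem exists_lin_descend {μ : (P : Subgroup G) →* ℂˣ} (hμ : GoodLin R μ)
    (hV : ∀ w : (P : Subgroup G), (w : G) ∈ V → μ w = 1) :
    ∃ ν : (Q : Subgroup (G ⧸ V)) →* ℂˣ, GoodLin R ν ∧ μ = ν.comp (sylProj P Q hQ) := by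
  have hker : (sylProj P Q hQ).ker ≤ μ.ker := fun w hw => by
    refine hV w ((QuotientGroup.eq_one_iff _).1 ?_)
    exact congrArg Subtype.val (MonoidHom.mem_ker.1 hw)
  refine ⟨(sylProj P Q hQ).liftOfSurjective (sylProj_surjective P Q hQ) ⟨μ, hker⟩, fun hR x => ?_, ?_⟩
  · obtain ⟨w, rfl⟩ := sylProj_surjective P Q hQ x
    rw [MonoidHom.liftOfRightInverse_comp_apply]
    exact hμ hR w
  · refine MonoidHom.ext fun w => ?_
    rw [MonoidHom.comp_apply]
    exact ((sylProj P Q hQ).liftOfRightInverse_comp_apply _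
      (Function.rightInverse_surjInv (sylProj_surjective P Q hQ)) ⟨μ, hker⟩ w).symm

theorem existsUnique_trivial (hc : Corr R Q) {μ : (P : Subgroup G) →* ℂˣ} (hμ : GoodLin R μ)
    (hV : ∀ w : (P : Subgroup G), (w : G) ∈ V → μ w = 1) :
    ∃! χ : G → ℂ, GoodChar R χ ∧ Over (P : Subgroup G) χ μ ∧ ∀ v ∈ V, χ v = χ 1 := by
  obtain ⟨ν, hν, rfl⟩ := exists_lin_descend P Q hQ hμ hV
  obtain ⟨χ', ⟨hg, ho⟩, huniq⟩ := hc.1 ν hν
  refine ⟨fun g : G => χ' g, ⟨goodChar_inflate P Q hQ hg, (over_quotient P Q hQ χ' ν).2 ho,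
    fun v hv => by simp [(QuotientGroup.eq_one_iff v).2 hv]⟩, ?_⟩
  rintro χ ⟨hg', ho', hV'⟩
  obtain ⟨χ'', hg'', rfl⟩ := exists_descend_good P Q hQ hg' hV'
  rw [huniq χ'' ⟨hg'', (over_quotient P Q hQ χ'' ν).1 ho'⟩]

theorem nConj_trivial (hc : Corr R Q) {χ : G → ℂ} {μ μ' : (P : Subgroup G) →* ℂˣ}
    (hχ : GoodChar R χ) (hμ : GoodLin R μ) (hμ' : GoodLin R μ') (h : Over (P : Subgroup G) χ μ)
    (h' : Over (P : Subgroup G) χ μ') (hV : ∀ v ∈ V, χ v = χ 1)
    (hμV : ∀ w : (P : Subgroup G), (w : G) ∈ V → μ w = 1)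
    (hμV' : ∀ w : (P : Subgroup G), (w : G) ∈ V → μ' w = 1) :
    NConj (P : Subgroup G) μ μ' := by
  obtain ⟨ν, hν, rfl⟩ := exists_lin_descend P Q hQ hμ hμV
  obtain ⟨ν', hν', rfl⟩ := exists_lin_descend P Q hQ hμ' hμV'
  obtain ⟨χ', hg, rfl⟩ := exists_descend_good P Q hQ hχ hV
  obtain ⟨x, hx, he⟩ := hc.2 χ' ν ν' hg hν hν' ((over_quotient P Q hQ χ' ν).1 h)
    ((over_quotient P Q hQ χ' ν').1 h')
  obtain ⟨n, hn, rfl⟩ := exists_normalizer_lift P Q hQ hx
  refine ⟨n, hn, fun w w' e => he (sylProj P Q hQ w) (sylProj P Q hQ w') ?_⟩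
  show ((w' : G) : G ⧸ V) = _
  rw [e]; rfl

end Quotient

section OddNormal

open scoped IsMulCommutative

variable {G : Type u} [Group G] [Finite G] {V : Subgroup G} [V.Normal] [IsMulCommutative V]
  (P : Sylow 2 G) (hodd : Odd (Nat.card V))
include hodd

open scoped Classical in
/-- The product of the conjugates under `P`. -/
noncomputable def avg : V →* V :=
  letI := Fintype.ofFinite (P : Subgroup G)
  ∏ y : (P : Subgroup G), (MulAut.conjNormal (y : G) : MulAut V).toMonoidHom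

theorem avg_comm (v : V) {y : G} (hy : y ∈ (P : Subgroup G)) :
    y * (avg (V := V) P v : G) * y⁻¹ = (avg (V := V) P v : G) := by
  classical
  letI := Fintype.ofFinite (P : Subgroup G)
  rw [← MulAut.conjNormal_apply]
  congr 1
  simp only [avg, MonoidHom.finsetProd_apply, map_prod]
  refine Fintype.prod_equiv (Equiv.mulLeft (⟨y, hy⟩ : (P : Subgroup G))) _ _ fun z => ?_
  show MulAut.conjNormal y (MulAut.conjNormal (z : G) v) = MulAut.conjNormal (y * (z : G)) v
  rw [map_mul]; rfl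

theorem apply_avg (θ : V →* ℂˣ) (hθ : ∀ y ∈ (P : Subgroup G), conjLin θ y = θ) (v : V) :
    θ (avg (V := V) P v) = θ v ^ Nat.card (P : Subgroup G) := by
  classical
  letI := Fintype.ofFinite (P : Subgroup G)
  have e : ∀ y : (P : Subgroup G), θ ((MulAut.conjNormal (y : G) : MulAut V).toMonoidHom v) = θ v :=
    fun y => DFunLike.congr_fun (hθ (y : G) y.2) v
  rw [avg, MonoidHom.finsetProd_apply, map_prod, Finset.prod_congr rfl (fun y _ => e y),
    Finset.prod_const, Finset.card_univ, Nat.card_eq_fintype_card]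

theorem eq_one_of_coprime_pow {z : ℂˣ} (h1 : z ^ Nat.card (P : Subgroup G) = 1)
    (h2 : z ^ Nat.card V = 1) : z = 1 := by
  obtain ⟨k, hk⟩ := IsPGroup.iff_card.1 P.2
  rw [hk] at h1
  refine orderOf_eq_one_iff.1 (Nat.eq_one_of_dvd_coprimes
    ((Nat.coprime_two_left.2 hodd).pow_left k) (orderOf_dvd_of_pow_eq_one h1)
    (orderOf_dvd_of_pow_eq_one h2))

/-- A fixed nontrivial linear character forces a fixed nontrivial element. -/
theorem exists_fixed_elem {θ : V →* ℂˣ} (hθ : ∀ y ∈ (P : Subgroup G), conjLin θ y = θ) (h1 : θ ≠ 1) :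
    ∃ c ∈ V, c ≠ 1 ∧ c ∈ Subgroup.normalizer ((P : Subgroup G) : Set G) ∧
      ∀ y ∈ (P : Subgroup G), y * c * y⁻¹ = c := by
  obtain ⟨v, hv⟩ : ∃ v, θ v ≠ 1 := by
    by_contra h
    push Not at h
    exact h1 (MonoidHom.ext h)
  refine ⟨avg (V := V) P v, SetLike.coe_mem _, fun e => hv ?_, ?_, fun y hy => avg_comm P hodd v hy⟩
  · refine eq_one_of_coprime_pow P hodd ?_ (by rw [← map_pow, pow_card_eq_one', map_one])
    rw [← apply_avg P hodd θ hθ v, show avg (V := V) P v = 1 from Subtype.ext e, map_one]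
  · refine Subgroup.centralizer_le_normalizer _ (Subgroup.mem_centralizer_iff.2 fun y hy => ?_)
    exact mul_inv_eq_iff_eq_mul.1 (avg_comm P hodd v hy)

theorem exists_fixed_lin {c : G} (hc : c ∈ V) (hc1 : c ≠ 1)
    (hcP : ∀ y ∈ (P : Subgroup G), y * c * y⁻¹ = c) :
    ∃ θ : V →* ℂˣ, θ ≠ 1 ∧ ∀ y ∈ (P : Subgroup G), conjLin θ y = θ := by
  classical
  letI := Fintype.ofFinite (P : Subgroup G)
  obtain ⟨φ, hφ⟩ := CommGroup.exists_apply_ne_one_of_hasEnoughRootsOfUnity V ℂ
    (a := ⟨c, hc⟩) (fun e => hc1 (congrArg Subtype.val e))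
  refine ⟨φ.comp (avg (V := V) P), fun e => hφ ?_, fun y hy => MonoidHom.ext fun v => ?_⟩
  · have h := DFunLike.congr_fun e ⟨c, hc⟩
    rw [MonoidHom.comp_apply, MonoidHom.one_apply] at h
    refine eq_one_of_coprime_pow P hodd ?_ (by rw [← map_pow, pow_card_eq_one', map_one])
    rw [← h, ← map_pow]
    congr 1
    rw [avg, MonoidHom.finsetProd_apply, Finset.prod_congr rfl (g := fun _ => (⟨c, hc⟩ : V))
      (fun z _ => Subtype.ext (by
        show ((MulAut.conjNormal (z : G) (⟨c, hc⟩ : V) : V) : G) = c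
        rw [MulAut.conjNormal_apply]; exact hcP z z.2)), Finset.prod_const, Finset.card_univ,
      Nat.card_eq_fintype_card]
  · show φ (avg (V := V) P (MulAut.conjNormal y v)) = φ (avg (V := V) P v)
    congr 1
    rw [avg, MonoidHom.finsetProd_apply, MonoidHom.finsetProd_apply]
    refine Fintype.prod_equiv (Equiv.mulRight (⟨y, hy⟩ : (P : Subgroup G))) _ _ fun z => ?_
    show MulAut.conjNormal (z : G) (MulAut.conjNormal y v) = MulAut.conjNormal ((z : G) * y) v
    rw [map_mul]; rfl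

omit hodd in
theorem exists_lin_of_mem_orbit [Fintype G] {l : V →* ℂˣ} {f : V → ℂ} (hf : f ∈ conjOrbit V (linFun l)) :
    ∃ g : G, f = linFun (conjLin l g) := by
  obtain ⟨g, hg⟩ := (mem_conjOrbit V).1 hf
  exact ⟨g, by rw [linFun_conjLin, hg]⟩

/-- Good characters are trivial on an odd abelian normal subgroup. -/
theorem trivialOn_of_odd {R : Prop} (hR : R ∨ Subgroup.normalizer ((P : Subgroup G) : Set G) = P)
    {χ : G → ℂ} (hχ : GoodChar R χ) : ∀ v ∈ V, χ v = χ 1 := by
  classical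
  haveI := Fintype.ofFinite G
  haveI := Fintype.ofFinite V
  have hirr := hχ.1
  obtain ⟨l, hl⟩ : ∃ l : V →* ℂˣ, Over V χ l := by
    haveI := Fintype.ofFinite (IrrCharacter V)
    obtain ⟨m, hm⟩ := IsCharacter.exists_sum
      (CfsgLib.Coherence.isCharacter_comp (IsIrrCharacter.isCharacter hirr) V.subtype)
    obtain ⟨φ, hφ⟩ : ∃ φ : IrrCharacter V, m φ ≠ 0 := by
      by_contra h
      push Not at h
      have := congrFun hm 1
      simp only [h, Nat.cast_zero, zero_smul, Finset.sum_const_zero, Pi.zero_apply,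
        Subgroup.coe_subtype, OneMemClass.coe_one] at this
      exact apply_one_ne_zero_of_isIrr hirr this
    obtain ⟨μ, hμ⟩ : ∃ μ : V →* ℂˣ, (φ : V → ℂ) = linFun μ :=
      exists_linFun_of_isCharacter (IsIrrCharacter.isCharacter φ.2) (apply_one_eq_one_of_comm mul_comm φ.2)
    refine ⟨μ, ?_⟩
    rw [Over, ip_eq, ← hμ]
    have h := classInner_sum_irr (fun ψ => (m ψ : ℂ)) φ
    rw [← hm] at h
    intro e
    exact hφ (Nat.cast_eq_zero.1 (h.symm.trans e))
  set s := conjOrbit V (linFun l)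
  have hs : Odd s.card := odd_card_orbit hχ hl
  have hover : ∀ g, Over V χ (conjLin l g) := fun g =>
    over_conjChar (IsIrrCharacter.isClassFunction hirr) (linFun_conjLin l g) hl
  suffices h : ∃ g, conjLin l g = 1 by
    obtain ⟨g, hg⟩ := h
    exact trivialOn_of_over_one hirr (hg ▸ hover g)
  by_cases hR' : R
  · have hmem : ∀ f ∈ s, (fun v => conj (f v)) ∈ s := by
      intro f hf
      obtain ⟨g, rfl⟩ := exists_lin_of_mem_orbit hf
      have h2 := over_conj (hχ.2.2 hR') (hover g)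
      rw [Over, ip_eq] at h2
      obtain ⟨g', hg'⟩ := exists_conj_of_constituents V hirr (isIrrCharacter_linear l)
        (isIrrCharacter_linear ((conjLin l g)⁻¹)) (by rw [← ip_eq]; exact hl) h2
      refine (mem_conjOrbit V).2 ⟨g', hg'.symm.trans (funext fun v => ?_)⟩
      show (((conjLin l g)⁻¹ v : ℂˣ) : ℂ) = conj ((conjLin l g v : ℂˣ) : ℂ)
      rw [MonoidHom.inv_apply, Units.val_inv_eq_inv_val,
        Complex.inv_eq_conj (norm_eq_one_of_pow_eq_one' (Nat.card_pos (α := V)).ne' (by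
          rw [← Units.val_pow_eq_pow_val, ← map_pow, pow_card_eq_one', map_one, Units.val_one]))]
    obtain ⟨f, hf, hfix⟩ := exists_fixed_of_involution s hs (fun f v => conj (f v)) hmem
      fun f _ => funext fun v => Complex.conj_conj _
    obtain ⟨g, rfl⟩ := exists_lin_of_mem_orbit hf
    refine ⟨g, MonoidHom.ext fun v => orderOf_eq_one_iff.1 (Nat.eq_one_of_dvd_coprimes
      (Nat.coprime_two_left.2 hodd)
      (orderOf_dvd_of_pow_eq_one (sq_eq_one_of_real (μ := conjLin l g)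
        (Complex.conj_eq_iff_im.1 (congrFun hfix v))))
      (orderOf_dvd_of_pow_eq_one (by rw [← map_pow, pow_card_eq_one', map_one])))⟩
  · have hN := hR.resolve_left hR'
    letI act : MulAction (P : Subgroup G) {f : V → ℂ // f ∈ s} :=
      { smul := fun y f => ⟨conjChar V f.1 (y : G)⁻¹, by
          obtain ⟨g, hg⟩ := (mem_conjOrbit V).1 f.2
          refine (mem_conjOrbit V).2 ⟨g * (y : G)⁻¹, ?_⟩
          rw [← conjChar_conjChar, hg]⟩
        one_smul := fun f => Subtype.ext (by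
          show conjChar V f.1 ((1 : (P : Subgroup G)) : G)⁻¹ = f.1
          rw [OneMemClass.coe_one, inv_one, conjChar_one])
        mul_smul := fun a b f => Subtype.ext (by
          show conjChar V f.1 ((a * b : (P : Subgroup G)) : G)⁻¹ =
            conjChar V (conjChar V f.1 (b : G)⁻¹) (a : G)⁻¹
          rw [conjChar_conjChar, Subgroup.coe_mul, mul_inv_rev]) }
    obtain ⟨⟨f, hf⟩, hfix⟩ := P.2.nonempty_fixed_point_of_prime_not_dvd_card {f : V → ℂ // f ∈ s} (by
      rw [Nat.card_eq_fintype_card, Fintype.card_coe, ← even_iff_two_dvd]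
      exact Nat.not_even_iff_odd.2 hs)
    obtain ⟨g, rfl⟩ := exists_lin_of_mem_orbit hf
    refine ⟨g, ?_⟩
    by_contra hne
    have hinv : ∀ y ∈ (P : Subgroup G), conjLin (conjLin l g) y = conjLin l g := by
      intro y hy
      apply linFun_injective
      rw [linFun_conjLin]
      have := congrArg Subtype.val (hfix ⟨y⁻¹, inv_mem hy⟩)
      change conjChar V (linFun (conjLin l g)) (y⁻¹)⁻¹ = _ at this
      rwa [inv_inv] at this
    obtain ⟨c, hcV, hc1, hcN, -⟩ := exists_fixed_elem P hodd hinv hne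
    rw [hN] at hcN
    obtain ⟨k, hk⟩ := IsPGroup.iff_card.1 P.2
    exact hc1 (orderOf_eq_one_iff.1 (Nat.eq_one_of_dvd_coprimes
      ((Nat.coprime_two_left.2 hodd).pow_left k)
      ((Subgroup.orderOf_dvd_natCard _ hcN).trans (dvd_of_eq hk))
      (Subgroup.orderOf_dvd_natCard _ hcV)))

end OddNormal

section Step

variable {G : Type u} [Group G] [Finite G] {V : Subgroup G} [V.Normal] {R : Prop} (P : Sylow 2 G)
  (Q : Sylow 2 (G ⧸ V)) (hQ : (Q : Subgroup (G ⧸ V)) = (P : Subgroup G).map (QuotientGroup.mk' V))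
include hQ

theorem corr_of_trivial (hc : Corr R Q) (hμ : ∀ μ : (P : Subgroup G) →* ℂˣ,
      ∀ w : (P : Subgroup G), (w : G) ∈ V → μ w = 1)
    (hχ : ∀ χ : G → ℂ, GoodChar R χ → ∀ v ∈ V, χ v = χ 1) : Corr R P := by
  refine ⟨fun μ hg => ?_, fun χ μ μ' hg h1 h2 h3 h4 =>
    nConj_trivial P Q hQ hc hg h1 h2 h3 h4 (hχ χ hg) (hμ μ) (hμ μ')⟩
  obtain ⟨χ, ⟨a, b, -⟩, huniq⟩ := existsUnique_trivial P Q hQ hc hg (hμ μ)
  exact ⟨χ, ⟨a, b⟩, fun χ' h => huniq χ' ⟨h.1, h.2, hχ χ' h.1⟩⟩

omit hQ in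
theorem goodChar_twist {χ : G → ℂ} (hχ : GoodChar R χ) {δ : G →* ℂˣ} (hδ : GoodLin R δ) :
    GoodChar R (linFun δ * χ) := by
  obtain ⟨h1, ⟨d, hd, hd1⟩, h3⟩ := hχ
  refine ⟨isIrrCharacter_linFun_mul δ h1, ⟨d, hd, by simp [linFun_apply, hd1]⟩, fun hR g => ?_⟩
  show (((δ g : ℂˣ) : ℂ) * χ g).im = 0
  rw [Complex.mul_im, im_eq_zero_of_sq (hδ hR g), h3 hR g, mul_zero, zero_mul, add_zero]

omit hQ in
theorem over_twist (χ : G → ℂ) (δ : G →* ℂˣ) (μ : (P : Subgroup G) →* ℂˣ) :
    Over (P : Subgroup G) (linFun δ * χ) (δ.comp (P : Subgroup G).subtype * μ) ↔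
      Over (P : Subgroup G) χ μ := by
  haveI := Fintype.ofFinite (P : Subgroup G)
  rw [Over, Over, ip_eq, ip_eq]
  have e : classInner (fun w : (P : Subgroup G) => (linFun δ * χ) w)
      (linFun (δ.comp (P : Subgroup G).subtype * μ)) =
      classInner (fun w : (P : Subgroup G) => χ w) (linFun μ) := by
    simp only [classInner]
    congr 1
    refine Finset.sum_congr rfl fun w _ => ?_
    simp only [Pi.mul_apply, linFun_apply, MonoidHom.mul_apply, MonoidHom.comp_apply,
      Subgroup.coe_subtype, Units.val_mul, map_mul]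
    have hn : ‖((δ (w : G) : ℂˣ) : ℂ)‖ = 1 := norm_eq_one_of_pow_eq_one' (Nat.card_pos (α := G)).ne' (by
      rw [← Units.val_pow_eq_pow_val, ← map_pow, pow_card_eq_one', map_one, Units.val_one])
    rw [mul_mul_mul_comm, Complex.mul_conj', hn]
    simp
  rw [e]

/-- A linear character of `P` invariant on a normal `2`-subgroup extends on it to the group. -/
theorem exists_twist (hVP : V ≤ (P : Subgroup G)) {μ : (P : Subgroup G) →* ℂˣ} (hμ : GoodLin R μ)
    (hVsq : ∀ v ∈ V, v * v = 1)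
    (hinv : ∀ g : G, conjLin (μ.comp (Subgroup.inclusion hVP)) g = μ.comp (Subgroup.inclusion hVP)) :
    ∃ δ : G →* ℂˣ, GoodLin R δ ∧ ∀ (v : G) (hv : v ∈ V), δ v = μ ⟨v, hVP hv⟩ := by
  refine ⟨MonoidHom.transfer μ, fun hR g => ?_, fun v hv => ?_⟩
  · classical
    letI := (P : Subgroup G).fintypeQuotientOfFiniteIndex
    rw [MonoidHom.transfer_eq_prod_quotient_orbitRel_zpowers_quot, ← Finset.prod_pow]
    exact Finset.prod_eq_one fun q _ => hμ hR _
  · rw [transfer_apply_of_invariant hVP μ ⟨v, hv⟩ (μ ⟨v, hVP hv⟩) fun g => ?_]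
    · obtain ⟨j, hj⟩ : Odd (P : Subgroup G).index := by
        rw [← Nat.not_even_iff_odd, even_iff_two_dvd]; exact P.not_dvd_index
      have h2 : μ ⟨v, hVP hv⟩ ^ 2 = 1 := by
        rw [← map_pow, sq, show (⟨v, hVP hv⟩ : (P : Subgroup G)) * ⟨v, hVP hv⟩ = 1 from
          Subtype.ext (hVsq v hv), map_one]
      rw [hj, pow_succ, pow_mul, h2, one_pow, one_mul]
    · have h := DFunLike.congr_fun (hinv g⁻¹) ⟨v, hv⟩
      refine Eq.trans ?_ h
      show μ _ = μ _
      congr 1
      refine Subtype.ext ?_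
      show g⁻¹ * v * g = ((MulAut.conjNormal g⁻¹ (⟨v, hv⟩ : V) : V) : G)
      rw [MulAut.conjNormal_apply, inv_inv]

theorem existsUnique_invariant (hc : Corr R Q) (hVP : V ≤ (P : Subgroup G))
    (hVsq : ∀ v ∈ V, v * v = 1) {μ : (P : Subgroup G) →* ℂˣ} (hμ : GoodLin R μ)
    (hinv : ∀ g : G, conjLin (μ.comp (Subgroup.inclusion hVP)) g = μ.comp (Subgroup.inclusion hVP)) :
    ∃! χ : G → ℂ, GoodChar R χ ∧ Over (P : Subgroup G) χ μ := by
  obtain ⟨δ, hδ, hδV⟩ := exists_twist P Q hQ hVP hμ hVsq hinv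
  have hδ' : GoodLin R δ⁻¹ := fun hR g => by rw [MonoidHom.inv_apply, inv_pow, hδ hR g, inv_one]
  set μ0 := (δ⁻¹).comp (P : Subgroup G).subtype * μ with hμ0
  have hμ0g : GoodLin R μ0 := fun hR w => by
    rw [hμ0, MonoidHom.mul_apply, mul_pow, hμ hR w, mul_one]
    exact hδ' hR _
  have hμ0V : ∀ w : (P : Subgroup G), (w : G) ∈ V → μ0 w = 1 := fun w hw => by
    simp only [hμ0, MonoidHom.mul_apply, MonoidHom.comp_apply, Subgroup.coe_subtype, MonoidHom.inv_apply]
    rw [hδV _ hw, inv_mul_cancel]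
  obtain ⟨χ0, ⟨hg, ho, -⟩, huniq⟩ := existsUnique_trivial P Q hQ hc hμ0g hμ0V
  have e1 : δ.comp (P : Subgroup G).subtype * μ0 = μ := MonoidHom.ext fun w => by
    simp only [hμ0, MonoidHom.mul_apply, MonoidHom.comp_apply, Subgroup.coe_subtype, MonoidHom.inv_apply]
    rw [mul_inv_cancel_left]
  refine ⟨linFun δ * χ0, ⟨goodChar_twist hg hδ, ?_⟩, ?_⟩
  · rw [← e1, over_twist]; exact ho
  · rintro χ ⟨hχ, hχo⟩
    have h2 : linFun δ⁻¹ * χ = χ0 := by
      refine huniq _ ⟨goodChar_twist hχ hδ', (over_twist P χ δ⁻¹ μ).2 hχo, ?_⟩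
      refine trivialOn_of_over_one (goodChar_twist hχ hδ').1 ?_
      have h := over_res hVP (IsIrrCharacter.isCharacter (goodChar_twist hχ hδ').1)
        ((over_twist P χ δ⁻¹ μ).2 hχo)
      rwa [show ((δ⁻¹).comp (P : Subgroup G).subtype * μ).comp (Subgroup.inclusion hVP) = 1 from
        MonoidHom.ext fun v => hμ0V ⟨v, hVP v.2⟩ v.2] at h
    rw [← h2, ← mul_assoc]
    funext g
    simp [linFun_apply, MonoidHom.inv_apply, mul_inv_cancel₀]

theorem nConj_invariant (hc : Corr R Q) (hVP : V ≤ (P : Subgroup G))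
    (hVsq : ∀ v ∈ V, v * v = 1) {χ : G → ℂ} (hχ : GoodChar R χ) {μ μ' : (P : Subgroup G) →* ℂˣ}
    (hμ : GoodLin R μ) (hμ' : GoodLin R μ')
    (hinv : ∀ g : G, conjLin (μ.comp (Subgroup.inclusion hVP)) g = μ.comp (Subgroup.inclusion hVP))
    (heq : μ'.comp (Subgroup.inclusion hVP) = μ.comp (Subgroup.inclusion hVP))
    (h : Over (P : Subgroup G) χ μ) (h' : Over (P : Subgroup G) χ μ') :
    NConj (P : Subgroup G) μ μ' := by
  obtain ⟨δ, hδ, hδV⟩ := exists_twist P Q hQ hVP hμ hVsq hinv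
  have hδ' : GoodLin R δ⁻¹ := fun hR g => by rw [MonoidHom.inv_apply, inv_pow, hδ hR g, inv_one]
  set d := (δ⁻¹).comp (P : Subgroup G).subtype with hd
  have hV : ∀ ν : (P : Subgroup G) →* ℂˣ, ν.comp (Subgroup.inclusion hVP) = μ.comp (Subgroup.inclusion hVP) →
      ∀ w : (P : Subgroup G), (w : G) ∈ V → (d * ν) w = 1 := fun ν hν w hw => by
    simp only [hd, MonoidHom.mul_apply, MonoidHom.comp_apply, Subgroup.coe_subtype, MonoidHom.inv_apply]
    rw [show ν w = μ w from DFunLike.congr_fun hν ⟨w, hw⟩, hδV _ hw, inv_mul_cancel]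
  have hg : ∀ ν : (P : Subgroup G) →* ℂˣ, GoodLin R ν → GoodLin R (d * ν) := fun ν hν hR w => by
    rw [MonoidHom.mul_apply, mul_pow, hν hR w, mul_one]
    exact hδ' hR _
  obtain ⟨n, hn, he⟩ := nConj_trivial P Q hQ hc (goodChar_twist hχ hδ') (hg μ hμ) (hg μ' hμ')
    ((over_twist P χ δ⁻¹ μ).2 h) ((over_twist P χ δ⁻¹ μ').2 h')
    (trivialOn_of_over_one (goodChar_twist hχ hδ').1 (by
      have h1 := over_res hVP (IsIrrCharacter.isCharacter (goodChar_twist hχ hδ').1)
        ((over_twist P χ δ⁻¹ μ).2 h)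
      rwa [show (d * μ).comp (Subgroup.inclusion hVP) = 1 from
        MonoidHom.ext fun v => hV μ rfl ⟨v, hVP v.2⟩ v.2] at h1))
    (hV μ rfl) (hV μ' heq)
  refine ⟨n, hn, fun w w' e => ?_⟩
  have h2 := he w w' e
  have hdw : d w' = d w := by
    simp only [hd, MonoidHom.comp_apply, Subgroup.coe_subtype, e, map_mul, map_inv]
    rw [mul_comm (δ⁻¹ n), mul_inv_cancel_right]
  rw [MonoidHom.mul_apply, MonoidHom.mul_apply, hdw] at h2
  exact mul_left_cancel h2

end Step

section Inertia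

variable {G : Type u} [Group G] [Finite G] {V : Subgroup G} [V.Normal] {R : Prop} (P : Sylow 2 G)
  (hVP : V ≤ (P : Subgroup G))

/-- The stabilizer of a linear character of a normal subgroup. -/
def inertiaLin (l : V →* ℂˣ) : Subgroup G where
  carrier := {g | conjChar V (linFun l) g = linFun l}
  one_mem' := conjChar_one V _
  mul_mem' := fun {a b} ha hb => by
    show conjChar V (linFun l) (a * b) = linFun l
    rw [← conjChar_conjChar, ha, hb]
  inv_mem' := fun {a} ha => by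
    show conjChar V (linFun l) a⁻¹ = linFun l
    conv_lhs => rw [← ha]
    rw [conjChar_conjChar, mul_inv_cancel, conjChar_one]

variable (μ : (P : Subgroup G) →* ℂˣ)

theorem sylow_le_inertiaLin :
    (P : Subgroup G) ≤ inertiaLin (μ.comp (Subgroup.inclusion hVP)) := by
  intro y hy
  funext v
  rw [conjChar_apply]
  show ((μ ⟨y * v * y⁻¹, _⟩ : ℂˣ) : ℂ) = ((μ (Subgroup.inclusion hVP v) : ℂˣ) : ℂ)
  congr 1
  rw [show (⟨y * v * y⁻¹, _⟩ : (P : Subgroup G)) =
    ⟨y, hy⟩ * Subgroup.inclusion hVP v * ⟨y, hy⟩⁻¹ from Subtype.ext rfl, map_mul, map_mul, map_inv,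
    mul_comm (μ ⟨y, hy⟩), mul_inv_cancel_right]

theorem over_subtype {T : Subgroup G} (hPT : (P : Subgroup G) ≤ T) (ψ : T → ℂ) :
    Over (P.subtype hPT : Subgroup T) ψ (μ.comp (Subgroup.subgroupOfEquivOfLe hPT).toMonoidHom) ↔
      ip (fun w : (P : Subgroup G) => ψ ⟨w, hPT w.2⟩) (linFun μ) ≠ 0 := by
  haveI := Fintype.ofFinite (P : Subgroup G)
  haveI : Fintype ((P : Subgroup G).subgroupOf T) := Fintype.ofFinite _
  rw [Over]
  show ip (fun w : (P : Subgroup G).subgroupOf T => ψ w) _ ≠ 0 ↔ _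
  erw [ip_eq]
  rw [ip_eq, ← classInner_comp_mulEquiv (Subgroup.subgroupOfEquivOfLe hPT)]
  exact Iff.rfl

theorem cond_subtype {T : Subgroup G} (hPT : (P : Subgroup G) ≤ T)
    (h : R ∨ Subgroup.normalizer ((P : Subgroup G) : Set G) = P) :
    R ∨ Subgroup.normalizer ((P.subtype hPT : Subgroup T) : Set T) = P.subtype hPT := by
  refine h.imp id fun hN => le_antisymm (fun x hx => ?_) Subgroup.le_normalizer
  show (x : G) ∈ (P : Subgroup G)
  rw [← hN, Subgroup.mem_normalizer_iff]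
  intro w
  constructor
  · intro hw
    exact (Subgroup.mem_normalizer_iff.1 hx ⟨w, hPT hw⟩).1 hw
  · intro hw
    have hw' : w ∈ T := by
      have := mul_mem (mul_mem (inv_mem x.2) (hPT hw)) x.2
      rwa [show (x : G)⁻¹ * ((x : G) * w * (x : G)⁻¹) * x = w by group] at this
    exact (Subgroup.mem_normalizer_iff.1 hx ⟨w, hw'⟩).2 hw

theorem mem_normalizer_of_subtype {T : Subgroup G} (hPT : (P : Subgroup G) ≤ T) {x : T}
    (hx : x ∈ Subgroup.normalizer ((P.subtype hPT : Subgroup T) : Set T)) :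
    (x : G) ∈ Subgroup.normalizer ((P : Subgroup G) : Set G) := by
  rw [Subgroup.mem_normalizer_iff]
  intro w
  constructor
  · intro hw
    exact (Subgroup.mem_normalizer_iff.1 hx ⟨w, hPT hw⟩).1 hw
  · intro hw
    have hw' : w ∈ T := by
      have := mul_mem (mul_mem (inv_mem x.2) (hPT hw)) x.2
      rwa [show (x : G)⁻¹ * ((x : G) * w * (x : G)⁻¹) * x = w by group] at this
    exact (Subgroup.mem_normalizer_iff.1 hx ⟨w, hw'⟩).2 hw

theorem conj_indFun [Fintype G] (T : Subgroup G) (ψ : T → ℂ) :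
    (fun g => conj (indFun T ψ g)) = indFun T (fun t => conj (ψ t)) := by
  classical
  funext g
  simp only [indFun, map_mul, map_inv₀, map_natCast, map_sum]
  congr 1
  refine Finset.sum_congr rfl fun x _ => ?_
  by_cases h : x⁻¹ * g * x ∈ T
  · rw [extendByZero_of_mem T _ h, extendByZero_of_mem T _ h]
  · rw [extendByZero_of_not_mem T _ h, extendByZero_of_not_mem T _ h, map_zero]

/-- The correspondent of a good character in the inertia group. -/
theorem exists_correspondent [Fintype G] {χ : G → ℂ} (hχ : GoodChar R χ) (hμ : GoodLin R μ)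
    (h : Over (P : Subgroup G) χ μ) {T : Subgroup G} [Fintype T]
    (hT : ∀ g : G, g ∈ T ↔ conjChar V (linFun (μ.comp (Subgroup.inclusion hVP))) g =
      linFun (μ.comp (Subgroup.inclusion hVP))) (hPT : (P : Subgroup G) ≤ T) :
    ∃ ψ : T → ℂ, GoodChar R ψ ∧ indFun T ψ = χ ∧
      ∀ μ' : (P : Subgroup G) →* ℂˣ, μ'.comp (Subgroup.inclusion hVP) = μ.comp (Subgroup.inclusion hVP) →
        Over (P : Subgroup G) χ μ' → ip (fun w : (P : Subgroup G) => ψ ⟨w, hPT w.2⟩) (linFun μ') ≠ 0 := by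
  classical
  haveI := Fintype.ofFinite V
  haveI := Fintype.ofFinite (P : Subgroup G)
  set l := μ.comp (Subgroup.inclusion hVP) with hl
  have hVT : V ≤ T := hVP.trans hPT
  have hlirr : IsIrrCharacter V (linFun l) := isIrrCharacter_linear l
  have hov : classInner (fun n : V => χ n) (linFun l) ≠ 0 := by
    rw [← ip_eq]; exact over_res hVP (IsIrrCharacter.isCharacter hχ.1) h
  obtain ⟨ψ, hψ, hind, hmult⟩ := exists_indFun_inertia_eq hlirr hT hVT hχ.1 hov
  have hψov : classInner (fun n : V => ψ ⟨(n : G), hVT n.2⟩) (linFun l) ≠ 0 := by rwa [hmult]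
  refine ⟨ψ, ⟨hψ, ?_, fun hR g => ?_⟩, hind, fun μ' hμ' h' => ?_⟩
  · obtain ⟨d, hd, hd1⟩ := hχ.2.1
    obtain ⟨e, he⟩ := exists_degree_of_isCharacter (IsIrrCharacter.isCharacter hψ)
    refine ⟨e, ?_, he⟩
    have h1 := congrFun hind 1
    rw [indFun_one, he, hd1] at h1
    have : T.index * e = d := by exact_mod_cast h1
    exact (Nat.odd_mul.1 (this ▸ hd)).2
  · have hc : IsIrrCharacter T (fun t => conj (ψ t)) := isIrrCharacter_conj hψ
    have hlr : ∀ n : V, conj (linFun l n) = linFun l n := fun n =>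
      Complex.conj_eq_iff_im.2 (im_eq_zero_of_sq (hμ hR _))
    have hcov : classInner (fun n : V => conj (ψ ⟨(n : G), hVT n.2⟩)) (linFun l) ≠ 0 := by
      intro h0
      apply hψov
      rw [← map_eq_zero (starRingEnd ℂ), ← h0]
      simp only [classInner, map_mul, map_inv₀, map_natCast, map_sum, hlr]
    have heq := indFun_inertia_injective hlirr hT hVT hc hψ hcov hψov (by
      rw [← conj_indFun, hind, goodChar_conj hχ hR])
    exact Complex.conj_eq_iff_im.1 (congrFun heq g)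
  · rw [ip_eq]
    haveI := Fintype.ofFinite (IrrCharacter T)
    obtain ⟨m, hm⟩ := IsCharacter.exists_sum
      (CfsgLib.Coherence.isCharacter_comp (IsIrrCharacter.isCharacter hχ.1) T.subtype)
    have hmi : ∀ φ : IrrCharacter T, classInner (fun t : T => χ t) (φ : T → ℂ) = m φ := fun φ => by
      have h := classInner_sum_irr (fun ψ => (m ψ : ℂ)) φ
      rw [← hm] at h
      exact h
    rw [Over, ip_eq] at h'
    have hsum : classInner (fun w : (P : Subgroup G) => χ w) (linFun μ') = ∑ φ : IrrCharacter T,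
        (m φ : ℂ) * classInner (fun w : (P : Subgroup G) => (φ : T → ℂ) ⟨w, hPT w.2⟩) (linFun μ') := by
      have e : (fun w : (P : Subgroup G) => χ w) = ∑ φ : IrrCharacter T,
          (m φ : ℂ) • fun w : (P : Subgroup G) => (φ : T → ℂ) ⟨w, hPT w.2⟩ := by
        funext w
        have := congrFun hm ⟨(w : G), hPT w.2⟩
        simpa [Finset.sum_apply] using this
      simp only [e, classInner_sum_left, classInner_smul_left]
    rw [hsum] at h'
    obtain ⟨φ, -, hφ⟩ := Finset.exists_ne_zero_of_sum_ne_zero h'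
    have hφμ := right_ne_zero_of_mul hφ
    have hφm : m φ ≠ 0 := fun e => left_ne_zero_of_mul hφ (by rw [e, Nat.cast_zero])
    suffices hφψ : (φ : T → ℂ) = ψ by rwa [hφψ] at hφμ
    by_contra hne
    have hφl : classInner (fun n : V => (φ : T → ℂ) ⟨(n : G), hVT n.2⟩) (linFun l) ≠ 0 := by
      haveI : Fintype ((P : Subgroup G).subgroupOf T) := Fintype.ofFinite _
      haveI : Fintype (V.subgroupOf T) := Fintype.ofFinite _
      have h1 : Over ((P : Subgroup G).subgroupOf T) (φ : T → ℂ)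
          (μ'.comp (Subgroup.subgroupOfEquivOfLe hPT).toMonoidHom) := by
        rw [Over, ip_eq]
        erw [classInner_comp_mulEquiv (Subgroup.subgroupOfEquivOfLe hPT)
          (fun w : (P : Subgroup G) => (φ : T → ℂ) ⟨w, hPT w.2⟩) (linFun μ')]
        exact hφμ
      have hle : V.subgroupOf T ≤ (P : Subgroup G).subgroupOf T := fun x hx => hVP hx
      have h2 := over_res hle (IsIrrCharacter.isCharacter φ.2) h1
      rw [Over, ip_eq] at h2
      rw [← classInner_comp_mulEquiv (Subgroup.subgroupOfEquivOfLe hVT), ← hμ']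
      exact h2
    obtain ⟨a, e, ha, he, hle⟩ := classInner_res_le hVT (IsIrrCharacter.isCharacter hχ.1) hlirr
      ({⟨ψ, hψ⟩, φ} : Finset (IrrCharacter T)) fun z hz => by
        rcases Finset.mem_insert.1 hz with rfl | hz
        · intro h0
          have h := classInner_self_of_isIrr hχ.1
          nth_rewrite 1 [← hind] at h
          rw [classInner_indFun T ψ _ (IsIrrCharacter.isClassFunction hχ.1), classInner_conj_symm, h0,
            map_zero] at h
          exact zero_ne_one h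
        · rw [Finset.mem_singleton.1 hz, hmi, Nat.cast_ne_zero]; exact hφm
    rw [Finset.sum_pair (fun h => hne (congrArg Subtype.val h).symm)] at hle
    rw [he φ, Nat.cast_ne_zero] at hφl
    rw [he ⟨ψ, hψ⟩, ha] at hmult
    have : e ⟨ψ, hψ⟩ = a := by exact_mod_cast hmult
    omega

theorem existsUnique_inertia (hμ : GoodLin R μ) {T : Subgroup G}
    (hT : T = inertiaLin (μ.comp (Subgroup.inclusion hVP))) (hPT : (P : Subgroup G) ≤ T)
    (hc : Corr R (P.subtype hPT)) :
    ∃! χ : G → ℂ, GoodChar R χ ∧ Over (P : Subgroup G) χ μ := by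
  classical
  haveI := Fintype.ofFinite G
  haveI := Fintype.ofFinite V
  haveI := Fintype.ofFinite T
  set l := μ.comp (Subgroup.inclusion hVP) with hl
  have hT' : ∀ g : G, g ∈ T ↔ conjChar V (linFun l) g = linFun l := fun g => by subst hT; exact Iff.rfl
  set μT := μ.comp (Subgroup.subgroupOfEquivOfLe hPT).toMonoidHom with hμT
  obtain ⟨ψ, ⟨hψ, hψo⟩, huniq⟩ := hc.1 μT fun hR w => hμ hR _
  have hVT : V ≤ T := hVP.trans hPT
  have hψV : classInner (fun n : V => ψ ⟨(n : G), hVT n.2⟩) (linFun l) ≠ 0 := by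
    haveI : Fintype (V.subgroupOf T) := Fintype.ofFinite _
    have h2 := over_res (P := (P : Subgroup G).subgroupOf T) (V := V.subgroupOf T)
      (fun x hx => hVP hx) (IsIrrCharacter.isCharacter hψ.1) hψo
    rw [Over, ip_eq] at h2
    rw [← classInner_comp_mulEquiv (Subgroup.subgroupOfEquivOfLe hVT)]
    exact h2
  obtain ⟨hirr, -⟩ := isIrrCharacter_indFun_inertia (isIrrCharacter_linear l) hT' hVT hψ.1 hψV
  refine ⟨indFun T ψ, ⟨⟨hirr, ?_, fun hR g => ?_⟩, ?_⟩, ?_⟩
  · obtain ⟨d, hd, hd1⟩ := hψ.2.1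
    refine ⟨T.index * d, Nat.odd_mul.2 ⟨?_, hd⟩, by rw [indFun_one, hd1, Nat.cast_mul]⟩
    rw [← Nat.not_even_iff_odd, even_iff_two_dvd]
    exact fun h => P.not_dvd_index (h.trans (Subgroup.index_dvd_of_le hPT))
  · rw [← Complex.conj_eq_iff_im]
    have e := congrFun (conj_indFun T ψ) g
    rw [e, goodChar_conj hψ hR]
  · refine classInner_trans hPT (IsIrrCharacter.isCharacter hirr) hψ.1 (isIrrCharacter_linear μ) ?_
      ((over_subtype P μ hPT ψ).1 hψo)
    rw [ip_eq]
    intro h0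
    have h := classInner_self_of_isIrr hirr
    rw [classInner_indFun T ψ _ (IsIrrCharacter.isClassFunction hirr), classInner_conj_symm, h0,
      map_zero] at h
    exact zero_ne_one h
  · rintro χ ⟨hχ, hχo⟩
    obtain ⟨ψ', hψ', hind, hov⟩ := exists_correspondent P hVP μ hχ hμ hχo hT' hPT
    rw [← hind, huniq ψ' ⟨hψ', (over_subtype P μ hPT ψ').2 (hov μ rfl hχo)⟩]

/-- Two fixed conjugate characters are conjugate under the normalizer. -/
theorem exists_normalizer_conj {l l' : V →* ℂˣ} (hl : (P : Subgroup G) ≤ inertiaLin l)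
    (hl' : (P : Subgroup G) ≤ inertiaLin l') {g : G} (hg : linFun l' = conjChar V (linFun l) g) :
    ∃ n ∈ Subgroup.normalizer ((P : Subgroup G) : Set G), linFun l' = conjChar V (linFun l) n := by
  have hgP : ((g • P : Sylow 2 G) : Subgroup G) ≤ inertiaLin l := by
    intro a ha
    obtain ⟨y, hy, hya⟩ := Subgroup.mem_map.1 ha
    change g * y * g⁻¹ = a at hya
    show conjChar V (linFun l) a = linFun l
    rw [← hya, ← conjChar_conjChar, ← conjChar_conjChar, ← hg]
    rw [show conjChar V (linFun l') y = linFun l' from hl' hy, hg, conjChar_conjChar, mul_inv_cancel,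
      conjChar_one]
  obtain ⟨t, ht⟩ := MulAction.exists_smul_eq (inertiaLin l) (P.subtype hl) ((g • P).subtype hgP)
  rw [Sylow.smul_subtype] at ht
  have e := Sylow.subtype_injective ht
  refine ⟨(t : G)⁻¹ * g, ?_, ?_⟩
  · refine Sylow.smul_eq_iff_mem_normalizer.1 ?_
    rw [mul_smul, ← e, inv_smul_eq_iff]; rfl
  · rw [← conjChar_conjChar, show conjChar V (linFun l) (t : G)⁻¹ = linFun l from
      (inertiaLin l).inv_mem t.2, hg]

end Inertia

/-- A conjugate of a linear character of a Sylow subgroup. -/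
noncomputable def nTwist {G : Type u} [Group G] (P : Subgroup G) (μ : P →* ℂˣ) {n : G}
    (hn : n ∈ Subgroup.normalizer (P : Set G)) : P →* ℂˣ :=
  μ.comp (Subgroup.normalizerMonoidHom P ⟨n, hn⟩).toMonoidHom

theorem over_nTwist {G : Type u} [Group G] [Finite G] (P : Subgroup G) {χ : G → ℂ}
    (hχ : IsClassFunction G χ) (μ : P →* ℂˣ) {n : G} (hn : n ∈ Subgroup.normalizer (P : Set G))
    (h : Over P χ μ) : Over P χ (nTwist P μ hn) := by
  haveI := Fintype.ofFinite P
  rw [Over, ip_eq] at h ⊢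
  rw [← classInner_comp_mulEquiv (Subgroup.normalizerMonoidHom P ⟨n, hn⟩ : P ≃* P)] at h
  rwa [show (fun w : P => χ w) = fun w : P => χ ((Subgroup.normalizerMonoidHom P ⟨n, hn⟩ : P ≃* P) w) from
    funext fun w => (hχ (w : G) n).symm]

/-- The correspondence holds in every solvable group. -/
theorem corr_aux : ∀ (N : ℕ) (G : Type u) [Group G] [Finite G] [Group.IsSolvable G] (R : Prop)
    (P : Sylow 2 G), Nat.card G = N →
    (R ∨ Subgroup.normalizer ((P : Subgroup G) : Set G) = P) → Corr R P := by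
  intro N
  induction N using Nat.strong_induction_on with
  | _ N ih =>
  intro G _ _ _ R P hN hR
  classical
  haveI := Fintype.ofFinite G
  by_cases hG : Nat.card G = 1
  · haveI : Subsingleton G := (Nat.card_eq_one_iff_unique.1 hG).1
    haveI := Fintype.ofFinite (P : Subgroup G)
    have hone : ∀ χ : G → ℂ, GoodChar R χ → χ = fun _ => 1 := by
      intro χ hχ
      obtain ⟨d, hd, hd1⟩ := hχ.2.1
      have hirr := classInner_self_of_isIrr hχ.1
      have hfun : ∀ g : G, χ g = (d : ℂ) := fun g => by rw [Subsingleton.elim g 1, hd1]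
      simp only [classInner, hfun, Complex.conj_natCast, Finset.sum_const, Finset.card_univ,
        ← Nat.card_eq_fintype_card, hG, Nat.cast_one, inv_one, one_mul, one_smul] at hirr
      have : d * d = 1 := by exact_mod_cast hirr
      funext g
      rw [hfun, Nat.eq_one_of_mul_eq_one_right this, Nat.cast_one]
    have hμ1 : ∀ μ : (P : Subgroup G) →* ℂˣ, μ = 1 := fun μ => MonoidHom.ext fun w => by
      rw [Subsingleton.elim w 1, map_one, map_one]
    refine ⟨fun μ _ => ⟨fun _ => 1, ⟨⟨isIrrCharacter_one, ⟨1, odd_one, by simp⟩, fun _ _ => by simp⟩, ?_⟩,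
      fun χ h => hone χ h.1⟩, fun χ μ μ' _ _ _ _ _ => ⟨1, one_mem _, fun w w' _ => by
        rw [hμ1 μ, hμ1 μ']; rfl⟩⟩
    rw [Over, ip_eq, hμ1 μ]
    show classInner (linFun (1 : (P : Subgroup G) →* ℂˣ)) _ ≠ 0
    exact (classInner_self_of_isIrr (isIrrCharacter_linear (1 : (P : Subgroup G) →* ℂˣ))).trans_ne
      one_ne_zero
  haveI : Nontrivial G := Finite.one_lt_card_iff_nontrivial.1
    (lt_of_le_of_ne Nat.card_pos (Ne.symm hG))
  obtain ⟨V, -, hVn, hV0, hmin⟩ := CfsgLib.SolvableStructure.exists_minimal_normal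
    (N := (⊤ : Subgroup G)) inferInstance (top_ne_bot)
  haveI := hVn
  obtain ⟨p, e, hp, he, hcard, hexp, hab⟩ := CfsgLib.SolvableStructure.minimal_normal_prime hV0 hmin
  haveI := hab
  set Q : Sylow 2 (G ⧸ V) := P.mapSurjective (QuotientGroup.mk'_surjective V)
  have hQ : (Q : Subgroup (G ⧸ V)) = (P : Subgroup G).map (QuotientGroup.mk' V) := rfl
  have hlt : Nat.card (G ⧸ V) < N := by
    rw [← hN, ← V.card_mul_index, ← Subgroup.index_eq_card]
    exact lt_mul_left (Nat.pos_of_ne_zero Subgroup.index_ne_zero_of_finite)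
      (hcard ▸ Nat.one_lt_pow he.ne' hp.one_lt)
  haveI : Group.IsSolvable (G ⧸ V) :=
    Group.isSolvable_of_surjective (f := QuotientGroup.mk' V) (QuotientGroup.mk'_surjective V)
  have hcQ : Corr R Q := ih _ hlt (G ⧸ V) R Q rfl (cond_quotient P Q hQ hR)
  by_cases hp2 : p = 2
  swap
  · have hodd : Odd (Nat.card V) := by
      rw [hcard]; exact (hp.eq_two_or_odd'.resolve_left hp2).pow
    refine corr_of_trivial P Q hQ hcQ (fun μ w hw => ?_) fun χ hχ => trivialOn_of_odd P hodd hR hχ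
    obtain ⟨k, hk⟩ := IsPGroup.iff_card.1 P.2
    have h1 : (w : G) = 1 := orderOf_eq_one_iff.1 (Nat.eq_one_of_dvd_coprimes
      ((Nat.coprime_two_left.2 hodd).pow_left k)
      ((Subgroup.orderOf_dvd_natCard _ w.2).trans (dvd_of_eq hk))
      (Subgroup.orderOf_dvd_natCard _ hw))
    rw [show w = 1 from Subtype.ext h1, map_one]
  subst hp2
  have hVsq : ∀ v ∈ V, v * v = 1 := fun v hv => by rw [← sq]; exact hexp v hv
  have hVP : V ≤ (P : Subgroup G) := by
    obtain ⟨Q', hQ'⟩ := (IsPGroup.of_card (n := e) hcard).exists_le_sylow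
    obtain ⟨c, hc⟩ := MulAction.exists_smul_eq G Q' P
    intro v hv
    rw [← hc]
    refine Subgroup.mem_map.2 ⟨c⁻¹ * v * c, hQ' (by simpa using hVn.conj_mem v hv c⁻¹), ?_⟩
    show c * (c⁻¹ * v * c) * c⁻¹ = v
    group
  have hih : ∀ {T : Subgroup G} (hPT : (P : Subgroup G) ≤ T), T ≠ ⊤ → Corr R (P.subtype hPT) :=
    fun {T} hPT hT => ih _ (hN ▸ lt_of_le_of_ne T.card_le_card_group
      fun h => hT (Subgroup.eq_top_of_card_eq T h)) T R _ rfl (cond_subtype P hPT hR)
  have hinv : ∀ μ : (P : Subgroup G) →* ℂˣ, inertiaLin (μ.comp (Subgroup.inclusion hVP)) = ⊤ →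
      ∀ g : G, conjLin (μ.comp (Subgroup.inclusion hVP)) g = μ.comp (Subgroup.inclusion hVP) :=
    fun μ h g => linFun_injective (by
      rw [linFun_conjLin]
      exact (h.ge (Subgroup.mem_top g) : g ∈ inertiaLin (μ.comp (Subgroup.inclusion hVP))))
  refine ⟨fun μ hμ => ?_, fun χ μ μ' hχ hμ hμ' h h' => ?_⟩
  · by_cases hT : inertiaLin (μ.comp (Subgroup.inclusion hVP)) = ⊤
    · exact existsUnique_invariant P Q hQ hcQ hVP hVsq hμ (hinv μ hT)
    · exact existsUnique_inertia P hVP μ hμ rfl (sylow_le_inertiaLin P hVP μ)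
        (hih (sylow_le_inertiaLin P hVP μ) hT)
  · haveI := Fintype.ofFinite V
    set l := μ.comp (Subgroup.inclusion hVP) with hl
    set l' := μ'.comp (Subgroup.inclusion hVP) with hl'
    have h1 := over_res hVP (IsIrrCharacter.isCharacter hχ.1) h
    have h1' := over_res hVP (IsIrrCharacter.isCharacter hχ.1) h'
    rw [Over, ip_eq] at h1 h1'
    obtain ⟨g, hg⟩ := exists_conj_of_constituents V hχ.1 (isIrrCharacter_linear l)
      (isIrrCharacter_linear l') h1 h1'
    obtain ⟨n, hn, hn'⟩ := exists_normalizer_conj P (sylow_le_inertiaLin P hVP μ)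
      (sylow_le_inertiaLin P hVP μ') (l := l) (l' := l') hg
    set μ1 := nTwist (P : Subgroup G) μ hn with hμ1
    have hμ1g : GoodLin R μ1 := fun hR w => hμ hR _
    have hμ1o : Over (P : Subgroup G) χ μ1 :=
      over_nTwist _ (IsIrrCharacter.isClassFunction hχ.1) μ hn h
    have heq : μ'.comp (Subgroup.inclusion hVP) = μ1.comp (Subgroup.inclusion hVP) := by
      refine linFun_injective (hn'.trans (funext fun v => ?_))
      rfl
    suffices hc : NConj (P : Subgroup G) μ1 μ' by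
      obtain ⟨x, hx, hxe⟩ := hc
      refine ⟨x * n⁻¹, mul_mem hx (inv_mem hn), fun w w' e => ?_⟩
      have hw0 : n⁻¹ * (w : G) * n ∈ (P : Subgroup G) :=
        by simpa [mul_assoc] using (Subgroup.mem_normalizer_iff.1 (inv_mem hn) (w : G)).1 w.2
      rw [hxe ⟨_, hw0⟩ w' (by rw [e]; simp [mul_assoc])]
      show μ _ = μ w
      congr 1
      refine Subtype.ext ?_
      show n * (n⁻¹ * (w : G) * n) * n⁻¹ = w
      group
    by_cases hT : inertiaLin (μ1.comp (Subgroup.inclusion hVP)) = ⊤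
    · exact nConj_invariant P Q hQ hcQ hVP hVsq hχ hμ1g hμ' (hinv μ1 hT) heq hμ1o h'
    · have hPT := sylow_le_inertiaLin P hVP μ1
      haveI := Fintype.ofFinite (inertiaLin (μ1.comp (Subgroup.inclusion hVP)))
      obtain ⟨ψ, hψ, -, hov⟩ := exists_correspondent P hVP μ1 hχ hμ1g hμ1o (fun _ => Iff.rfl) hPT
      obtain ⟨x, hx, hxe⟩ := (hih hPT hT).2 ψ _ _ hψ
        (fun hR w => hμ1g hR (Subgroup.subgroupOfEquivOfLe hPT w))
        (fun hR w => hμ' hR (Subgroup.subgroupOfEquivOfLe hPT w))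
        ((over_subtype P μ1 hPT ψ).2 (hov μ1 rfl hμ1o)) ((over_subtype P μ' hPT ψ).2 (hov μ' heq h'))
      refine ⟨x, mem_normalizer_of_subtype P hPT hx, fun w w' e => ?_⟩
      exact hxe ⟨⟨w, hPT w.2⟩, w.2⟩ ⟨⟨w', hPT w'.2⟩, w'.2⟩ (Subtype.ext e)

theorem corr {G : Type u} [Group G] [Finite G] [Group.IsSolvable G] {R : Prop} (P : Sylow 2 G)
    (hR : R ∨ Subgroup.normalizer ((P : Subgroup G) : Set G) = P) : Corr R P :=
  corr_aux _ G R P rfl hR

end CfsgLib.BlockLocal.OddLinear
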