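import Cfsg.Agent.Lib.BlockLocal.OddDegreeLinear
import Cfsg.Agent.Lib.PGroups.Frattini

/-!
# Real characters of odd degree in solvable groups

The count of real irreducible characters of odd degree is the same for a solvable group and the
normalizer of a Sylow `2`-subgroup, and the criterion for all of them to be real.
-/

set_option autoImplicit false
set_option linter.unusedSectionVars false
set_option linter.style.haveILetI false

namespace CfsgLib.BlockLocal.OddLinear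

open Cfsg CfsgLib.CharTheory CfsgLib.Clifford CfsgLib.Frobenius
open scoped ComplexConjugate

universe u

variable {G : Type u} [Group G] [Finite G]

theorem goodChar_iff {R : Prop} (χ : IrrCharacter G) :
    GoodChar R (χ : G → ℂ) ↔ Odd (charDegree (χ : G → ℂ)) ∧ (R → ∀ g, ((χ : G → ℂ) g).im = 0) := by
  refine ⟨fun ⟨_, ⟨d, hd, hd1⟩, h⟩ => ⟨?_, h⟩, fun ⟨h, h'⟩ =>
    ⟨χ.2, ⟨_, h, (BrauerCharacters.charDegree_spec χ).1⟩, h'⟩⟩
  have e : (charDegree (χ : G → ℂ) : ℂ) = d := by rw [← (BrauerCharacters.charDegree_spec χ).1, hd1]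
  rwa [Nat.cast_injective e]

theorem nConj_symm {H : Subgroup G} {μ μ' : H →* ℂˣ} (h : NConj H μ μ') : NConj H μ' μ := by
  obtain ⟨n, hn, he⟩ := h
  refine ⟨n⁻¹, inv_mem hn, fun w w' e => (he w' w ?_).symm⟩
  rw [e]; group

theorem over_of_nConj {H : Subgroup G} {χ : G → ℂ} (hχ : IsClassFunction G χ) {μ μ' : H →* ℂˣ}
    (h : NConj H μ μ') (h' : Over H χ μ') : Over H χ μ := by
  obtain ⟨n, hn, he⟩ := h
  have : μ = nTwist H μ' hn := MonoidHom.ext fun w => (he w _ rfl).symm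
  rw [this]
  exact over_nTwist H hχ μ' hn h'

/-- The two Sylow normalizer counts agree. -/
theorem card_real_odd_eq [Group.IsSolvable G] (P : Sylow 2 G) :
    Nat.card {χ : IrrCharacter G // (∀ g : G, ((χ : G → ℂ) g).im = 0) ∧ Odd (charDegree (χ : G → ℂ))} =
      Nat.card {ψ : IrrCharacter (Subgroup.normalizer ((P : Subgroup G) : Set G)) //
        (∀ g, ((ψ : Subgroup.normalizer ((P : Subgroup G) : Set G) → ℂ) g).im = 0) ∧
          Odd (charDegree (ψ : Subgroup.normalizer ((P : Subgroup G) : Set G) → ℂ))} := by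
  classical
  set M := Subgroup.normalizer ((P : Subgroup G) : Set G)
  have hPM : (P : Subgroup G) ≤ M := Subgroup.le_normalizer
  obtain ⟨hG1, hG2⟩ := corr (R := True) P (Or.inl trivial)
  obtain ⟨hM1, hM2⟩ := corr (R := True) (P.subtype hPM) (Or.inl trivial)
  set e := Subgroup.subgroupOfEquivOfLe hPM
  have hgood : ∀ χ : {χ : IrrCharacter G // (∀ g : G, ((χ : G → ℂ) g).im = 0) ∧
      Odd (charDegree (χ : G → ℂ))}, GoodChar True ((χ.1 : IrrCharacter G) : G → ℂ) :=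
    fun χ => (goodChar_iff χ.1).2 ⟨χ.2.2, fun _ => χ.2.1⟩
  choose μ hμ hμo using fun χ => exists_over P (hgood χ)
  choose ψ hψ hψu using fun χ => hM1 ((μ χ).comp e.toMonoidHom) (fun hR _ => hμ χ hR _)
  set f : {χ : IrrCharacter G // (∀ g : G, ((χ : G → ℂ) g).im = 0) ∧
      Odd (charDegree (χ : G → ℂ))} → {φ : IrrCharacter M //
        (∀ g, ((φ : M → ℂ) g).im = 0) ∧ Odd (charDegree (φ : M → ℂ))} :=
    fun χ => ⟨⟨ψ χ, (hψ χ).1.1⟩, (hψ χ).1.2.2 trivial,
      ((goodChar_iff ⟨ψ χ, (hψ χ).1.1⟩).1 (hψ χ).1).1⟩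
  refine Nat.card_eq_of_bijective f ⟨fun χ χ' h => ?_, fun φ => ?_⟩
  · have he : ψ χ = ψ χ' := congrArg (fun t => ((t.1 : IrrCharacter M) : M → ℂ)) h
    obtain ⟨n, hn, hne⟩ := hM2 (ψ χ) _ _ (hψ χ).1 (fun hR _ => hμ χ hR _) (fun hR _ => hμ χ' hR _)
      (hψ χ).2 (he ▸ (hψ χ').2)
    have hc : NConj (P : Subgroup G) (μ χ) (μ χ') :=
      ⟨n, mem_normalizer_of_subtype P hPM hn, fun w w' hw =>
        hne ⟨⟨w, hPM w.2⟩, w.2⟩ ⟨⟨w', hPM w'.2⟩, w'.2⟩ (Subtype.ext hw)⟩
    exact Subtype.ext (Subtype.ext ((hG1 (μ χ) (hμ χ)).unique ⟨hgood χ, hμo χ⟩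
      ⟨hgood χ', over_of_nConj (IsIrrCharacter.isClassFunction χ'.1.2) hc (hμo χ')⟩))
  · have hφ : GoodChar True ((φ.1 : IrrCharacter M) : M → ℂ) :=
      (goodChar_iff φ.1).2 ⟨φ.2.2, fun _ => φ.2.1⟩
    obtain ⟨ν, hν, hνo⟩ := exists_over (P.subtype hPM) hφ
    set ρ := ν.comp e.symm.toMonoidHom with hρ
    have hρg : GoodLin True ρ := fun hR _ => hν hR _
    obtain ⟨χ, ⟨hχ, hχo⟩, -⟩ := hG1 ρ hρg
    refine ⟨⟨⟨χ, hχ.1⟩, hχ.2.2 trivial, ((goodChar_iff ⟨χ, hχ.1⟩).1 hχ).1⟩, ?_⟩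
    set a : {χ : IrrCharacter G // (∀ g : G, ((χ : G → ℂ) g).im = 0) ∧
      Odd (charDegree (χ : G → ℂ))} :=
      ⟨⟨χ, hχ.1⟩, hχ.2.2 trivial, ((goodChar_iff ⟨χ, hχ.1⟩).1 hχ).1⟩
    obtain ⟨n, hn, hne⟩ := hG2 χ (μ a) ρ (hgood a) (hμ a) hρg (hμo a) hχo
    have hc : NConj (P.subtype hPM : Subgroup M) ((μ a).comp e.toMonoidHom) ν := by
      refine ⟨⟨n, hn⟩, ?_, fun w w' hw => ?_⟩
      · rw [Subgroup.mem_normalizer_iff]
        intro w
        exact (Subgroup.mem_normalizer_iff.1 hn (w : G))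
      · have h := hne (e w) (e w') (congrArg Subtype.val hw)
        simp only [hρ, MonoidHom.comp_apply, MulEquiv.coe_toMonoidHom, MulEquiv.symm_apply_apply] at h
        exact h
    refine Subtype.ext (Subtype.ext ?_)
    exact (hψu a _ ⟨hφ, over_of_nConj (IsIrrCharacter.isClassFunction φ.1.2) hc hνo⟩).symm

/-- The condition `N(P) = P` with squares in `P'` forces odd degree characters to be real. -/
theorem real_of_frattini [Group.IsSolvable G] (P : Sylow 2 G)
    (hP : commutator (P : Subgroup G) = frattini (P : Subgroup G))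
    (hN : Subgroup.normalizer ((P : Subgroup G) : Set G) = P) {χ : G → ℂ} (hχ : GoodChar False χ) :
    ∀ g, (χ g).im = 0 := by
  haveI : Fact (Nat.Prime 2) := ⟨Nat.prime_two⟩
  obtain ⟨μ, hμ, hμo⟩ := exists_over P hχ
  have hμ2 : GoodLin True μ := fun _ w => by
    rw [← map_pow]
    exact MonoidHom.mem_ker.1 (Abelianization.commutator_subset_ker μ
      (hP.ge (CfsgLib.PGroups.pow_mem_frattini P.2 w)))
  obtain ⟨χ1, ⟨h1, h1o⟩, -⟩ := (corr (R := True) P (Or.inl trivial)).1 μ hμ2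
  have e : χ = χ1 := ((corr (R := False) P (Or.inr hN)).1 μ hμ).unique ⟨hχ, hμo⟩
    ⟨⟨h1.1, h1.2.1, fun h => h.elim⟩, h1o⟩
  rw [e]
  exact h1.2.2 trivial

/-- A linear character of a subgroup of odd index lies under a character of odd degree. -/
theorem exists_goodChar_over {H : Subgroup G} (hH : Odd H.index) (ν : H →* ℂˣ) :
    ∃ χ : G → ℂ, GoodChar False χ ∧ Over H χ ν := by
  classical
  haveI := Fintype.ofFinite G
  haveI := Fintype.ofFinite H
  haveI := Fintype.ofFinite (IrrCharacter G)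
  obtain ⟨m, hm⟩ := IsCharacter.exists_sum
    (isCharacter_indFun H (linFun ν) (IsIrrCharacter.isCharacter (isIrrCharacter_linear ν)))
  obtain ⟨φ, hφ⟩ : ∃ φ : IrrCharacter G, Odd (m φ * charDegree (φ : G → ℂ)) := by
    by_contra h
    push Not at h
    have h1 := congrFun hm 1
    rw [indFun_one, linFun_apply, map_one, Units.val_one, mul_one, Finset.sum_apply,
      Finset.sum_congr rfl (g := fun φ : IrrCharacter G => ((m φ * charDegree (φ : G → ℂ) : ℕ) : ℂ))
        (fun φ _ => by rw [Pi.smul_apply, smul_eq_mul, (BrauerCharacters.charDegree_spec φ).1,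
          Nat.cast_mul]), ← Nat.cast_sum] at h1
    rw [Nat.cast_injective h1] at hH
    refine Nat.not_even_iff_odd.2 hH ?_
    rw [even_iff_two_dvd]
    exact Finset.dvd_sum fun φ _ => (Nat.not_odd_iff_even.1 (h φ)).two_dvd
  obtain ⟨hmo, hdo⟩ := Nat.odd_mul.1 hφ
  refine ⟨φ, (goodChar_iff φ).2 ⟨hdo, fun h => h.elim⟩, ?_⟩
  have h := classInner_sum_irr (fun ψ => (m ψ : ℂ)) φ
  rw [← hm, classInner_indFun H _ _ (IsIrrCharacter.isClassFunction φ.2), classInner_conj_symm] at h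
  intro h0
  rw [ip_eq] at h0
  rw [h0, map_zero, eq_comm, Nat.cast_eq_zero] at h
  rw [h] at hmo
  exact Nat.not_odd_zero hmo

/-- If all characters of odd degree are real then a Sylow `2`-subgroup is self-normalizing. -/
theorem normalizer_le_aux : ∀ (N : ℕ) (G : Type u) [Group G] [Finite G] [Group.IsSolvable G]
    (P : Sylow 2 G), Nat.card G = N → (∀ χ : G → ℂ, GoodChar False χ → ∀ g, (χ g).im = 0) →
    Subgroup.normalizer ((P : Subgroup G) : Set G) ≤ P := by
  intro N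
  induction N using Nat.strong_induction_on with
  | _ N ih =>
  intro G _ _ _ P hN hall
  classical
  haveI : Fact (Nat.Prime 2) := ⟨Nat.prime_two⟩
  by_cases hG : Nat.card G = 1
  · haveI : Subsingleton G := (Nat.card_eq_one_iff_unique.1 hG).1
    intro x _
    rw [Subsingleton.elim x 1]
    exact one_mem _
  haveI : Nontrivial G := Finite.one_lt_card_iff_nontrivial.1
    (lt_of_le_of_ne Nat.card_pos (Ne.symm hG))
  obtain ⟨V, -, hVn, hV0, hmin⟩ := CfsgLib.SolvableStructure.exists_minimal_normal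
    (N := (⊤ : Subgroup G)) inferInstance (top_ne_bot)
  haveI := hVn
  obtain ⟨p, e, hp, he, hcard, -, hab⟩ := CfsgLib.SolvableStructure.minimal_normal_prime hV0 hmin
  haveI := hab
  set Q : Sylow 2 (G ⧸ V) := P.mapSurjective (QuotientGroup.mk'_surjective V)
  have hQ : (Q : Subgroup (G ⧸ V)) = (P : Subgroup G).map (QuotientGroup.mk' V) := rfl
  have hlt : Nat.card (G ⧸ V) < N := by
    rw [← hN, ← V.card_mul_index, ← Subgroup.index_eq_card]
    exact lt_mul_left (Nat.pos_of_ne_zero Subgroup.index_ne_zero_of_finite)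
      (hcard ▸ Nat.one_lt_pow he.ne' hp.one_lt)
  haveI : Group.IsSolvable (G ⧸ V) :=
    Group.isSolvable_of_surjective (f := QuotientGroup.mk' V) (QuotientGroup.mk'_surjective V)
  have hQle := ih _ hlt (G ⧸ V) Q rfl fun χ hχ x => by
    obtain ⟨g, rfl⟩ := QuotientGroup.mk_surjective x
    exact hall _ (goodChar_inflate P Q hQ hχ) g
  intro x hx
  have hxQ : (x : G ⧸ V) ∈ (Q : Subgroup (G ⧸ V)) := by
    refine hQle ?_
    rw [hQ]
    exact Subgroup.le_normalizer_map _ ⟨x, hx, rfl⟩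
  rw [hQ] at hxQ
  obtain ⟨y, hy, hyx⟩ := Subgroup.mem_map.1 hxQ
  have hv : y⁻¹ * x ∈ V := QuotientGroup.eq.1 hyx
  suffices h : y⁻¹ * x ∈ (P : Subgroup G) by simpa using mul_mem hy h
  have hvN : y⁻¹ * x ∈ Subgroup.normalizer ((P : Subgroup G) : Set G) :=
    mul_mem (inv_mem (Subgroup.le_normalizer hy)) hx
  by_cases hp2 : p = 2
  · subst hp2
    obtain ⟨Q', hQ'⟩ := (IsPGroup.of_card (n := e) hcard).exists_le_sylow
    obtain ⟨c, hc⟩ := MulAction.exists_smul_eq G Q' P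
    rw [← hc]
    refine Subgroup.mem_map.2 ⟨c⁻¹ * (y⁻¹ * x) * c, hQ' (by simpa using hVn.conj_mem _ hv c⁻¹), ?_⟩
    show c * (c⁻¹ * (y⁻¹ * x) * c) * c⁻¹ = y⁻¹ * x
    group
  have hodd : Odd (Nat.card V) := by
    rw [hcard]; exact (hp.eq_two_or_odd'.resolve_left hp2).pow
  obtain ⟨k, hk⟩ := IsPGroup.iff_card.1 P.2
  have hinter : ∀ a ∈ V, a ∈ (P : Subgroup G) → a = 1 := fun a ha ha' =>
    orderOf_eq_one_iff.1 (Nat.eq_one_of_dvd_coprimes ((Nat.coprime_two_left.2 hodd).pow_left k)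
      ((Subgroup.orderOf_dvd_natCard _ ha').trans (dvd_of_eq hk))
      (Subgroup.orderOf_dvd_natCard _ ha))
  by_contra hne
  have hc1 : y⁻¹ * x ≠ 1 := fun h => hne (by rw [h]; exact one_mem _)
  generalize y⁻¹ * x = c at hv hvN hc1
  have hcP : ∀ z ∈ (P : Subgroup G), z * c * z⁻¹ = c := by
    intro z hz
    refine mul_inv_eq_one.1 (hinter _ (mul_mem (hVn.conj_mem c hv z) (inv_mem hv)) ?_)
    rw [show z * c * z⁻¹ * c⁻¹ = z * (c * z⁻¹ * c⁻¹) by group]
    exact mul_mem hz ((Subgroup.mem_normalizer_iff.1 hvN _).1 (inv_mem hz))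
  obtain ⟨θ, hθ1, hθ⟩ := exists_fixed_lin P hodd hv hc1 hcP
  set H := (Q : Subgroup (G ⧸ V)).comap (QuotientGroup.mk' V)
  have hVH : V ≤ H := fun a ha => by
    show (a : G ⧸ V) ∈ (Q : Subgroup (G ⧸ V))
    rw [(QuotientGroup.eq_one_iff a).2 ha]
    exact one_mem _
  have hHi : Odd H.index := by
    rw [Subgroup.index_comap_of_surjective _ (QuotientGroup.mk'_surjective V), ← Nat.not_even_iff_odd,
      even_iff_two_dvd]
    exact Q.not_dvd_index
  set V' := V.subgroupOf H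
  set θ' := θ.comp (Subgroup.subgroupOfEquivOfLe hVH).toMonoidHom
  have htr : ∀ a : V', MonoidHom.transfer θ' (a : H) = θ' a ^ V'.index := fun a => by
    refine transfer_apply_of_invariant le_rfl θ' a (θ' a) fun g => ?_
    obtain ⟨z, hz, hzg⟩ : ((g : G) : G ⧸ V) ∈ (P : Subgroup G).map (QuotientGroup.mk' V) := g.2
    have hu : z⁻¹ * (g : G) ∈ V := QuotientGroup.eq.1 hzg
    have h := DFunLike.congr_fun (hθ z⁻¹ (inv_mem hz)) (Subgroup.subgroupOfEquivOfLe hVH a)
    refine Eq.trans ?_ h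
    show θ _ = θ _
    congr 1
    refine Subtype.ext ?_
    show ((g : G))⁻¹ * ((a : H) : G) * g =
      ((MulAut.conjNormal z⁻¹ (⟨((a : H) : G), a.2⟩ : V) : V) : G)
    rw [MulAut.conjNormal_apply, inv_inv]
    have hcomm : ∀ b ∈ V, (z⁻¹ * (g : G)) * b = b * (z⁻¹ * (g : G)) := fun b hb =>
      congrArg Subtype.val (mul_comm' (⟨_, hu⟩ : V) ⟨b, hb⟩)
    have hb : (g : G)⁻¹ * ((a : H) : G) * g ∈ V := by
      simpa using hVn.conj_mem _ (show ((a : H) : G) ∈ V from a.2) (g : G)⁻¹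
    have h3 := hcomm _ hb
    have h4 : z⁻¹ * ((a : H) : G) * z = (z⁻¹ * (g : G)) * ((g : G)⁻¹ * ((a : H) : G) * g) *
        (z⁻¹ * (g : G))⁻¹ := by group
    rw [h4, h3, mul_inv_cancel_right]
  obtain ⟨i, hi⟩ : ∃ i, V'.index = 2 ^ i := by
    obtain ⟨j, hj⟩ := IsPGroup.iff_card.1 Q.2
    suffices h : V'.index ∣ 2 ^ j from
      ((Nat.dvd_prime_pow Nat.prime_two).1 h).imp fun i h => h.2
    set f : H →* (Q : Subgroup (G ⧸ V)) :=
      ((QuotientGroup.mk' V).comp H.subtype).codRestrict _ fun g => g.2 with hf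
    have hker : f.ker = V' := by
      ext g
      rw [MonoidHom.mem_ker, Subtype.ext_iff]
      exact QuotientGroup.eq_one_iff (g : G)
    rw [← hker, Subgroup.index_ker, ← hj]
    exact (Subgroup.card_subgroup_dvd_card f.range)
  obtain ⟨χ, hχ, hχo⟩ := exists_goodChar_over hHi (MonoidHom.transfer θ')
  have hreal : GoodChar True χ := ⟨hχ.1, hχ.2.1, fun _ => hall χ hχ⟩
  have htriv := trivialOn_of_odd P hodd (Or.inl trivial) hreal
  haveI := Fintype.ofFinite V
  have hov := over_res hVH (IsIrrCharacter.isCharacter hχ.1) hχo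
  set l := (MonoidHom.transfer θ').comp (Subgroup.inclusion hVH) with hl
  have hl1 : l ≠ 1 := by
    intro h
    refine hθ1 (MonoidHom.ext fun a => ?_)
    have h1 := DFunLike.congr_fun h a
    rw [hl, MonoidHom.comp_apply, MonoidHom.one_apply,
      show Subgroup.inclusion hVH a = (((Subgroup.subgroupOfEquivOfLe hVH).symm a : V') : H) from rfl,
      htr, hi] at h1
    have h2 : θ a ^ 2 ^ i = 1 := by
      simpa [θ'] using h1
    exact orderOf_eq_one_iff.1 (Nat.eq_one_of_dvd_coprimes ((Nat.coprime_two_left.2 hodd).pow_left i)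
      (orderOf_dvd_of_pow_eq_one h2)
      (orderOf_dvd_of_pow_eq_one (by rw [← map_pow, pow_card_eq_one', map_one])))
  apply hov
  rw [ip_eq]
  have e1 : (fun a : V => χ a) = (χ 1) • linFun (1 : V →* ℂˣ) := funext fun a => by
    simp [htriv a a.2]
  rw [e1, classInner_smul_left]
  exact mul_eq_zero_of_right _ (classInner_eq_zero_of_ne (isIrrCharacter_linear (1 : V →* ℂˣ))
    (isIrrCharacter_linear l) (fun h => hl1 (linFun_injective h).symm))

/-- The criterion for all characters of odd degree to be real. -/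
theorem frattini_eq_and_normalizer [Group.IsSolvable G] (P : Sylow 2 G)
    (hall : ∀ χ : G → ℂ, GoodChar False χ → ∀ g, (χ g).im = 0) :
    commutator (P : Subgroup G) = frattini (P : Subgroup G) ∧
      Subgroup.normalizer ((P : Subgroup G) : Set G) = P := by
  haveI : Fact (Nat.Prime 2) := ⟨Nat.prime_two⟩
  have hN : Subgroup.normalizer ((P : Subgroup G) : Set G) = P :=
    le_antisymm (normalizer_le_aux _ G P rfl hall) Subgroup.le_normalizer
  refine ⟨le_antisymm (CfsgLib.PGroups.commutator_le_frattini P.2)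
    (CfsgLib.PGroups.frattini_le_of (p := 2) le_rfl fun x => ?_), hN⟩
  by_contra hx
  obtain ⟨φ, hφ⟩ := CommGroup.exists_apply_ne_one_of_hasEnoughRootsOfUnity
    (Abelianization (P : Subgroup G)) ℂ (a := Abelianization.of (x ^ 2))
    (fun h => hx ((QuotientGroup.eq_one_iff _).1 h))
  set μ := φ.comp Abelianization.of
  obtain ⟨hc1, hc2⟩ := corr (R := False) P (Or.inr hN)
  obtain ⟨χ, ⟨hχ, hχo⟩, -⟩ := hc1 μ (fun h => h.elim)
  obtain ⟨n, hn, hne⟩ := hc2 χ μ μ⁻¹ hχ (fun h => h.elim) (fun h => h.elim) hχo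
    (over_conj (hall χ hχ) hχo)
  rw [hN] at hn
  have h := hne x (⟨n, hn⟩ * x * ⟨n, hn⟩⁻¹) rfl
  rw [MonoidHom.inv_apply, map_mul, map_mul, map_inv, mul_comm (μ ⟨n, hn⟩), mul_inv_cancel_right,
    inv_eq_iff_mul_eq_one] at h
  exact hφ (by rw [map_pow, map_pow, sq]; exact h)

end CfsgLib.BlockLocal.OddLinear
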