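import Cfsg.Agent.Lib.BlockLocal.DefectOneForm
import Cfsg.Agent.Lib.BlockSections.Bounds
import Mathlib.RingTheory.RootsOfUnity.Complex

/-!
# Principal block characters of degree prime to `p` and small centralizers

If the centralizer of a `p`-element has a Sylow `p`-subgroup of order at most `p ^ 2`, the principal
block has at most `p ^ 2` characters of degree prime to `p`.
-/

set_option autoImplicit false
set_option linter.unusedSectionVars false
set_option linter.style.haveILetI false

namespace CfsgLib.BlockLocal.SmallCentralizer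

open Cfsg CfsgLib.CharTheory CfsgLib.Blocks CfsgLib.BrauerCharacters CfsgLib.BlockSections
  CfsgLib.Jordan CfsgLib.BlockLocal.DefectOne Finset
open scoped ComplexConjugate

section Group

variable {C : Type*} [Group C] [Finite C] {p : ℕ} [hp : Fact p.Prime]

/-- Burnside: a normal subgroup of order prime to `p` containing the regular elements. -/
theorem exists_core (R : Sylow p C)
    (h : Subgroup.normalizer ((R : Subgroup C) : Set C) ≤
      Subgroup.centralizer ((R : Subgroup C) : Set C)) :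
    ∃ O : Subgroup C, O.Normal ∧ ¬ p ∣ Nat.card O ∧ ∀ s : C, ¬ p ∣ orderOf s → s ∈ O := by
  have hcomp := MonoidHom.ker_transferSylow_isComplement' R h
  refine ⟨(MonoidHom.transferSylow R h).ker, inferInstance, ?_, fun s hs => ?_⟩
  · rw [← hcomp.index_eq_card]; exact R.not_dvd_index
  · rw [MonoidHom.mem_ker, ← orderOf_eq_one_iff]
    obtain ⟨k, hk⟩ := IsPGroup.iff_card.1 R.2
    refine Nat.eq_one_of_dvd_coprimes (a := orderOf s) (b := p ^ k) ?_ (orderOf_map_dvd _ s) ?_
    · exact ((hp.out.coprime_iff_not_dvd).2 hs).symm.pow_right k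
    · exact (orderOf_dvd_natCard _).trans (dvd_of_eq hk)

theorem mem_sylow_of_central {x : C} (hx : ∀ c : C, Commute x c) (hxp : ∃ k : ℕ, orderOf x = p ^ k)
    (R : Sylow p C) : x ∈ (R : Subgroup C) := by
  obtain ⟨k, hk⟩ := hxp
  obtain ⟨Q, hQ⟩ := (IsPGroup.of_card (n := k) (show Nat.card (Subgroup.zpowers x) = p ^ k by
    rw [Nat.card_zpowers, hk])).exists_le_sylow
  obtain ⟨c, hc⟩ := MulAction.exists_smul_eq C Q R
  rw [← hc]
  refine Subgroup.mem_map.2 ⟨x, hQ (Subgroup.mem_zpowers x), ?_⟩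
  show c * x * c⁻¹ = x
  rw [← (hx c).eq, mul_inv_cancel_right]

/-- A central element of order `p` and a Sylow subgroup of order at most `p ^ 2`: either the group
has a normal `p`-complement or the centre splits off. -/
theorem cases_of_central {x : C} (hx : ∀ c : C, Commute x c) (hxp : ∃ k : ℕ, orderOf x = p ^ k)
    (h2 : (Nat.card C).factorization p ≤ 2) (h1 : x = 1 → ¬ p ∣ Nat.card C) :
    (∃ O : Subgroup C, O.Normal ∧ ¬ p ∣ Nat.card O ∧ ∀ s : C, ¬ p ∣ orderOf s → s ∈ O) ∨
    (orderOf x = p ∧ (Nat.card C).factorization p = 2 ∧ ∃ C0 : Subgroup C,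
      x ∉ C0 ∧ Nat.card C = p * Nat.card C0 ∧ ∀ s : C, ¬ p ∣ orderOf s → s ∈ C0) := by
  obtain ⟨R⟩ := (Sylow.nonempty : Nonempty (Sylow p C))
  have hRcard : Nat.card (R : Subgroup C) = p ^ (Nat.card C).factorization p := R.card_eq_multiplicity
  have hxR := mem_sylow_of_central hx hxp R
  by_cases hz : (R : Subgroup C) = Subgroup.zpowers x
  · left
    refine exists_core R fun n _ => ?_
    rw [Subgroup.mem_centralizer_iff]
    intro a ha
    rw [SetLike.mem_coe, hz] at ha
    obtain ⟨k, rfl⟩ := ha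
    exact ((hx n).zpow_left k).eq
  have hx1 : x ≠ 1 := by
    rintro rfl
    apply hz
    rw [Subgroup.zpowers_one_eq_bot, ← Subgroup.card_eq_one, hRcard,
      Nat.factorization_eq_zero_of_not_dvd (h1 rfl), pow_zero]
  obtain ⟨j, hj⟩ := hxp
  have hle : Subgroup.zpowers x ≤ (R : Subgroup C) := Subgroup.zpowers_le.2 hxR
  have hlt : p ^ j < p ^ (Nat.card C).factorization p := by
    rw [← hRcard, ← hj, ← Nat.card_zpowers]
    exact lt_of_not_ge fun hge => hz (Subgroup.eq_of_le_of_card_ge hle hge).symm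
  have hj' := (Nat.pow_lt_pow_iff_right hp.out.one_lt).1 hlt
  have hj0 : j ≠ 0 := fun e => hx1 (orderOf_eq_one_iff.1 (by rw [hj, e, pow_zero]))
  have hv : (Nat.card C).factorization p = 2 := by omega
  obtain rfl : j = 1 := by omega
  rw [pow_one] at hj
  rw [hv] at hRcard
  haveI hcomm : IsMulCommutative (R : Subgroup C) := ⟨⟨IsPGroup.commutative_of_card_eq_prime_sq hRcard⟩⟩
  by_cases hcyc : ∃ r ∈ (R : Subgroup C), r ^ p ≠ 1
  · left
    obtain ⟨r, hr, hrp⟩ := hcyc
    have hro : orderOf r = p ^ 2 := by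
      obtain ⟨i, hi, e⟩ := (Nat.dvd_prime_pow hp.out).1 (hRcard ▸ Subgroup.orderOf_dvd_natCard _ hr)
      rw [e]
      congr 1
      by_contra hne
      apply hrp
      rw [← orderOf_dvd_iff_pow_eq_one, e]
      calc p ^ i ∣ p ^ 1 := Nat.pow_dvd_pow p (by omega)
        _ = p := pow_one p
    have hgen : Subgroup.zpowers r = (R : Subgroup C) :=
      Subgroup.eq_of_le_of_card_ge (Subgroup.zpowers_le.2 hr) (by rw [hRcard, Nat.card_zpowers, hro])
    have hrpo : orderOf (r ^ p) = p := by
      rw [orderOf_pow_of_dvd hp.out.ne_zero (by rw [hro]; exact dvd_pow_self p two_ne_zero), hro,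
        sq, Nat.mul_div_cancel _ hp.out.pos]
    have hroot : ∀ z ∈ (R : Subgroup C), z ^ p = 1 → z ∈ Subgroup.zpowers (r ^ p) := by
      intro z hz hzp
      rw [← hgen] at hz
      obtain ⟨i, rfl⟩ := hz
      change (r ^ i) ^ p = 1 at hzp
      rw [← zpow_natCast (r ^ i), ← zpow_mul, ← orderOf_dvd_iff_zpow_eq_one, hro] at hzp
      push_cast at hzp
      rw [sq] at hzp
      obtain ⟨l, rfl⟩ := Int.dvd_of_mul_dvd_mul_right (Int.natCast_ne_zero.2 hp.out.ne_zero) hzp
      exact ⟨l, by show (r ^ p) ^ l = r ^ ((p : ℤ) * l); rw [zpow_mul, zpow_natCast]⟩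
    have hcen : ∀ z ∈ (R : Subgroup C), z ^ p = 1 → ∀ c : C, Commute z c := by
      intro z hz hzp c
      have hxz : Subgroup.zpowers x = Subgroup.zpowers (r ^ p) :=
        Subgroup.eq_of_le_of_card_ge
          (Subgroup.zpowers_le.2 (hroot x hxR (by rw [← hj]; exact pow_orderOf_eq_one x)))
          (by rw [Nat.card_zpowers, Nat.card_zpowers, hrpo, hj])
      obtain ⟨i, rfl⟩ := hxz ▸ hroot z hz hzp
      exact (hx c).zpow_left i
    refine exists_core R fun n hn => ?_
    set f := Subgroup.normalizerMonoidHom (R : Subgroup C)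
    set e := Nat.card f.range
    have he : ¬ p ∣ e := by
      intro hd
      refine R.not_dvd_index (hd.trans ?_)
      rw [show e = f.ker.index from (Subgroup.index_ker f).symm, Subgroup.normalizerMonoidHom_ker]
      refine dvd_trans (Subgroup.relIndex_dvd_of_le_left _ (fun a ha => ?_))
        ⟨_, (Subgroup.relIndex_mul_index Subgroup.le_normalizer).symm⟩
      rw [Subgroup.mem_centralizer_iff]
      exact fun b hb => congrArg Subtype.val
        (hcomm.is_comm.comm (⟨b, hb⟩ : (R : Subgroup C)) ⟨a, ha⟩)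
    have hfix : (f ⟨n, hn⟩) ^ e = 1 := congrArg Subtype.val
      (pow_card_eq_one' (G := f.range) (x := ⟨f ⟨n, hn⟩, ⟨_, rfl⟩⟩))
    rw [← map_pow] at hfix
    have hconj : n * r * n⁻¹ ∈ (R : Subgroup C) := (Subgroup.mem_normalizer_iff.1 hn r).1 hr
    set δ := r⁻¹ * (n * r * n⁻¹) with hδdef
    have hδR : δ ∈ (R : Subgroup C) := mul_mem (inv_mem hr) hconj
    have hfixrp : ∀ c : C, Commute (r ^ p) c :=
      hcen _ (pow_mem hr p) (by rw [← pow_mul, ← sq, ← hro, pow_orderOf_eq_one])
    have hδp : δ ^ p = 1 := by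
      have hc : Commute r⁻¹ (n * r * n⁻¹) := congrArg Subtype.val
        (hcomm.is_comm.comm (⟨r⁻¹, inv_mem hr⟩ : (R : Subgroup C)) ⟨_, hconj⟩)
      rw [hδdef, hc.mul_pow, conj_pow, ← (hfixrp n).eq, mul_inv_cancel_right, inv_pow, inv_mul_cancel]
    have hδc := hcen δ hδR hδp
    have hiter : ∀ i : ℕ, n ^ i * r * (n ^ i)⁻¹ = r * δ ^ i := by
      intro i
      induction i with
      | zero => simp
      | succ i ih =>
        rw [pow_succ', mul_inv_rev, show n * n ^ i * r * ((n ^ i)⁻¹ * n⁻¹) =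
          n * (n ^ i * r * (n ^ i)⁻¹) * n⁻¹ by group, ih,
          show n * (r * δ ^ i) * n⁻¹ = (n * r * n⁻¹) * (n * δ ^ i * n⁻¹) by group,
          ← ((hδc n).pow_left i).eq, mul_inv_cancel_right, pow_succ', ← mul_assoc]
        congr 1
        rw [hδdef, mul_inv_cancel_left]
    have hδe : δ ^ e = 1 := by
      have h : n ^ e * r * (n ^ e)⁻¹ = r :=
        congrArg (fun a : MulAut (R : Subgroup C) => ((a ⟨r, hr⟩ : (R : Subgroup C)) : C)) hfix
      rw [hiter] at h
      exact mul_eq_left.1 h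
    have hδ1 : δ = 1 := orderOf_eq_one_iff.1 (Nat.eq_one_of_dvd_coprimes
      ((hp.out.coprime_iff_not_dvd).2 he) (orderOf_dvd_of_pow_eq_one hδp)
      (orderOf_dvd_of_pow_eq_one hδe))
    have hrn : Commute r n := by
      have h := hiter 1
      rw [hδ1, pow_one, pow_one, mul_one, mul_inv_eq_iff_eq_mul] at h
      exact h.symm
    rw [Subgroup.mem_centralizer_iff]
    intro a ha
    rw [SetLike.mem_coe, ← hgen] at ha
    obtain ⟨i, rfl⟩ := ha
    exact (hrn.zpow_left i).eq
  · push Not at hcyc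
    refine Or.inr ⟨hj, hv, ?_⟩
    letI : CommGroup (R : Subgroup C) := { mul_comm := hcomm.is_comm.comm }
    obtain ⟨χ, hχ⟩ := CommGroup.exists_apply_ne_one_of_hasEnoughRootsOfUnity (R : Subgroup C) ℂ
      (a := ⟨x, hxR⟩) (fun e => hx1 (congrArg Subtype.val e))
    haveI : (R : Subgroup C).FiniteIndex := inferInstance
    set V : C →* ℂˣ := MonoidHom.transfer χ with hV
    have hroot : ∀ a : (R : Subgroup C), χ a ^ p = 1 := fun a => by
      rw [← map_pow, show a ^ p = 1 from Subtype.ext (hcyc a a.2), map_one]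
    have hVp : ∀ g : C, V g ^ p = 1 := by
      intro g
      classical
      letI := (R : Subgroup C).fintypeQuotientOfFiniteIndex
      rw [hV, MonoidHom.transfer_eq_prod_quotient_orbitRel_zpowers_quot, ← prod_pow]
      exact prod_eq_one fun q _ => hroot _
    have hVx : V x ≠ 1 := by
      intro h
      rw [hV, MonoidHom.transfer_eq_pow χ x fun k g₀ _ => by
        rw [← ((hx g₀⁻¹).pow_left k).eq, inv_mul_cancel_right]] at h
      rw [show (⟨x ^ (R : Subgroup C).index, _⟩ : (R : Subgroup C)) =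
        (⟨x, hxR⟩ : (R : Subgroup C)) ^ (R : Subgroup C).index from Subtype.ext rfl, map_pow] at h
      refine hχ (orderOf_eq_one_iff.1 (Nat.eq_one_of_dvd_coprimes
        ((hp.out.coprime_iff_not_dvd).2 R.not_dvd_index) (orderOf_dvd_of_pow_eq_one (hroot _))
        (orderOf_dvd_of_pow_eq_one h)))
    have hrange : Nat.card V.range = p := by
      have hsub : V.range ≤ rootsOfUnity p ℂ := by
        rintro _ ⟨g, rfl⟩
        rw [mem_rootsOfUnity]
        exact hVp g
      haveI : NeZero p := ⟨hp.out.ne_zero⟩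
      refine le_antisymm ?_ ?_
      · calc Nat.card V.range ≤ Nat.card (rootsOfUnity p ℂ) :=
              Nat.card_le_card_of_injective _ (Subgroup.inclusion_injective hsub)
          _ = p := Complex.card_rootsOfUnity p
      · haveI : Finite V.range := Finite.of_surjective _ V.rangeRestrict_surjective
        have h : orderOf (V x) = p :=
          orderOf_eq_prime (hVp x) hVx
        calc p = orderOf (V x) := h.symm
          _ ≤ Nat.card V.range :=
            Nat.le_of_dvd Nat.card_pos (Subgroup.orderOf_dvd_natCard _ ⟨x, rfl⟩)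
    refine ⟨V.ker, fun h => hVx h, ?_, fun s hs => ?_⟩
    · rw [← V.ker.card_mul_index, Subgroup.index_ker, hrange, mul_comm]
    · rw [MonoidHom.mem_ker, ← orderOf_eq_one_iff]
      exact Nat.eq_one_of_dvd_coprimes ((hp.out.coprime_iff_not_dvd).2 hs).symm
        (orderOf_map_dvd V s) (orderOf_dvd_of_pow_eq_one (hVp s))

end Group

section Block

variable {C : Type*} [Group C] [Fintype C] {p : ℕ} [hp : Fact p.Prime] {M : Ideal AlgInt} [M.IsPrime]

theorem blockRank_le_one (hM : IsPModular p M) (O : Subgroup C) [O.Normal]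
    (hO : ¬ p ∣ Nat.card O) (hreg : ∀ s : C, ¬ p ∣ orderOf s → s ∈ O) :
    blockRank p (principalBlock M C) ≤ 1 := by
  classical
  set u : C → ℂ := pRegularPart p fun _ => (1 : ℂ)
  have hle : Submodule.span ℂ ((fun χ : IrrCharacter C => pRegularPart p (χ : C → ℂ)) ''
      principalBlock M C) ≤ Submodule.span ℂ {u} := by
    refine Submodule.span_le.2 ?_
    rintro _ ⟨χ, hχ, rfl⟩
    refine Submodule.mem_span_singleton.2 ⟨(χ : C → ℂ) 1, ?_⟩
    funext s
    simp only [u, Pi.smul_apply, smul_eq_mul, pRegularPart_apply]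
    by_cases hs : p ∣ orderOf s
    · simp [hs]
    · rw [if_neg hs, if_neg hs, mul_one,
        CfsgLib.Correspondences.apply_eq_of_mem_principalBlock hM hχ O hO (hreg s hs)]
  refine (Submodule.finrank_mono hle).trans ?_
  refine (finrank_span_le_card _).trans ?_
  simp

variable {x : C} (hx : ∀ c : C, Commute x c) {C0 : Subgroup C} [Fintype C0]
  (hxp : orderOf x = p) (hnot : x ∉ C0) (hcard : Nat.card C = p * Nat.card C0)
include hx hxp hnot hcard

theorem mul_bijective :
    Function.Bijective fun v : Subgroup.zpowers x × C0 => (v.1 : C) * (v.2 : C) := by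
  classical
  refine (Fintype.bijective_iff_injective_and_card _).2 ⟨fun a b e => ?_, ?_⟩
  · have hdisj : Disjoint (Subgroup.zpowers x) C0 := by
      rw [Subgroup.disjoint_def]
      intro z hz hz0
      by_contra h1
      apply hnot
      have hzx : Subgroup.zpowers z = Subgroup.zpowers x := by
        refine Subgroup.eq_of_le_of_card_ge (Subgroup.zpowers_le.2 hz) ?_
        rw [Nat.card_zpowers, Nat.card_zpowers, hxp]
        rcases (Nat.dvd_prime hp.out).1 (hxp ▸ Nat.card_zpowers x ▸
          Subgroup.orderOf_dvd_natCard _ hz) with e | e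
        · exact absurd (orderOf_eq_one_iff.1 e) h1
        · exact e.ge
      exact Subgroup.zpowers_le.2 hz0 (hzx.symm ▸ Subgroup.mem_zpowers x)
    exact Subgroup.mul_injective_of_disjoint hdisj e
  · rw [Fintype.card_prod, ← Nat.card_eq_fintype_card, ← Nat.card_eq_fintype_card,
      ← Nat.card_eq_fintype_card, Nat.card_zpowers, hxp, hcard]

theorem exists_mul (g : C) : ∃ v ∈ Subgroup.zpowers x, ∃ c ∈ C0, g = v * c := by
  obtain ⟨⟨v, c⟩, h⟩ := (mul_bijective hx hxp hnot hcard).2 g
  exact ⟨v, v.2, c, c.2, h.symm⟩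

theorem isIrrCharacter_res (ξ : IrrCharacter C) :
    IsIrrCharacter C0 fun c : C0 => (ξ : C → ℂ) c := by
  classical
  have hχ : IsCharacter C0 fun c : C0 => (ξ : C → ℂ) c :=
    CfsgLib.Coherence.isCharacter_comp (IsIrrCharacter.isCharacter ξ.2) C0.subtype
  rw [isIrrCharacter_iff_norm_one hχ, ← classInner_self_of_isIrr ξ.2, classInner, classInner]
  conv_rhs => rw [← (Equiv.ofBijective _ (mul_bijective hx hxp hnot hcard)).sum_comp, Fintype.sum_prod_type]
  rw [sum_congr rfl (g := fun _ : Subgroup.zpowers x => ∑ c : C0, (ξ : C → ℂ) c * conj ((ξ : C → ℂ) c)) (fun v _ => by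
    refine sum_congr rfl fun c _ => ?_
    have hv : ∀ c : C, Commute (v : C) c := fun c => by
      obtain ⟨i, hi⟩ := v.2; rw [← hi]; exact (hx c).zpow_left i
    obtain ⟨h1, h2⟩ := centralVal_spec ξ hv
    rw [Equiv.ofBijective_apply]
    rw [h2, map_mul, mul_mul_mul_comm, Complex.mul_conj',
      norm_eq_one_of_pow_eq_one' (orderOf_pos (v : C)).ne' h1]
    simp), sum_const, card_univ, ← Nat.card_eq_fintype_card, Nat.card_zpowers, hxp, nsmul_eq_mul, hcard]
  have hp0 : (p : ℂ) ≠ 0 := Nat.cast_ne_zero.2 hp.out.ne_zero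
  have hC0 : (Nat.card C0 : ℂ) ≠ 0 := Nat.cast_ne_zero.2 Nat.card_pos.ne'
  push_cast
  field_simp

theorem index_centralizer_eq (c : C0) :
    (Subgroup.centralizer ({c} : Set C0)).index = (Subgroup.centralizer ({(c : C)} : Set C)).index := by
  rw [← CfsgLib.Correspondences.natCard_carrier_eq_index, ← CfsgLib.Correspondences.natCard_carrier_eq_index]
  refine Nat.card_congr (Equiv.ofBijective (fun d => ⟨(d.1 : C), C0.subtype.map_isConj d.2⟩)
    ⟨fun a b e => Subtype.ext (Subtype.ext (congrArg (fun z : {z : C // IsConj (c : C) z} => (z : C)) e)),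
      fun ⟨d, hd⟩ => ?_⟩)
  obtain ⟨g, hg⟩ := isConj_iff.1 hd
  obtain ⟨v, hv, c', hc', rfl⟩ := exists_mul hx hxp hnot hcard g
  obtain ⟨i, rfl⟩ := hv
  refine ⟨⟨⟨c', hc'⟩ * c * ⟨c', hc'⟩⁻¹, isConj_iff.2 ⟨⟨c', hc'⟩, rfl⟩⟩, Subtype.ext ?_⟩
  show c' * (c : C) * c'⁻¹ = d
  rw [← hg, mul_inv_rev, show x ^ i * c' * (c : C) * (c'⁻¹ * (x ^ i)⁻¹) =
    x ^ i * (c' * c * c'⁻¹) * (x ^ i)⁻¹ by group, ((hx _).zpow_left i).eq, mul_inv_cancel_right]

theorem res_mem_principalBlock {ξ : IrrCharacter C} (hξ : ξ ∈ principalBlock M C) :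
    (⟨_, isIrrCharacter_res hx hxp hnot hcard ξ⟩ : IrrCharacter C0) ∈ principalBlock M C0 := by
  intro c
  have h := hξ (c : C)
  simp only [centralChar] at h ⊢
  rw [index_centralizer_eq hx hxp hnot hcard c]
  exact h

end Block

section Bound

variable {G : Type*} [Group G] [Fintype G] (y : G)
  [Fintype (Subgroup.centralizer ({y} : Set G))]
  {p : ℕ} [hp : Fact p.Prime] {M : Ideal AlgInt} [M.IsPrime] (hM : IsPModular p M)

open scoped Classical in
theorem conjugate_secX_eq (b : Set (IrrCharacter (Subgroup.centralizer ({y} : Set G)))) (χ : IrrCharacter G)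
    (σ : Gal (orderOf (cenElem y))) :
    ((σ (secX y b p χ χ) : secField y) : ℂ).re =
      (p : ℝ) ^ blockDefect p b * ((Nat.card (Subgroup.centralizer ({y} : Set G)) : ℝ)⁻¹ * ∑ s : (Subgroup.centralizer ({y} : Set G)), if p ∣ orderOf s then 0 else
        ‖∑ ξ ∈ blockFinset b, (resMult y χ ξ : ℂ) * ((σ (cv y ξ) : secField y) : ℂ) *
          (ξ : (Subgroup.centralizer ({y} : Set G)) → ℂ) s‖ ^ 2) := by
  rw [show ((σ (secX y b p χ χ) : secField y) : ℂ) = (((p : ℝ) ^ blockDefect p b *
    ((Nat.card (Subgroup.centralizer ({y} : Set G)) : ℝ)⁻¹ * ∑ s : (Subgroup.centralizer ({y} : Set G)), if p ∣ orderOf s then 0 else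
      ‖∑ ξ ∈ blockFinset b, (resMult y χ ξ : ℂ) * ((σ (cv y ξ) : secField y) : ℂ) *
          (ξ : (Subgroup.centralizer ({y} : Set G)) → ℂ) s‖ ^ 2) : ℝ) : ℂ) from ?_, Complex.ofReal_re]
  simp only [secX, secCoeff, map_sum, map_mul, map_intCast, AddSubmonoidClass.coe_finsetSum,
    MulMemClass.coe_mul]
  push_cast [apply_ite (fun r : ℝ => (r : ℂ))]
  simp only [← Complex.mul_conj', map_sum, map_mul, map_intCast]
  rw [sum_congr rfl (g := fun s : (Subgroup.centralizer ({y} : Set G)) => ∑ ξ ∈ blockFinset b, ∑ η ∈ blockFinset b,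
    (resMult y χ ξ : ℂ) * (resMult y χ η : ℂ) * (((σ (cv y ξ) : secField y) : ℂ) *
      ((σ (cv' y η) : secField y) : ℂ)) *
      (pRegularPart p (ξ : (Subgroup.centralizer ({y} : Set G)) → ℂ) s * conj ((η : (Subgroup.centralizer ({y} : Set G)) → ℂ) s))) (fun s _ => by
    simp only [pRegularPart_apply]
    split_ifs with hs
    · simp
    · rw [sum_mul_sum]
      refine sum_congr rfl fun ξ _ => sum_congr rfl fun η _ => ?_
      rw [conj_conjugate_cv]
      ring)]
  conv_rhs => rw [sum_comm]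
  simp only [mul_sum]
  refine sum_congr rfl fun ξ hξ => ?_
  rw [sum_comm]
  refine sum_congr rfl fun η _ => ?_
  rw [coe_regEntry (mem_blockFinset.1 hξ), regInner, classInner]
  simp only [mul_sum, sum_mul]
  exact sum_congr rfl fun s _ => by ring

variable (hy : ∃ k : ℕ, orderOf y = p ^ k)
include hM hy

open scoped Classical in
theorem blockDefect_principal_le :
    blockDefect p (principalBlock M (Subgroup.centralizer ({y} : Set G))) ≤ (Nat.card (Subgroup.centralizer ({y} : Set G))).factorization p := Nat.sub_le _ _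

theorem height_zero_of_not_dvd {χ : IrrCharacter G} (hdeg : ¬ p ∣ charDegree (χ : G → ℂ)) :
    blockHeight p (principalBlock M G) (χ : G → ℂ) = 0 := by
  rw [blockHeight, Nat.factorization_eq_zero_of_not_dvd hdeg, Nat.zero_sub]

/-- The first bound: a centralizer with a normal `p`-complement. -/
theorem card_le_of_rank_le_one (hrank : blockRank p (principalBlock M (Subgroup.centralizer ({y} : Set G))) ≤ 1) :
    Nat.card {χ : IrrCharacter G // χ ∈ principalBlock M G ∧ ¬ p ∣ charDegree (χ : G → ℂ)} ≤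
      p ^ (Nat.card (Subgroup.centralizer ({y} : Set G))).factorization p := by
  classical
  haveI := Fintype.ofFinite (IrrCharacter G)
  set b := principalBlock M (Subgroup.centralizer ({y} : Set G))
  have hind := isInducedBlock_principal (M := M) y hy hM
  set S := (blockFinset (principalBlock M G)).filter fun χ : IrrCharacter G =>
    ¬ p ∣ charDegree (χ : G → ℂ)
  have hS : Nat.card {χ : IrrCharacter G // χ ∈ principalBlock M G ∧ ¬ p ∣ charDegree (χ : G → ℂ)} =
      S.card := Nat.subtype_card S fun χ => by simp [S]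
  rw [hS]
  refine le_trans ?_ (Nat.pow_le_pow_right hp.out.pos (blockDefect_principal_le y hM hy))
  set d := blockDefect p b
  have hle : S.card ≤ Nat.card {φ : IrrCharacter G // φ ∈ principalBlock M G ∧
      blockHeight p (principalBlock M G) (φ : G → ℂ) = 0} := by
    rw [← hS]
    refine Nat.card_le_card_of_injective
      (fun χ => ⟨χ.1, χ.2.1, height_zero_of_not_dvd y hM hy χ.2.2⟩) fun a c e => Subtype.ext ?_
    exact congrArg (fun z => z.1) e
  have h1 : ∀ χ ∈ S, (S.card : ℝ) * conjCount y ≤ (p : ℝ) ^ d * diagSum y b p χ := by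
    intro χ hχ
    obtain ⟨hB, hdeg⟩ := mem_filter.1 hχ
    refine le_trans ?_ (card_height_zero_mul_le y b hM hy hind (mem_blockFinset.1 hB)
      (height_zero_of_not_dvd y hM hy hdeg))
    exact mul_le_mul_of_nonneg_right (Nat.cast_le.2 hle) (galCard_pos _).le
  have h2 := sum_le_sum h1
  rw [sum_const, nsmul_eq_mul, ← mul_sum] at h2
  have h3 : ∑ χ ∈ S, diagSum y b p χ ≤ ((p ^ d * blockRank p b : ℕ) : ℝ) * conjCount y := by
    rw [← sum_diagSum y b hM hy hind]
    refine sum_le_sum_of_subset_of_nonneg (filter_subset _ _) fun χ _ _ => sum_nonneg fun σ _ => ?_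
    obtain ⟨r, hr, e⟩ := totNonneg_secX y b hM hy hind χ σ
    rw [e]; exact hr
  have hg : 0 < conjCount y := galCard_pos _
  have h4 : (S.card : ℝ) * (S.card : ℝ) ≤ (p : ℝ) ^ d * (p : ℝ) ^ d := by
    refine le_of_mul_le_mul_right (le_trans (le_of_eq (mul_assoc _ _ _)) (h2.trans
      ((mul_le_mul_of_nonneg_left h3 (pow_nonneg (Nat.cast_nonneg _) _)).trans ?_))) hg
    push_cast
    rw [mul_assoc ((p : ℝ) ^ d), mul_assoc ((p : ℝ) ^ d)]
    refine mul_le_mul_of_nonneg_left (mul_le_mul_of_nonneg_left ?_ (pow_nonneg (Nat.cast_nonneg _) _))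
      (pow_nonneg (Nat.cast_nonneg _) _)
    exact mul_le_of_le_one_left hg.le (by exact_mod_cast hrank)
  exact Nat.mul_self_le_mul_self_iff.1 (by exact_mod_cast h4)

/-- The second bound: the element splits off from its centralizer. -/
theorem card_le_of_split {C0 : Subgroup (Subgroup.centralizer ({y} : Set G))} [Fintype C0] (hyp : orderOf (cenElem y) = p)
    (hnot : cenElem y ∉ C0) (hcard : Nat.card (Subgroup.centralizer ({y} : Set G)) = p * Nat.card C0)
    (hreg : ∀ s : (Subgroup.centralizer ({y} : Set G)), ¬ p ∣ orderOf s → s ∈ C0) (R : Rows C0 p M) :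
    Nat.card {χ : IrrCharacter G // χ ∈ principalBlock M G ∧ ¬ p ∣ charDegree (χ : G → ℂ)} ≤
      p ^ 2 := by
  classical
  haveI := Fintype.ofFinite (IrrCharacter G)
  set b := principalBlock M (Subgroup.centralizer ({y} : Set G))
  have hind := isInducedBlock_principal (M := M) y hy hM
  set d := blockDefect p b
  set S := (blockFinset (principalBlock M G)).filter fun χ : IrrCharacter G =>
    ¬ p ∣ charDegree (χ : G → ℂ)
  have hS : Nat.card {χ : IrrCharacter G // χ ∈ principalBlock M G ∧ ¬ p ∣ charDegree (χ : G → ℂ)} =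
      S.card := Nat.subtype_card S fun χ => by simp [S]
  rw [hS]
  have hcx := commute_cenElem y
  set res : IrrCharacter (Subgroup.centralizer ({y} : Set G)) → IrrCharacter C0 :=
    fun ξ => ⟨_, isIrrCharacter_res hcx hyp hnot hcard ξ⟩
  have hres : ∀ ξ ∈ blockFinset b, res ξ ∈ blockFinset (principalBlock M C0) := fun ξ hξ =>
    mem_blockFinset.2 (res_mem_principalBlock hcx hyp hnot hcard (mem_blockFinset.1 hξ))
  have hp0 : (0 : ℝ) < p := Nat.cast_pos.2 hp.out.pos
  -- the rank
  have hrank : blockRank p b ≤ R.X.card := by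
    set ext : (C0 → ℂ) →ₗ[ℂ] ((Subgroup.centralizer ({y} : Set G)) → ℂ) :=
      { toFun := fun f s => if h : ¬ p ∣ orderOf s then f ⟨s, hreg s h⟩ else 0
        map_add' := fun f g => by funext s; simp only [Pi.add_apply]; split_ifs <;> simp
        map_smul' := fun c f => by funext s; simp only [Pi.smul_apply, smul_eq_mul]; split_ifs <;> simp }
    have hle : Submodule.span ℂ ((fun χ : IrrCharacter (Subgroup.centralizer ({y} : Set G)) => pRegularPart p (χ : (Subgroup.centralizer ({y} : Set G)) → ℂ)) '' b) ≤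
        Submodule.span ℂ (((R.X.image fun ψ : IrrCharacter C0 => ext (ψ : C0 → ℂ)) :
          Finset ((Subgroup.centralizer ({y} : Set G)) → ℂ)) : Set ((Subgroup.centralizer ({y} : Set G)) → ℂ)) := by
      refine Submodule.span_le.2 ?_
      rintro _ ⟨ξ, hξ, rfl⟩
      have hψ := hres ξ (mem_blockFinset.2 hξ)
      have hD : (R.D : ℂ) ≠ 0 := Int.cast_ne_zero.2 R.D_ne
      set e : IrrCharacter C0 → ℂ := fun ψ => if ψ = res ξ then 1 else 0
      have heq : pRegularPart p (ξ : (Subgroup.centralizer ({y} : Set G)) → ℂ) =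
          ∑ ψ ∈ R.X, ((R.D : ℂ)⁻¹ * R.coord e ψ) • ext (ψ : C0 → ℂ) := by
        funext s
        rw [pRegularPart_apply, Finset.sum_apply]
        simp only [ext, LinearMap.coe_mk, AddHom.coe_mk, Pi.smul_apply, smul_eq_mul]
        by_cases hs : p ∣ orderOf s
        · simp [hs]
        · have h := R.mul_sum_eq e (g := (⟨s, hreg s hs⟩ : C0)) (by rwa [← Subgroup.orderOf_coe])
          simp only [e, ite_mul, one_mul, zero_mul, sum_ite_eq', if_pos hψ] at h
          simp only [if_neg hs, dif_pos hs, mul_assoc, ← mul_sum]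
          rw [← h, inv_mul_cancel_left₀ hD]
      rw [SetLike.mem_coe]
      simp only [heq]
      exact Submodule.sum_mem _ fun ψ hψ' => Submodule.smul_mem _ _
        (Submodule.subset_span (mem_coe.2 (mem_image_of_mem _ hψ')))
    exact (Submodule.finrank_mono hle).trans ((finrank_span_finset_le_card _).trans card_image_le)
  -- each row
  have h1 : ∀ χ ∈ S, (p : ℝ) ^ d * (R.X.card : ℝ) * conjCount y ≤
      (p : ℝ) * (p : ℝ) * diagSum y b p χ := by
    intro χ hχ
    obtain ⟨hB, hdeg⟩ := mem_filter.1 hχ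
    set w : IrrCharacter C0 → secField y := fun ψ =>
      ∑ ξ ∈ (blockFinset b).filter (fun ξ => res ξ = ψ), (resMult y χ ξ : secField y) * cv y ξ
    have hwi : ∀ ψ, IsIntegral ℤ (w ψ : ℂ) := fun ψ => by
      simp only [w, AddSubmonoidClass.coe_finsetSum, MulMemClass.coe_mul]
      exact IsIntegral.sum _ fun ξ _ => by
        rw [show ((resMult y χ ξ : secField y) : ℂ) = (resMult y χ ξ : ℂ) from
          map_intCast (secField y).val _]
        exact (isIntegral_algebraMap (R := ℤ) (x := resMult y χ ξ)).mul (isIntegral_cv y ξ)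
    have hval : ∀ (σ : Gal (orderOf (cenElem y))) (c : C0),
        ∑ ψ ∈ blockFinset (principalBlock M C0), ((σ (w ψ) : secField y) : ℂ) * (ψ : C0 → ℂ) c =
        ∑ ξ ∈ blockFinset b, (resMult y χ ξ : ℂ) * ((σ (cv y ξ) : secField y) : ℂ) *
          (ξ : (Subgroup.centralizer ({y} : Set G)) → ℂ) c := by
      intro σ c
      rw [← sum_fiberwise_of_maps_to hres]
      refine sum_congr rfl fun ψ _ => ?_
      simp only [w, map_sum, map_mul, map_intCast, AddSubmonoidClass.coe_finsetSum,
        MulMemClass.coe_mul, sum_mul]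
      refine sum_congr rfl fun ξ hξ => ?_
      rw [show ((resMult y χ ξ : secField y) : ℂ) = (resMult y χ ξ : ℂ) from
        map_intCast (secField y).val _, ← (mem_filter.1 hξ).2]
    have hone : ∑ ψ ∈ blockFinset (principalBlock M C0), (w ψ : ℂ) * (ψ : C0 → ℂ) 1 ≠ 0 := by
      have h := hval 1 1
      simp only [AlgEquiv.one_apply, OneMemClass.coe_one] at h
      rw [h]
      have hone : ¬ p ∣ orderOf (1 : (Subgroup.centralizer ({y} : Set G))) := by rw [orderOf_one]; exact hp.out.not_dvd_one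
      have h' : (χ : G → ℂ) y = secPart y b χ 1 := by
        rw [← apply_eq_secPart_principal y hy hM (mem_blockFinset.1 hB) hone, mul_one]
        rfl
      rw [sum_congr rfl (g := fun ξ : IrrCharacter (Subgroup.centralizer ({y} : Set G)) =>
        (resMult y χ ξ : ℂ) * (ξ : (Subgroup.centralizer ({y} : Set G)) → ℂ) (cenElem y * 1)) (fun ξ _ => by
          rw [(centralVal_spec ξ (commute_cenElem y)).2 1, coe_cv, mul_assoc]),
        show ∑ ξ ∈ blockFinset b, (resMult y χ ξ : ℂ) * (ξ : (Subgroup.centralizer ({y} : Set G)) → ℂ) (cenElem y * 1) =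
          secPart y b χ 1 from rfl, ← h']
      intro h0
      obtain ⟨k, hk⟩ := hy
      have h3 := CfsgLib.Correspondences.memLocalIdeal_apply_sub_one hM
        (IsIrrCharacter.isCharacter χ.2) (g := y) (k := k) (by rw [← hk, pow_orderOf_eq_one])
      rw [h0, zero_sub, (charDegree_spec χ).1] at h3
      have h4 := memLocalIdeal_sub memLocalIdeal_zero h3
      rw [sub_neg_eq_add, zero_add] at h4
      exact hdeg ((memLocalIdeal_natCast_iff hM _).1 h4)
    have h := R.galCard_mul_card_le w hwi hone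
    rw [mul_assoc]
    refine le_trans (mul_le_mul_of_nonneg_left h (pow_nonneg hp0.le _)) (le_of_eq ?_)
    rw [diagSum, galSum, mul_sum, mul_sum]
    refine sum_congr rfl fun σ _ => ?_
    rw [conjugate_secX_eq, hcard]
    have hsum : ∑ s : (Subgroup.centralizer ({y} : Set G)), (if p ∣ orderOf s then 0 else
        ‖∑ ξ ∈ blockFinset b, (resMult y χ ξ : ℂ) * ((σ (cv y ξ) : secField y) : ℂ) *
          (ξ : (Subgroup.centralizer ({y} : Set G)) → ℂ) s‖ ^ 2) = ∑ c : C0, (if p ∣ orderOf c then 0 else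
        ‖∑ ψ ∈ blockFinset (principalBlock M C0),
          ((σ (w ψ) : secField y) : ℂ) * (ψ : C0 → ℂ) c‖ ^ 2) := by
      refine (Fintype.sum_of_injective (fun c : C0 => (c : (Subgroup.centralizer ({y} : Set G)))) Subtype.val_injective _ _
        (fun s hs => ?_) fun c => ?_).symm
      · rw [if_pos]
        by_contra hn
        exact hs ⟨⟨s, hreg s hn⟩, rfl⟩
      · rw [Subgroup.orderOf_coe, hval]
    rw [hsum]
    push_cast
    field_simp
    ring
  have hg : 0 < conjCount y := galCard_pos _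
  have hX : 0 < R.X.card := by
    refine card_pos.2 (nonempty_iff_ne_empty.2 fun h => R.D_ne ?_)
    have h2 := R.mul_sum_eq (fun ψ => if ψ = trivIrr C0 then 1 else 0) (g := (1 : C0))
      (by rw [orderOf_one]; exact hp.out.not_dvd_one)
    have hmem : trivIrr C0 ∈ blockFinset (principalBlock M C0) := mem_blockFinset.2 (sameBlock_refl _)
    simp only [h, sum_empty, ite_mul, one_mul, zero_mul, sum_ite_eq', trivIrr_apply] at h2
    rw [if_pos hmem, mul_one] at h2
    exact_mod_cast h2
  have h2 := sum_le_sum h1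
  rw [sum_const, nsmul_eq_mul, ← mul_sum] at h2
  have h3 : ∑ χ ∈ S, diagSum y b p χ ≤ ((p ^ d * R.X.card : ℕ) : ℝ) * conjCount y := by
    refine le_trans ?_ (mul_le_mul_of_nonneg_right
      (Nat.cast_le.2 (Nat.mul_le_mul_left _ hrank)) hg.le)
    rw [← sum_diagSum y b hM hy hind]
    refine sum_le_sum_of_subset_of_nonneg (filter_subset _ _) fun χ _ _ => sum_nonneg fun σ _ => ?_
    obtain ⟨r, hr, e⟩ := totNonneg_secX y b hM hy hind χ σ
    rw [e]; exact hr
  have h4 := h2.trans (mul_le_mul_of_nonneg_left h3 (mul_nonneg hp0.le hp0.le))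
  have h5 : (S.card : ℝ) ≤ (p : ℝ) * p := by
    push_cast at h4
    refine le_of_mul_le_mul_right h4 (mul_pos (mul_pos (pow_pos hp0 d) (Nat.cast_pos.2 hX)) hg)
  rw [sq]
  exact_mod_cast h5

/-- The bound. -/
theorem card_le (h2 : (Nat.card (Subgroup.centralizer ({y} : Set G))).factorization p ≤ 2) (h1 : y = 1 → ¬ p ∣ Nat.card (Subgroup.centralizer ({y} : Set G))) :
    Nat.card {χ : IrrCharacter G // χ ∈ principalBlock M G ∧ ¬ p ∣ charDegree (χ : G → ℂ)} ≤
      p ^ 2 := by
  classical
  have hy' : ∃ k : ℕ, orderOf (cenElem y) = p ^ k := by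
    obtain ⟨k, hk⟩ := hy
    exact ⟨k, by rw [← Subgroup.orderOf_coe]; exact hk⟩
  have hcase : ∀ O : Subgroup (Subgroup.centralizer ({y} : Set G)), O.Normal → ¬ p ∣ Nat.card O →
      (∀ s : (Subgroup.centralizer ({y} : Set G)), ¬ p ∣ orderOf s → s ∈ O) →
      Nat.card {χ : IrrCharacter G // χ ∈ principalBlock M G ∧ ¬ p ∣ charDegree (χ : G → ℂ)} ≤
        p ^ 2 := fun O hn hO hreg =>
    haveI := hn
    (card_le_of_rank_le_one y hM hy (blockRank_le_one hM O hO hreg)).trans
      (Nat.pow_le_pow_right hp.out.pos h2)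
  rcases cases_of_central (commute_cenElem y) hy' h2
      (fun e => h1 (congrArg Subtype.val e)) with ⟨O, hn, hO, hreg⟩ | ⟨hyp, hv, C0, hnot, hcard, hreg⟩
  · exact hcase O hn hO hreg
  haveI := Fintype.ofFinite C0
  obtain ⟨P⟩ := (Sylow.nonempty : Nonempty (Sylow p C0))
  have hv0 : (Nat.card C0).factorization p = 1 := by
    have h := hv
    rw [hcard, Nat.factorization_mul hp.out.ne_zero Nat.card_pos.ne', Finsupp.add_apply,
      hp.out.factorization_self] at h
    omega
  have hP : Nat.card (P : Subgroup C0) = p := by rw [P.card_eq_multiplicity, hv0, pow_one]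
  obtain ⟨m, hm⟩ : ∃ m, (Subgroup.centralizer ((P : Subgroup C0) : Set C0)).relIndex
      (Subgroup.normalizer ((P : Subgroup C0) : Set C0)) = m := ⟨_, rfl⟩
  by_cases hm1 : 1 < m
  · obtain ⟨R⟩ := exists_rows hM hP hm hm1
    exact card_le_of_split y hM hy hyp hnot hcard hreg R
  · have hm0 : m ≠ 0 := hm ▸ Subgroup.index_ne_zero_of_finite
    obtain ⟨O0, hn0, hO0, hreg0⟩ := exists_core P (Subgroup.relIndex_eq_one.1 (by omega))
    have hmem : ∀ s : (Subgroup.centralizer ({y} : Set G)), s ∈ O0.map C0.subtype ↔ ¬ p ∣ orderOf s := by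
      intro s
      constructor
      · rintro ⟨c, hc, rfl⟩ hd
        rw [Subgroup.coe_subtype, Subgroup.orderOf_coe] at hd
        exact hO0 (hd.trans (Subgroup.orderOf_dvd_natCard _ hc))
      · intro hs
        exact ⟨⟨s, hreg s hs⟩, hreg0 _ (by rwa [← Subgroup.orderOf_coe]), rfl⟩
    refine hcase (O0.map C0.subtype) ⟨fun a ha g => ?_⟩ ?_ fun s hs => (hmem s).2 hs
    · rw [hmem] at ha ⊢
      rwa [show orderOf (g * a * g⁻¹) = orderOf a from (MulAut.conj g).orderOf_eq a]
    · rwa [Subgroup.card_map_of_injective Subtype.val_injective]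

end Bound

end CfsgLib.BlockLocal.SmallCentralizer
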